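import Cfsg.Agent.H7.Bf0

set_option autoImplicit false
set_option linter.unusedVariables false
set_option linter.unusedSectionVars false

namespace Cfsg.Agent.H7.Bf
open Subgroup Cfsg.Agent.H19.Gt Cfsg.Agent.H1.G2
universe u
variable {G : Type u} {K : Type*} [Group G] [Finite G] [CommGroup K] {τ : K × K →* G} {u v : G} {z : K} {S : Sylow 2 G}

theorem b6c_abs {Q : Type*} [Group Q] {n a b : Q} (ho : Odd (orderOf n)) (aa : a * a = 1)
    (h1 : n * a * n⁻¹ = a) (h2 : n * b * n⁻¹ = a ∨ n * b * n⁻¹ = b ∨ n * b * n⁻¹ = a * b) (ne : b ≠ a) :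
    n * b * n⁻¹ = b := by
  rcases h2 with e | e | e
  · exact absurd (by simpa using e.trans h1.symm) ne
  · exact e
  · have c : Commute (n ^ 2) b := by
      have : n ^ 2 * b * (n ^ 2)⁻¹ = b := by
        calc n ^ 2 * b * (n ^ 2)⁻¹ = n * (n * b * n⁻¹) * n⁻¹ := by rw [pow_two]; group
          _ = b := by rw [e, ← conj_mul, h1, e, ← mul_assoc, aa, one_mul]
      exact mul_inv_eq_iff_eq_mul.1 this
    obtain ⟨k, hk⟩ := ho
    have e2 : n = (n ^ 2) ^ (k + 1) := by
      rw [← pow_mul, show 2 * (k + 1) = 2 * k + 1 + 1 by ring, ← hk, pow_succ, pow_orderOf_eq_one, one_mul]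
    have c2 : Commute n b := by rw [e2]; exact c.pow_left _
    rw [c2.eq, mul_inv_cancel_right]

theorem b6c_abs2 {Q : Type*} [Group Q] {n a b : Q} (ho : Odd (orderOf n)) (aa : a * a = 1) (bb : b * b = 1)
    (ab : a * b = b * a) (a1 : a ≠ 1) (b1 : b ≠ 1) (ne : a ≠ b)
    (ha : n * a * n⁻¹ = a ∨ n * a * n⁻¹ = b ∨ n * a * n⁻¹ = a * b)
    (hb : n * b * n⁻¹ = a ∨ n * b * n⁻¹ = b ∨ n * b * n⁻¹ = a * b)
    (hf : n * a * n⁻¹ = a ∨ n * b * n⁻¹ = b ∨ n * (a * b) * n⁻¹ = a * b) :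
    n * a * n⁻¹ = a ∧ n * b * n⁻¹ = b := by
  have k : n * a * n⁻¹ = a := by
    rcases hf with e | e | e
    · exact e
    · exact b6c_abs ho bb e (by rw [← ab]; tauto) ne
    · refine b6c_abs (a := a * b) ho (by rw [mul_assoc, ← mul_assoc b, ← ab, mul_assoc, bb, mul_one, aa]) e
        (by rw [show a * b * a = b by rw [ab, mul_assoc, aa, mul_one]]; tauto) fun e1 => b1 ?_
      exact (mul_eq_left.1 e1.symm)
  exact ⟨k, b6c_abs ho aa k hb ne.symm⟩

theorem b6c_of (h : Cw S τ u v z) (hM : h.gz.M.Normal) (h3 : 3 ∣ Nat.card G) (X : Sylow 3 G)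
    (hA : ∀ n : G, Odd (orderOf n) →
      (∀ s, InE τ u z s → n * s * n⁻¹ = s ∨ n * s * n⁻¹ = s * τ (z, z)) → n = 1) :
    h.gz.M ⊓ centralizer ((X : Subgroup G) : Set G) = zpowers (τ (z, z)) := by
  have gz := h.gz
  have g := gz.toGs
  haveI := gz.fin
  haveI : Fact (Nat.Prime 3) := ⟨Nat.prime_three⟩
  refine le_antisymm ?_ (zpowers_le.2 ⟨gz.Q_le gz.tQ, fun x _ => h.cen x⟩)
  rintro m ⟨mM, mC⟩
  by_contra mt
  have m1 : m ≠ 1 := fun e => mt (e ▸ one_mem _)
  have m2 : m ≠ τ (z, z) := fun e => mt (e ▸ mem_zpowers _)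
  obtain ⟨n, nX, n1⟩ : ∃ n ∈ (X : Subgroup G), n ≠ 1 := by
    by_contra c
    push Not at c
    exact X.ne_bot_of_dvd_card h3 ((eq_bot_iff_forall _).2 c)
  have ho : Odd (orderOf n) := by
    obtain ⟨k, hk⟩ := X.isPGroup' ⟨n, nX⟩
    exact Odd.of_dvd_nat (Odd.pow (by decide : Odd 3))
      (orderOf_dvd_of_pow_eq_one (show n ^ 3 ^ k = 1 from congrArg Subtype.val hk))
  have nm : Commute n m := mC n nX
  obtain ⟨ρ, hρ, -⟩ := gz.rho
  have p4 : ∀ a : K, a * a = 1 ∨ a * a = z := fun a => gz.inv2 (by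
    rw [← pow_two, ← pow_two, ← pow_mul, show 2 * 2 = 4 from rfl, ← h.four]; exact pow_card_eq_one')
  have nsq : ∀ a : K, a * a = z → ¬ IsSquare a := by
    rintro _ e ⟨b, rfl⟩
    rcases p4 b with e1 | e1 <;> rw [e1] at e
    · exact gz.z1 (by rw [← e, mul_one])
    · exact gz.z1 (by rw [← e, gz.zz])
  have cls : ∀ a : K, a * a = z → a = ρ ∨ a = ρ * z := fun a e => by
    rcases gz.inv2 (a := ρ⁻¹ * a) (by rw [mul_mul_mul_comm, ← mul_inv, hρ, e, inv_mul_cancel]) with e1 | e1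
    · exact .inl (inv_mul_eq_one.1 e1).symm
    · exact .inr (inv_mul_eq_iff_eq_mul.1 e1)
  have nsq' : ∀ a : K, ¬ IsSquare a → a * a = z := fun a ha => (p4 a).resolve_left fun e => ha (by
    rcases gz.inv2 e with rfl | rfl
    exacts [IsSquare.one, gz.zsq])
  haveI : (zpowers (τ (z, z))).Normal := ⟨fun x hx c => by
    obtain ⟨k, rfl⟩ := mem_zpowers_iff.1 hx
    rw [(Commute.zpow_right (h.cen c) k).eq, mul_inv_cancel_right]; exact hx⟩
  let π := QuotientGroup.mk' (zpowers (τ (z, z)))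
  have hπ : ∀ a b : G, π a = π b → a = b ∨ a = b * τ (z, z) := fun a b e => by
    obtain ⟨y, hy, rfl⟩ := (QuotientGroup.mk'_eq_mk' _).1 e.symm
    obtain ⟨k, rfl⟩ := mem_zpowers_iff.1 hy
    have d2 : τ (z, z) ^ (2 : ℤ) = 1 := by rw [zpow_two, gz.tt]
    rcases Int.even_or_odd' k with ⟨j, rfl | rfl⟩
    · left; rw [zpow_mul, d2, one_zpow, mul_one]
    · right; rw [zpow_add, zpow_mul, d2, one_zpow, one_mul, zpow_one]
  have πt : π (τ (z, z)) = 1 := (QuotientGroup.eq_one_iff _).2 (mem_zpowers _)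
  obtain ⟨y, hy⟩ : ∃ y, y = τ (z, 1) := ⟨_, rfl⟩
  obtain ⟨e, he⟩ : ∃ e, e = τ (ρ, ρ) * u := ⟨_, rfl⟩
  have ye : y * e = τ (ρ * z, ρ) * u := by rw [hy, he, tm', one_mul, mul_comm z]
  have rz : ρ * z * (ρ * z) = z := by rw [mul_mul_mul_comm, hρ, gz.zz, mul_one]
  have tu : ∀ a b, τ (a * z, b * z) * u = τ (a, b) * u * τ (z, z) := fun a b => by
    rw [mul_assoc, h.cen u, tm']
  have fI : ∀ s, InE τ u z s → π s = π y ∨ π s = π e ∨ π s = π y * π e := by
    rintro _ (rfl | rfl | ⟨a, b, ha, hb, rfl⟩)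
    · exact .inl (by rw [hy])
    · refine .inl ?_
      rw [show τ (1, z) = y * τ (z, z) by rw [hy, tm, gz.zz, one_mul], map_mul, πt, mul_one]
    · right
      rw [← map_mul, ye, he]
      rcases cls a (nsq' a ha) with rfl | rfl <;> rcases cls b (nsq' b hb) with e1 | e1 <;> rw [e1]
      · exact .inl rfl
      · right
        rw [show τ (a, a * z) * u = τ (a * z, a) * u * τ (z, z) by rw [← tu, mul_assoc a, gz.zz, mul_one],
          map_mul _ _ (τ (z, z)), πt, mul_one]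
      · exact .inr rfl
      · left
        rw [tu, map_mul _ _ (τ (z, z)), πt, mul_one]
  have Iy : InE τ u z y := .inl hy
  have Ie : InE τ u z e := .inr (.inr ⟨ρ, ρ, nsq _ hρ, nsq _ hρ, he⟩)
  have Iye : InE τ u z (y * e) := .inr (.inr ⟨_, ρ, nsq _ rz, nsq _ hρ, ye⟩)
  have yM : y ∈ gz.M := hy ▸ gz.yM
  have eM : e ∈ gz.M := ⟨ρ, ρ, ⟨ρ, rfl⟩, .inr (.inl he)⟩
  have nI : ∀ s ∈ gz.M, InE τ u z s → InE τ u z (n * s * n⁻¹) := fun s hs hI =>
    (h.fe _ (gz.M_le (hM.conj_mem s hs n))).1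
      ((isConj_iff.2 ⟨n, rfl⟩).symm.trans ((h.fe s (gz.M_le hs)).2 hI))
  have cπ : ∀ s s', π s = π s' → Commute s' m → Commute s m := fun s s' e1 c => by
    rcases hπ _ _ e1 with rfl | rfl
    · exact c
    · exact c.mul_left (h.cen m).symm
  have cn : ∀ s, Commute s m → Commute (n * s * n⁻¹) m := fun s c => (nm.mul_left c).mul_left nm.inv_left
  have πc : ∀ s, π (n * s * n⁻¹) = π n * π s * (π n)⁻¹ := fun s => by rw [map_mul, map_mul, map_inv]
  have yy : y * y = 1 := by rw [hy, tm, gz.zz, one_mul, t1]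
  have ee : e * e = 1 := by rw [he, mul_assoc, g.ut', g.uu, mul_one, tm, mul_inv_cancel, t1]
  have yc : y * e = e * y := by rw [hy, he]; exact g.cu.2 ⟨gz.zz, one_mul 1⟩
  have R : ∀ s, (∀ a b, IsSquare (a * b) → π (τ (a, b)) * π s = π s * π (τ (a, b))) →
      π u * π s = π s * π u → π v * π s = π s * π v → π m * π s = π s * π m := fun s c1 c2 c3 => by
    obtain ⟨a, b, hab, rfl | rfl | rfl | rfl⟩ := mM
    · exact c1 a b hab
    · rw [map_mul]; exact Commute.mul_left (c1 a b hab) c2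
    · rw [map_mul]; exact Commute.mul_left (c1 a b hab) c3
    · rw [map_mul, map_mul]; exact Commute.mul_left (c1 a b hab) (Commute.mul_left c2 c3)
  have Ry : π m * π y = π y * π m := R y
    (fun a b _ => by rw [← map_mul, ← map_mul, hy, tm, tm, mul_comm a, mul_comm b])
    (by rw [← map_mul, ← map_mul, hy, g.ut, gz.zi, inv_one])
    (by
      rw [← map_mul, ← map_mul, hy, g.vt, show τ (1, z) * v = τ (z, 1) * v * τ (z, z) by
        rw [mul_assoc, h.cen v, tm', gz.zz, one_mul], map_mul _ _ (τ (z, z)), πt, mul_one])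
  have Re : π m * π e = π e * π m := R e
    (fun a b hab => by
      have e1 : τ (a, b) * e = e * τ (a, b) * τ (a⁻¹ * a⁻¹, b⁻¹ * b⁻¹) := by
        rw [he, mul_assoc, mul_assoc, tm, g.ut, tm', tm']
        congr 3 <;> simp [mul_comm]
      have e2 : b⁻¹ * b⁻¹ = a⁻¹ * a⁻¹ := by
        obtain ⟨c, hc⟩ := hab
        have e3 : a * a * (b * b) = 1 := by
          rw [mul_mul_mul_comm, hc]
          rcases p4 c with e4 | e4 <;> rw [e4]
          exacts [one_mul 1, gz.zz]
        rw [← mul_inv, ← mul_inv, inv_inj, eq_inv_of_mul_eq_one_right e3]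
        rcases p4 a with e4 | e4 <;> rw [e4]
        exacts [inv_one, gz.zi]
      rw [← map_mul, ← map_mul, e1, e2, map_mul _ _ (τ _)]
      rcases p4 a⁻¹ with e4 | e4 <;> rw [e4]
      · rw [t1, map_one, mul_one]
      · rw [πt, mul_one])
    (by
      rw [← map_mul, ← map_mul, show e * u = u * e * τ (z, z) by
        rw [he, g.ut', g.uu, mul_one, mul_assoc, g.uu, mul_one, tm, ← hρ, inv_mul_cancel_left],
        map_mul _ _ (τ (z, z)), πt, mul_one])
    (by rw [← map_mul, ← map_mul, he, g.vt', mul_assoc, g.uv])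
  have anti : ∀ s, π m * π s = π s * π m → ¬ Commute s m → m * s = s * m * τ (z, z) := fun s c nc =>
    (hπ _ _ (by rw [map_mul, map_mul, c])).resolve_left fun e1 => nc e1.symm
  have hf : π n * π y * (π n)⁻¹ = π y ∨ π n * π e * (π n)⁻¹ = π e ∨
      π n * (π y * π e) * (π n)⁻¹ = π y * π e := by
    have k1 : Commute (y * e) m → Commute y m → Commute e m := fun c c' => by
      simpa using c'.inv_left.mul_left c
    have k2 : Commute (y * e) m → Commute e m → Commute y m := fun c c' => by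
      simpa using c.mul_left c'.inv_left
    by_cases cy : Commute y m <;> by_cases ce : Commute e m
    · have mI : InE τ u z m := by
        obtain ⟨a, b, hab, rfl | rfl | rfl | rfl⟩ := mM
        · obtain ⟨ha, hb⟩ := g.cu.1 (he ▸ ce.eq.symm)
          rcases gz.inv2 ha with rfl | rfl <;> rcases gz.inv2 hb with rfl | rfl
          exacts [absurd (t1 τ) m1, .inr (.inl rfl), .inl rfl, absurd rfl m2]
        · have e1 := ce.eq
          rw [he, mul_assoc, mul_assoc, g.ut', g.ut', g.uu, mul_one, mul_one, tm, tm, g.teq] at e1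
          have k : ∀ c : K, ρ * c⁻¹ = c * ρ⁻¹ → c * c = z := fun c e2 => by
            rw [← hρ]
            calc c * c = c * ρ⁻¹ * (c * ρ) := by rw [mul_mul_mul_comm, inv_mul_cancel, mul_one]
              _ = ρ * ρ := by rw [← e2, mul_assoc, inv_mul_cancel_left]
          exact .inr (.inr ⟨a, b, nsq _ (k a e1.1), nsq _ (k b e1.2), rfl⟩)
        · exact absurd (g.cv.1 (hy ▸ cy.eq)) gz.z1
        · exact absurd (inv_eq_one.1 (g.cw.1 (hy ▸ cy.eq)).symm) gz.z1
      have fm : π n * π m * (π n)⁻¹ = π m := by rw [← πc, nm.eq, mul_inv_cancel_right]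
      rcases fI m mI with e1 | e1 | e1 <;> rw [e1] at fm <;> tauto
    · left
      rcases fI _ (nI y yM Iy) with e1 | e1 | e1
      · rw [← πc, e1]
      · exact absurd (cπ _ _ e1.symm (cn y cy)) ce
      · exact absurd (k1 (cπ _ _ (by rw [map_mul, e1]) (cn y cy)) cy) ce
    · right; left
      rcases fI _ (nI e eM Ie) with e1 | e1 | e1
      · exact absurd (cπ _ _ e1.symm (cn e ce)) cy
      · rw [← πc, e1]
      · exact absurd (k2 (cπ _ _ (by rw [map_mul, e1]) (cn e ce)) ce) cy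
    · right; right
      have c3 : Commute (y * e) m := by
        show y * e * m = m * (y * e)
        calc y * e * m = y * (e * m * τ (z, z) * τ (z, z)) := by
              rw [mul_assoc (e * m), gz.tt, mul_one, mul_assoc]
          _ = y * m * (e * τ (z, z)) := by rw [← anti e Re ce]; simp only [mul_assoc]
          _ = m * (y * e) := by rw [h.cen e, ← mul_assoc, ← anti y Ry cy, mul_assoc]
      rcases fI _ (nI _ (mul_mem yM eM) Iye) with e1 | e1 | e1
      · exact absurd (cπ _ _ e1.symm (cn _ c3)) cy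
      · exact absurd (cπ _ _ e1.symm (cn _ c3)) ce
      · rw [← map_mul, ← πc, e1, map_mul]
  obtain ⟨f1, f2⟩ := b6c_abs2 (n := π n) (a := π y) (b := π e)
    (ho.of_dvd_nat (orderOf_map_dvd π n)) (by rw [← map_mul, yy, map_one]) (by rw [← map_mul, ee, map_one])
    (by rw [← map_mul, yc, map_mul])
    (fun e1 => by
      rcases hπ y 1 (e1.trans (map_one π).symm) with e2 | e2
      · exact gz.z1 (g.teq1.1 (hy ▸ e2)).1
      · rw [one_mul, hy, g.teq] at e2; exact gz.z1 e2.2.symm)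
    (fun e1 => by
      rcases hπ e 1 (e1.trans (map_one π).symm) with e2 | e2
      · exact gz.ne_u ρ ρ 1 1 (by rw [← he, e2, t1])
      · exact gz.ne_u ρ ρ z z (by rw [← he, e2, one_mul]))
    (fun e1 => by
      rcases hπ e y e1.symm with e2 | e2
      · exact gz.ne_u ρ ρ _ _ (by rw [← he, e2, hy])
      · exact gz.ne_u ρ ρ _ _ (by rw [← he, e2, hy, tm]))
    (πc y ▸ fI _ (nI y yM Iy)) (πc e ▸ fI _ (nI e eM Ie)) hf
  refine n1 (hA n ho fun s hs => hπ _ _ ?_)
  rw [πc]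
  rcases fI s hs with e1 | e1 | e1 <;> rw [e1]
  · exact f1
  · exact f2
  · rw [← conj_mul, f1, f2]

end Cfsg.Agent.H7.Bf
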