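import Mathlib
import Cfsg.Agent.H11.OBal

/-!
# Involutory graph automorphisms of orthogonal groups
-/

set_option autoImplicit false

namespace Cfsg.Agent.H11

open Module Polynomial

variable {F : Type*} [Field F] {V : Type*} [AddCommGroup V] [Module F V]

section generic

variable {σ : F →+* F} {B : V →ₛₗ[σ] V →ₗ[F] F} {Q : V → F} {ε κ : F} {τ : F →+ F}

theorem commute_ofIsom_iff {γ : SemiSim B Q} {g : Isom B Q} :
    Commute (ofIsom B Q g) γ ↔ ∀ x, γ.1.1 (g.1 x) = g.1 (γ.1.1 x) := by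
  rw [← semiConj_eq_iff, ← ofIsom_injective.eq_iff, ofIsom_semiConj, mul_inv_eq_iff_eq_mul,
    commute_iff_eq, eq_comm]

theorem IsBar.bal_cent [Nontrivial V] {h : IsForm ε κ τ B Q} {G : Subgroup (Isom B Q)}
    {K : Type*} [Group K] {Φ : SemiSim B Q →* MulAut K} (hΦ : IsBar h G Φ)
    (hG : ∀ γ, ∀ g ∈ G, semiConj B Q γ g ∈ G) {γ : SemiSim B Q} {p r : ℕ} [Fact r.Prime]
    [CharP F r]
    (h2 : ∀ M : Subgroup (Isom B Q), (∀ a ∈ M, a ∈ G ∧ Commute (ofIsom B Q a) γ) →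
      (∀ l ∈ G, Commute (ofIsom B Q l) γ → ∀ a ∈ M, l * a * l⁻¹ ∈ M) →
      (∀ a ∈ M, Φ (ofIsom B Q a) = 1) ∨ ∃ a ∈ M, orderOf (Φ (ofIsom B Q a)) = p)
    (h4 : ∀ θ, (∀ l ∈ G, Commute (ofIsom B Q l) γ → (∃ k, l ^ r ^ k = 1) →
      Commute θ (ofIsom B Q l)) → ∃ n, Φ θ ^ p ^ n = 1) : H10.Bal p (Φ γ) := by
  have hc : ∀ {l}, l ∈ Subgroup.centralizer {γ} ↔ Commute l γ :=
    Subgroup.mem_centralizer_singleton_iff
  refine bal_of_sub hΦ.inj hΦ.surj (G.map (ofIsom B Q) ⊓ Subgroup.centralizer {γ}) ?_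
    (fun l hl => hc.mp hl.2) (fun M hM hN => ?_) (fun k _ h2 => ?_)
    fun θ hθ => h4 θ fun l hl hl' ⟨k, hk⟩ => ?_
  · rintro _ ⟨⟨g, hg, rfl⟩, -⟩
    exact (hΦ.inn _).mpr ⟨1, g, hg, by simp⟩
  · refine (h2 (M.comap (ofIsom B Q)) (fun a ha => ?_) fun l hl hl' a ha => ?_).imp
      (fun H a ha => ?_) fun ⟨a, ha, e⟩ => ⟨_, ha, e⟩
    · obtain ⟨⟨g, hg, e⟩, h2⟩ := hM ha
      exact ⟨ofIsom_injective e ▸ hg, hc.mp h2⟩
    · simpa using hN _ ⟨⟨l, hl, rfl⟩, hc.mpr hl'⟩ _ ha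
    · obtain ⟨⟨g, hg, rfl⟩, -⟩ := hM ha
      exact H g ha
  · rintro _ ⟨⟨g, hg, rfl⟩, hg'⟩
    obtain ⟨c, e⟩ := hΦ.exists_scal h2
    rw [← ofIsom_semiConj]
    refine ⟨⟨_, hG k g hg, rfl⟩, hc.mpr ?_⟩
    have h1 : γ = h.semiScal c * (k * γ * k⁻¹) := by rw [← mul_assoc, ← mul_assoc, ← e]; simp
    rw [h1]
    refine (h.commute_semiScal rfl c).symm.mul_right ?_
    rw [ofIsom_semiConj]
    exact (hc.mp hg').map (MulAut.conj k)
  · exact h.commute_of_unip hΦ.ker rfl (k := k) (by rw [← map_pow, hk, map_one])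
      (hθ _ ⟨⟨l, hl, rfl⟩, hc.mpr hl'⟩)

end generic

theorem det_of_mul_self {n : Type*} [Fintype n] [DecidableEq n] {m : ℕ}
    (hn : Fintype.card n = 2 * m) (h2 : (2 : F) ≠ 0) {M : Matrix n n F} {c : F}
    (e : M * M = c • 1) (H : ¬ IsSquare c ∨ (-M).charpoly = M.charpoly) : M.det = (-c) ^ m := by
  have h1 : M.charpoly * (-M).charpoly = (X ^ 2 - C c) ^ (2 * m) := by
    rw [Matrix.charpoly, Matrix.charpoly, ← Matrix.det_mul, ← hn, ← mul_one (_ ^ _),
      ← Matrix.det_one (n := n), ← Matrix.det_smul]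
    congr 1
    have := congrArg (C : F →+* _).mapMatrix e
    simp only [Matrix.charmatrix, map_mul, map_neg, sub_neg_eq_add] at this ⊢
    rw [sub_mul, mul_add, mul_add, this, (Matrix.scalar_commute _ (fun _ => Commute.all _ _) _).eq]
    refine Matrix.ext fun i j => ?_
    by_cases hij : i = j <;> simp [hij, sq]
    ring
  have h3 : (X ^ 2 - C c : F[X]).Monic := monic_X_pow_sub_C c two_ne_zero
  have key : M.charpoly = (X ^ 2 - C c) ^ m := by
    rcases H with H | H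
    · have hi : Irreducible (X ^ 2 - C c : F[X]) := X_pow_sub_C_irreducible_of_prime Nat.prime_two
        fun b hb => H ⟨b, by rw [← hb, sq]⟩
      obtain ⟨k, -, hk⟩ := (dvd_prime_pow hi.prime _).mp ⟨_, h1.symm⟩
      have h4 := eq_of_monic_of_associated M.charpoly_monic (h3.pow k) hk
      have h5 := congrArg natDegree h4
      rw [M.charpoly_natDegree_eq_dim, h3.natDegree_pow, natDegree_X_pow_sub_C] at h5
      rw [h4, show k = m by omega]
    · rw [H, mul_comm 2, pow_mul, sq, mul_self_eq_mul_self_iff] at h1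
      refine h1.resolve_right fun h1 => h2 ?_
      have := congrArg leadingCoeff h1
      rw [leadingCoeff_neg, M.charpoly_monic, h3.pow m] at this
      linear_combination this
  rw [Matrix.det_eq_sign_charpoly_coeff, key, hn, coeff_zero_eq_eval_zero]
  simp

variable {B : V →ₗ[F] V →ₗ[F] F} {Q : V → F} [FiniteDimensional F V]

theorem det_of_sq (hB : B.SeparatingLeft) {m : ℕ} (hn : finrank F V = 2 * m) (h2 : (2 : F) ≠ 0)
    {g : V →ₗ[F] V} {c : F} (e : ∀ x, g (g x) = c • x)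
    (H : ¬ IsSquare c ∨ ∀ x y, B (g x) y = -B x (g y)) : LinearMap.det g = (-c) ^ m := by
  let b := finBasisOfFinrankEq F V hn
  rw [← LinearMap.det_toMatrix b]
  refine det_of_mul_self (by simp) h2 ?_ (H.imp_right fun H => ?_)
  · rw [← LinearMap.toMatrix_mul, ← LinearMap.toMatrix_one b, ← map_smul]
    exact congrArg _ (LinearMap.ext e)
  · have h1 : (LinearMap.toMatrix b b g).transpose * gram B b =
        gram B b * -LinearMap.toMatrix b b g := by
      ext i j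
      have e1 := congrArg (fun v => B v (b j)) (b.sum_repr (g (b i)))
      have e2 := congrArg (B (b i)) (b.sum_repr (g (b j)))
      simp only [map_sum, map_smul, LinearMap.sum_apply, LinearMap.smul_apply, smul_eq_mul] at e1 e2
      simp [Matrix.mul_apply, gram_apply, LinearMap.toMatrix_apply, e1, H, ← e2, mul_comm]
    have hd : IsUnit (gram B b).det := (gram_det_ne_zero (fun _ => rfl) hB b).isUnit
    rw [← Matrix.charpoly_transpose (LinearMap.toMatrix b b g),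
      ← Matrix.charpoly_units_conj ((Matrix.isUnit_iff_isUnit_det _).mpr hd).unit]
    simp only [IsUnit.unit_spec, ← h1, Matrix.coe_units_inv, Matrix.mul_nonsing_inv_cancel_right _ _ hd]

namespace IsQuad

theorem graph_cases [Finite F] (h : IsQuad B Q) (hB : B.SeparatingLeft) (h2 : (2 : F) ≠ 0) {m : ℕ}
    {hn : finrank F V = 2 * (m + 1)} {γ : Sim B Q} (hd : dS hB hn γ ≠ 1) {c : Fˣ}
    (e : γ.1 * γ.1 = h.semiScal c) :
    (∃ a s, s * s = 1 ∧ dick s.1 ≠ 0 ∧ γ.1 = h.semiScal a * ofIsom B Q s) ∨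
      (Even m ∧ ¬ IsSquare (c : F) ∧ ∀ x y, B (γ.1.1.1 x) y = B x (γ.1.1.1 y)) := by
  obtain ⟨u, v, huv⟩ := exists_B_ne_zero hB (by omega)
  have e1 : ∀ x, γ.1.1.1 (γ.1.1.1 x) = (c : F) • x := fun x =>
    congrArg (fun γ : SemiSim B Q => γ.1.1 x) e
  have e2 : ∀ x y, (c : F) * B (γ.1.1.1 x) y = SemiSim.mult γ.1 * B x (γ.1.1.1 y) := fun x y => by
    simpa [e1, mem_Sim.mp γ.2] using SemiSim.map_B γ.1 x (γ.1.1.1 y)
  have e3 := congrArg SemiSim.mult e
  rw [SemiSim.mult_mul huv, mem_Sim.mp γ.2, h.mult_semiScal huv] at e3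
  have hd' := fun H => mt (dS_eq_one.mpr ∘ (det_of_sq hB hn h2 (g := simLin B Q γ) e1 H).trans) hd
  rcases mul_self_eq_mul_self_iff.mp e3 with e3 | e3
  · by_cases hc : IsSquare (c : F)
    · obtain ⟨a, s, e4⟩ := h.exists_eq_scal_mul' hB (by omega) γ.2 (e3 ▸ hc)
      refine .inl ⟨a, s, ofIsom_injective ?_, mt (h.dS_scal_mul h2 e4).mpr hd, e4⟩
      have e5 : a * a = c := Units.ext (by
        rw [← show _ = (c : F) from e3, e4, h.mult_scal_mul hB (by omega)]; rfl)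
      rw [e4, mul_assoc, ← mul_assoc (ofIsom B Q s), ← h.semiScal_comm, ← e5, map_mul,
        mul_assoc, mul_right_inj, mul_eq_left] at e
      rw [map_mul, e, map_one]
    · refine .inr ⟨Nat.not_odd_iff_even.mp fun ho => hd' (.inl hc) ?_, hc, fun x y =>
        mul_left_cancel₀ c.ne_zero ((e2 x y).trans (by rw [e3]; rfl))⟩
      rw [ho.add_one.neg_pow, show _ = (c : F) from e3]
  · replace e3 : SemiSim.mult γ.1 = -c := e3
    refine absurd (by rw [e3]) (hd' (.inr fun x y => mul_left_cancel₀ c.ne_zero ?_))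
    rw [mul_neg, ← neg_mul, ← e3]
    exact e2 x y

theorem scal_on [Finite F] (h : IsQuad B Q) {W : Submodule F V} (hW : NondegOn B W)
    (hn : 3 ≤ finrank F W) {θ : SemiSim B Q}
    (H : ∀ u ∈ W, ∀ w ∈ W, Q u = 0 → B u w = 0 → Q w ≠ 0 → ∃ c : F, θ.1.1 u = c • u) :
    θ.1.2 = 1 ∧ ∃ a : F, ∀ x ∈ W, θ.1.1 x = a • x := by
  obtain ⟨a, h1, h2⟩ := emb_fix' (h.restrict W) (nondegOn_iff.mp hW) hn (j := RingHom.id F)
    (t := W.subtype) (μ := 1) (B' := B) (by simp [pull_apply]) one_ne_zero θ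
    fun u w => H u u.2 w w.2
  exact ⟨RingEquiv.ext h2, a, fun x hx => h1 ⟨x, hx⟩⟩

theorem sq_eq_scal [Finite F] (h : IsQuad B Q) (hB : B.SeparatingLeft) (hn : 4 ≤ finrank F V)
    {W : Submodule F V} (hW : NondegOn B W) (ho : Odd (finrank F W))
    (ho' : Odd (finrank F (perp B W))) {θ : SemiSim B Q}
    (H : ∀ U, U = W ∨ U = perp B W →
      ∀ u ∈ U, ∀ w ∈ U, Q u = 0 → B u w = 0 → Q w ≠ 0 → ∃ c : F, θ.1.1 u = c • u) :
    ∃ a, θ * θ = h.semiScal a := by
  have h0 := h.finrank_perp hB W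
  wlog h3 : 3 ≤ finrank F W generalizing W
  · refine this (h.nondegOn_perp hB hW) ho' (by rwa [h.perp_perp hB])
      (fun U hU => H U (by rwa [h.perp_perp hB, or_comm] at hU)) (h.finrank_perp hB _) ?_
    obtain ⟨k, hk⟩ := ho
    omega
  have hW' := h.nondegOn_perp hB hW
  obtain ⟨h1, a, ha⟩ := h.scal_on hW h3 (H _ (.inl rfl))
  have key : ∀ {U : Submodule F V} {a : F}, NondegOn B U → Odd (finrank F U) →
      (∀ x ∈ U, θ.1.1 x = a • x) → ∀ x ∈ U, θ.1.1 (θ.1.1 x) = SemiSim.mult θ • x := by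
    intro U a hU ho ha x hx
    obtain ⟨v, hv⟩ := exists_nonsingular' (h.restrict U) (nondegOn_iff.mp hU) ho.pos
    have := SemiSim.map_Q θ v
    rw [ha v v.2, h.smul', h1] at this
    rw [ha x hx, ha _ (U.smul_mem a hx), smul_smul, mul_right_cancel₀ hv this]
  obtain ⟨b, hb⟩ : ∃ a : F, ∀ x ∈ perp B W, θ.1.1 x = a • x := by
    by_cases h3' : 3 ≤ finrank F (perp B W)
    · exact (h.scal_on hW' h3' (H _ (.inr rfl))).2
    obtain ⟨x, -, hx⟩ := exists_eq_span_singleton (U := perp B W) (by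
      obtain ⟨k, hk⟩ := ho'; omega)
    have h4 : θ.1.1 x ∈ perp B W := mem_perp.mpr fun w hw => by
      have h5 : a ≠ 0 := by
        rintro rfl
        obtain ⟨y, hy⟩ := finrank_pos_iff_exists_ne_zero.mp ho.pos
        exact hy (Subtype.ext ((SemiSim.map_eq_zero θ).mp (by simpa using ha y y.2)))
      simpa [ha w hw, h5] using (SemiSim.B_eq_zero θ).mpr
        (mem_perp.mp (hx ▸ Submodule.mem_span_singleton_self x) w hw)
    rw [hx] at h4 ⊢
    obtain ⟨b, hb⟩ := Submodule.mem_span_singleton.mp h4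
    refine ⟨b, fun y hy => ?_⟩
    obtain ⟨d, rfl⟩ := Submodule.mem_span_singleton.mp hy
    rw [SemiSim.map_smul, h1, ← hb, smul_comm b]; rfl
  refine ⟨Units.mk0 _ (SemiSim.mult_ne_zero θ), Subtype.ext (Prod.ext (Equiv.ext fun x => ?_)
    (by simp [h1])) ⟩
  obtain ⟨y, hy, z, hz, rfl⟩ := Submodule.mem_sup.mp
    ((h.isCompl_perp hB hW).sup_eq_top.ge (Submodule.mem_top (x := x)))
  change θ.1.1 (θ.1.1 _) = SemiSim.mult θ • _
  rw [SemiSim.map_add, SemiSim.map_add, key hW ho ha y hy, key hW' ho' hb z hz, smul_add]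

omit [FiniteDimensional F V] in
theorem invol_apply {s : Isom B Q} (hs : s * s = 1) (x : V) : s.1 (s.1 x) = x :=
  congrArg (fun g : Isom B Q => g.1 x) hs

omit [FiniteDimensional F V] in
theorem mem_perp_fixS (hB : B.SeparatingLeft) (h2 : (2 : F) ≠ 0) (h : IsQuad B Q) {s : Isom B Q}
    (hs : s * s = 1) {x : V} : x ∈ perp B (fixS s.1) ↔ s.1 x = -x := by
  refine ⟨fun hx => ?_, fun hx => mem_perp.mpr fun y hy => ?_⟩
  · refine eq_neg_of_add_eq_zero_left (hB _ fun y => ?_)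
    have := mem_perp.mp hx (s.1 y + y) (by rw [mem_fixS, map_add, invol_apply hs, add_comm])
    rw [map_add, LinearMap.add_apply, ← s.2.1 (s.1 x), invol_apply hs, ← map_add, h.comm, this]
  · have := s.2.1 y x
    rw [mem_fixS.mp hy, hx, map_neg] at this
    exact (mul_eq_zero.mp (by linear_combination -this : 2 * B y x = 0)).resolve_left h2

omit [FiniteDimensional F V] in
theorem nondegOn_fixS (hB : B.SeparatingLeft) (h2 : (2 : F) ≠ 0) (h : IsQuad B Q) {s : Isom B Q}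
    (hs : s * s = 1) : NondegOn B (fixS s.1) := fun x hx H => by
  have := (h.mem_perp_fixS hB h2 hs).mp (h.mem_perp'.mpr H)
  rw [mem_fixS.mp hx, eq_neg_iff_add_eq_zero, ← two_smul F] at this
  exact (smul_eq_zero.mp this).resolve_left h2

theorem odd_fixS (hB : B.SeparatingLeft) (h : IsQuad B Q) (he : Even (finrank F V))
    {s : Isom B Q} (hd : dick s.1 ≠ 0) :
    Odd (finrank F (fixS s.1)) ∧ Odd (finrank F (perp B (fixS s.1))) := by
  have h1 := h.finrank_perp hB (fixS s.1)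
  have h2 : finrank F (movS s.1) + finrank F (fixS s.1) = finrank F V :=
    LinearMap.finrank_range_add_finrank_ker _
  rw [Ne, dick_eq_zero_iff] at hd
  grind

omit [FiniteDimensional F V] in
theorem commute_eich (hB : B.SeparatingLeft) (h2 : (2 : F) ≠ 0) (h : IsQuad B Q) {s : Isom B Q}
    (hs : s * s = 1) {U : Submodule F V} (hU : U = fixS s.1 ∨ U = perp B (fixS s.1)) {u w : V}
    (hu : u ∈ U) (hw : w ∈ U) (h3 : Q u = 0) (h4 : B u w = 0) :
    Commute (ofIsom B Q (h.eich h3 h4)) (ofIsom B Q s) := by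
  refine commute_ofIsom_iff.mpr fun x => ?_
  have e : ∀ y, B y (s.1 x) = B (s.1 y) x := fun y => by rw [← s.2.1, invol_apply hs]
  rcases hU with rfl | rfl
  · simp [eich_apply, e, mem_fixS.mp hu, mem_fixS.mp hw]
  · simp [eich_apply, e, (h.mem_perp_fixS hB h2 hs).mp hu, (h.mem_perp_fixS hB h2 hs).mp hw]

variable [Finite F] (h : IsQuad B Q) (hB : B.SeparatingLeft) (h2 : (2 : F) ≠ 0)
  {K : Type*} [Group K] {Φ : SemiSim B Q →* MulAut K} (hΦ : IsBar h (commutator _) Φ)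
include hB h2 hΦ

theorem bal_invol (hn : 4 ≤ finrank F V) (he : Even (finrank F V)) {s : Isom B Q} (hs : s * s = 1)
    (hd : dick s.1 ≠ 0) : H10.Bal 2 (Φ (ofIsom B Q s)) := by
  obtain ⟨r, hr⟩ := CharP.exists F
  have : Fact r.Prime := ⟨CharP.char_is_prime F r⟩
  have := Module.nontrivial_of_finrank_pos (R := F) (M := V) (by omega)
  have hex := h.nonExc_of_two_ne_zero hB h2
  have hW := h.nondegOn_fixS hB h2 hs
  obtain ⟨ho, ho'⟩ := h.odd_fixS hB he hd
  refine hΦ.bal_cent (r := r) semiConj_mem_commutator (fun M h3 h4 => ?_) fun θ hθ => ⟨1, ?_⟩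
  · refine or_iff_not_imp_left.mpr fun H => ?_
    obtain ⟨m, hm, H⟩ := not_forall₂.mp H
    by_cases h5 : ∀ U, U = fixS s.1 ∨ U = perp B (fixS s.1) → ∀ u ∈ U, Q u = 0 →
        ∃ c : F, m.1 u = c • u
    · obtain ⟨a, e⟩ := h.sq_eq_scal hB hn hW ho ho' (θ := ofIsom B Q m)
        fun U hU u hu _ _ h6 _ _ => h5 U hU u hu h6
      exact ⟨m, hm, orderOf_eq_prime (by rw [sq, ← map_mul]; exact (hΦ.ker _).mpr ⟨a, e⟩) H⟩
    push Not at h5
    obtain ⟨U, hU, u, hu, h5, h6⟩ := h5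
    have e : ∀ x, s.1 (m.1 x) = m.1 (s.1 x) := commute_ofIsom_iff.mp (h3 m hm).2
    have hmU : ∀ x, x ∈ U ↔ m.1 x ∈ U := fun x => by
      rcases hU with rfl | rfl
      · rw [mem_fixS, mem_fixS, e, m.1.injective.eq_iff]
      · rw [h.mem_perp_fixS hB h2 hs, h.mem_perp_fixS hB h2 hs, e, ← map_neg,
          m.1.injective.eq_iff]
    obtain ⟨g, hg, h7, h8⟩ := h.exists_two_elt h2 (r := r) (W := U)
      (by rcases hU with rfl | rfl; exacts [hW, h.nondegOn_perp hB hW]) (by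
        by_contra h7
        obtain ⟨x, -, rfl⟩ := exists_eq_span_singleton (U := U) (by
          rcases hU with rfl | rfl <;> grind)
        obtain ⟨c, rfl⟩ := Submodule.mem_span_singleton.mp hu
        obtain ⟨d, hd⟩ := Submodule.mem_span_singleton.mp
          ((hmU x).mp (Submodule.mem_span_singleton_self x))
        exact h6 d (by rw [map_smul, ← hd, smul_comm]))
      (fun u hu w hw _ _ => h4 _ (h.eich_mem_commutator hB hex _ _)
        (h.commute_eich hB h2 hs hU hu hw _ _)) hm hmU hu h5 h6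
    refine exists_orderOf_two (Φ.comp (ofIsom B Q)) hg (fun e => ?_) (by rw [← map_pow, h7, map_one])
    obtain ⟨a, e⟩ := (hΦ.ker _).mp e
    exact h8 a (congrArg (fun γ : SemiSim B Q => γ.1.1 u) e)
  · rw [pow_one, sq, ← map_mul]
    exact (hΦ.ker _).mpr (h.sq_eq_scal hB hn hW ho ho' fun U hU u hu w hw h3 h4 h5 =>
      h.fix_of_commute_eich hB h3 h4 h5 (hθ _ (h.eich_mem_commutator hB hex _ _)
        (h.commute_eich hB h2 hs hU hu hw _ _) ⟨2, unipRad_pow (h.eich_mem_unipRad _ _)⟩))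

end IsQuad

theorem IsQuad.eq_smul_of_add [Finite F] (h : IsQuad B Q) (hB : B.SeparatingLeft)
    (hn : 5 ≤ finrank F V) (θ : V → V) (hθ : ∀ x y, θ (x + y) = θ x + θ y)
    (H : ∀ u, Q u = 0 → ∃ a : F, θ u = a • u) : ∃ a : F, ∀ x, θ x = a • x := by
  have k1 : ∀ {u f z : V} {a b : F}, Q u = 0 → Q f = 0 → B u f = 1 → z ∈ hperp B u f → z ≠ 0 →
      Q z = 0 → θ u = a • u → θ z = b • z → a = b := by
    intro u f z a b hu hf huf hz hz0 hz1 ha hb
    obtain ⟨d, hd⟩ := H (u + z) (by simp [h.add', hu, hz1, mem_hperp.mp hz])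
    rw [hθ, ha, hb] at hd
    have e1 := congrArg (B f) hd
    simp [mem_hperp.mp hz, h.comm f u, huf] at e1
    rw [e1, smul_add, add_right_inj] at hd
    exact e1.trans (smul_left_injective F hz0 hd).symm
  have k2 : ∀ {u f : V}, Q u = 0 → Q f = 0 → B u f = 1 → ∃ z ∈ hperp B u f, z ≠ 0 ∧ Q z = 0 := by
    intro u f hu hf huf
    have := h.finrank_hperp hB hu hf huf
    obtain ⟨z, h1, h2⟩ := exists_singular (h.restrict (hperp B u f)) (by omega)
    exact ⟨z, z.2, by simpa using h1, h2⟩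
  have k3 : ∀ {u f : V} {a b : F}, Q u = 0 → Q f = 0 → B u f ≠ 0 → θ u = a • u → θ f = b • f →
      a = b := by
    intro u f a b hu hf huf ha hb
    obtain ⟨z, hz, hz0, hz1⟩ := k2 hu (f := (B u f)⁻¹ • f) (by simp [h.smul', hf]) (by simp [huf])
    obtain ⟨d, hd⟩ := H z hz1
    refine (k1 hu (by simp [h.smul', hf]) (by simp [huf]) hz hz0 hz1 ha hd).trans
      (k1 hf (f := (B u f)⁻¹ • u) (by simp [h.smul', hu]) (by simp [h.comm f u, huf]) ?_ hz0 hz1 hb
        hd).symm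
    simpa [mem_hperp, huf, and_comm] using hz
  obtain ⟨u, hu0, hu⟩ := h.exists_singular (by omega)
  obtain ⟨f, hf, huf⟩ := h.exists_partner hB hu hu0
  obtain ⟨a, ha⟩ := H u hu
  obtain ⟨b, hb⟩ := H f hf
  obtain rfl := k3 hu hf (by simp [huf]) ha hb
  have k4 : ∀ x, Q x = 0 → B u x ≠ 0 → θ x = a • x := fun x hx h1 => by
    obtain ⟨d, hd⟩ := H x hx
    rw [k3 hu hx h1 ha hd, hd]
  have k5 : ∀ c : F, θ (c • u) = a • c • u := fun c => by
    obtain ⟨d, hd⟩ := H (c • u) (by simp [h.smul', hu])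
    by_cases hc : c = 0
    · simpa [hc] using hd
    rw [hd, k3 (by simp [h.smul', hu]) hf (by simp [huf, hc]) hd hb]
  have k6 : ∀ x, B u x ≠ 0 → θ x = a • x := fun x hx => by
    obtain ⟨c, hc⟩ := h.exists_add_smul_singular hu hx
    have := k4 _ hc (by simpa [h.diag', hu])
    rwa [hθ, k5, smul_add, add_left_inj] at this
  refine ⟨a, fun x => ?_⟩
  by_cases hx : B u x = 0
  · have := k6 (x + f) (by simp [hx, huf])
    rwa [hθ, hb, smul_add, add_left_inj] at this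
  · exact k6 x hx

end Cfsg.Agent.H11
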