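import Mathlib
import Cfsg.Agent.H11.Graf

/-!
# Involutory graph automorphisms of orthogonal groups: the extension field case
-/

set_option autoImplicit false

namespace Cfsg.Agent.H11

open Module QuadraticAlgebra

variable {F : Type*} [Field F] {V : Type*} [AddCommGroup V] [Module F V]
  {B : V →ₗ[F] V →ₗ[F] F} {Q : V → F}

/-- The field `F(√c)`. -/
abbrev QK (c : F) := QuadraticAlgebra F c 0

section quadext

variable {c : F} [hc : Fact (∀ r, r ^ 2 ≠ c + 0 * r)] [Module (QK c) V] [IsScalarTower F (QK c) V]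

theorem qa_smul (z : QK c) (x : V) : z • x = z.re • x + z.im • (ω : QK c) • x := by
  conv_lhs => rw [show z = ⟨z.re, z.im⟩ from rfl, mk_eq_add_smul_omega]
  rw [add_smul, algebraMap_smul, smul_assoc]

theorem qa_omega (x : V) : (ω : QK c) • (ω : QK c) • x = c • x := by
  rw [smul_smul, omega_mul_omega_eq_mk, qa_smul]; simp

theorem qa_ne : c ≠ 0 := fun e => hc.out 0 (by simp [e])

theorem qa_nonsq : ¬ IsSquare c := fun ⟨r, e⟩ => hc.out r (by simp [e, sq])

theorem qa_two (h2 : (2 : F) ≠ 0) : (2 : QK c) ≠ 0 := by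
  rw [← map_ofNat (algebraMap F (QK c)) 2]
  exact (map_ne_zero _).mpr h2

variable (hs : ∀ x y, B ((ω : QK c) • x) y = B x ((ω : QK c) • y))

/-- The form over the quadratic extension. -/
def extB : V →ₗ[QK c] V →ₗ[QK c] QK c :=
  LinearMap.mk₂ (QK c) (fun x y => ⟨B x y, c⁻¹ * B x ((ω : QK c) • y)⟩)
    (fun _ _ _ => by ext <;> simp [mul_add])
    (fun z x y => by
      rw [qa_smul z x]
      ext <;> simp [hs, qa_omega] <;> field_simp [qa_ne (c := c)])
    (fun _ _ _ => by ext <;> simp [mul_add])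
    (fun z x y => by
      rw [qa_smul z y]
      ext <;> simp [smul_comm (ω : QK c), qa_omega] <;> field_simp [qa_ne (c := c)])

theorem extB_apply (x y : V) : extB hs x y = ⟨B x y, c⁻¹ * B x ((ω : QK c) • y)⟩ := rfl

/-- The quadratic form over the quadratic extension. -/
def extQ (Q : V → F) (x : V) : QK c := ⟨Q x, (2 * c)⁻¹ * B x ((ω : QK c) • x)⟩

theorem extB_sep (hB : B.SeparatingLeft) : (extB hs).SeparatingLeft := fun x hx =>
  hB x fun y => congrArg re (hx y)

theorem IsQuad.isQuad_ext (h : IsQuad B Q) (h2 : (2 : F) ≠ 0) : IsQuad (extB hs) (extQ (B := B) Q) := by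
  convert IsQuad.of_symm (B := extB hs) (qa_two h2) fun x y => by
    rw [extB_apply, extB_apply, ← hs, h.comm x, h.comm _ y] with x
  rw [eq_div_iff (qa_two h2)]
  ext <;> simp [extB_apply, extQ, h.diag'] <;> field_simp

/-- Restriction of scalars for isometries. -/
def resHom (h : IsQuad B Q) : Isom (extB hs) (extQ (B := B) Q) →* Isom B Q where
  toFun g := ⟨g.1.restrictScalars F, h.mem_isom.mpr fun x => congrArg re (g.2.2 x)⟩
  map_one' := rfl
  map_mul' _ _ := rfl

theorem resHom_apply (h : IsQuad B Q) (g : Isom (extB hs) (extQ (B := B) Q)) (x : V) :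
    (resHom hs h g).1 x = g.1 x := rfl

theorem mem_range_resHom (h : IsQuad B Q) {g : Isom B Q}
    (hg : ∀ x, (ω : QK c) • g.1 x = g.1 ((ω : QK c) • x)) : ∃ g', resHom hs h g' = g :=
  ⟨⟨{ g.1 with map_smul' := fun z x => by simp [qa_smul z, hg] },
    fun x y => by simp [extB_apply, hg, g.2.1], fun x => by simp [extQ, hg, g.2.1, g.2.2]⟩, rfl⟩

variable [Finite F] [FiniteDimensional F V] (h : IsQuad B Q) (hB : B.SeparatingLeft)
  (h2 : (2 : F) ≠ 0)
include hs h hB h2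

omit [FiniteDimensional F V] in
theorem IsQuad.exists_perp_omega (hn : 4 ≤ finrank F V) :
    ∃ v, Q v ≠ 0 ∧ B v ((ω : QK c) • v) = 0 := by
  have := Module.finite_of_finite F (M := QK c)
  have := finrank_mul_finrank F (QK c) V
  rw [finrank_eq_two] at this
  obtain ⟨v, hv⟩ := (h.isQuad_ext hs h2).exists_eq (extB_sep hs hB) (by omega) 1
  exact ⟨v, by simp [show Q v = 1 from congrArg re hv], by
    simpa [extQ, h2, qa_ne] using congrArg im hv⟩

theorem IsQuad.bal_ext (hn : 10 ≤ finrank F V) {K : Type*} [Group K]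
    {Φ : SemiSim B Q →* MulAut K} (hΦ : IsBar h (commutator _) Φ) {γ : SemiSim B Q}
    (hγ : ∀ x, γ.1.1 x = (ω : QK c) • x) : H10.Bal 2 (Φ γ) := by
  obtain ⟨r, hr⟩ := CharP.exists F
  have : Fact r.Prime := ⟨CharP.char_is_prime F r⟩
  have := charP_of_injective_algebraMap (algebraMap F (QK c)).injective r
  have := Module.nontrivial_of_finrank_pos (R := F) (M := V) (by omega)
  have := Module.finite_of_finite F (M := QK c)
  have := Module.Finite.of_restrictScalars_finite F (QK c) V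
  have := finrank_mul_finrank F (QK c) V
  rw [finrank_eq_two] at this
  have h' := h.isQuad_ext hs h2
  have hB' := extB_sep hs hB
  have hc : ∀ g, Commute (ofIsom B Q (resHom hs h g)) γ := fun g =>
    commute_ofIsom_iff.mpr fun x => by simp [hγ, resHom_apply]
  refine hΦ.bal_cent (r := r) semiConj_mem_commutator (fun M h3 h4 => ?_) fun θ hθ => ⟨1, ?_⟩
  · refine (h'.exists_two_commutator hB' (qa_two h2) (by omega) (M := M.comap (resHom hs h))
      fun l hl x hx => by simpa using h4 _ (map_mem_commutator _ hl) (hc l) _ hx).imp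
      (fun H a ha => (hΦ.ker _).mpr ?_) fun ⟨g, hg, h5, u, hu⟩ => ?_
    · obtain ⟨a, rfl⟩ := mem_range_resHom hs h (g := a) fun x => by
        simpa [hγ] using commute_ofIsom_iff.mp (h3 a ha).2 x
      rcases H a ha with rfl | rfl
      · exact ⟨1, by simp⟩
      · exact ⟨-1, h.ofIsom_negI⟩
    · refine exists_orderOf_two (Φ.comp (ofIsom B Q)) (g := resHom hs h g) hg (fun e => ?_)
        (by rw [← map_pow, ← map_pow, h5, map_one, map_one])
      obtain ⟨a, e⟩ := (hΦ.ker _).mp e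
      exact hu (algebraMap _ _ (a : F)) (by
        rw [algebraMap_smul]; exact congrArg (fun γ : SemiSim B Q => γ.1.1 u) e)
  obtain ⟨a, ha⟩ := h'.eq_smul_of_add hB' (by omega) θ.1.1 (SemiSim.map_add θ) fun u hu => by
    by_cases hu0 : u = 0
    · exact ⟨0, by simp [hu0, SemiSim.map_zero]⟩
    obtain ⟨f, hf, huf⟩ := h'.exists_partner hB' hu hu0
    obtain ⟨w, hw, hw0⟩ := h'.exists_nonsingular_hperp hB' (by omega) hu hf huf
    rw [mem_hperp] at hw
    have e : ∀ x, θ.1.1 ((h'.eich hu hw.1).1 x) = (h'.eich hu hw.1).1 (θ.1.1 x) :=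
      commute_ofIsom_iff.mp (hθ _ (map_mem_commutator _ (h'.eich_mem_commutator hB'
        (h'.nonExc_of_two_ne_zero hB' (qa_two h2)) hu hw.1)) (hc _) ⟨2, by
          rw [← map_pow, unipRad_pow (h'.eich_mem_unipRad _ _), map_one]⟩).symm
    have e2 : ∀ x, (h'.eich hu hw.1).1 ((h'.eich hu hw.1).1 x - x) - ((h'.eich hu hw.1).1 x - x) =
        (-(2 * extQ (B := B) Q w * extB hs u x)) • u := fun x => by
      simp only [IsQuad.eich_apply, map_add, map_sub, map_smul, smul_eq_mul, h'.diag', hu, hw.1,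
        h'.refl hw.1]
      module
    obtain ⟨x, hx⟩ : ∃ x, (-(2 * extQ (B := B) Q w * extB hs u x)) • u = u :=
      ⟨(-(2 * extQ (B := B) Q w))⁻¹ • f, by
        rw [map_smul, huf, smul_eq_mul, mul_one, ← neg_mul, mul_inv_cancel₀ (by
          simp [hw0, qa_two h2]), one_smul]⟩
    exact ⟨_, by rw [← e2 (θ.1.1 x), ← e, ← SemiSim.map_sub, ← e, ← SemiSim.map_sub, e2, hx]⟩
  obtain ⟨u, hu0⟩ := exists_ne (0 : V)
  have h1 : θ.1.2 = 1 := RingEquiv.ext fun b => by
    have := SemiSim.map_smul θ b u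
    rw [ha, smul_comm, ← ha] at this
    exact (smul_left_injective F (mt (SemiSim.map_eq_zero θ).mp hu0) this).symm
  rw [pow_one, sq, ← map_mul]
  refine (hΦ.ker _).mpr ⟨Units.mk0 _ (SemiSim.mult_ne_zero θ), Subtype.ext (Prod.ext
    (Equiv.ext fun x => sub_eq_zero.mp (hB _ fun y => ?_)) (by simp [h1]))⟩
  have := SemiSim.map_B θ x y
  rw [h1, ha, ha] at this
  change re (extB hs (θ.1.1 (θ.1.1 x) - SemiSim.mult θ • x) y) = 0
  rw [ha, ha, map_sub, LinearMap.sub_apply, re_sub, sub_eq_zero]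
  refine Eq.trans ?_ (this.trans (by simp [extB_apply]))
  change _ = re (extB hs _ _)
  simp only [map_smul, LinearMap.smul_apply]

end quadext

theorem exists_module {c : F} (γ : V →ₗ[F] V) (e : ∀ x, γ (γ x) = c • x) :
    ∃ (_ : Module (QK c) V) (_ : IsScalarTower F (QK c) V), ∀ x, γ x = (ω : QK c) • x := by
  let φ : QK c →ₐ[F] Module.End F V := lift ⟨γ, LinearMap.ext fun x => by simpa using e x⟩
  let := Module.compHom V φ.toRingHom
  exact ⟨this, ⟨fun a z x => by change φ (a • z) x = a • φ z x; simp⟩, fun x => by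
    change _ = φ ω x; simp [φ]⟩

namespace IsQuad

variable [Finite F] [FiniteDimensional F V] (h : IsQuad B Q) (hB : B.SeparatingLeft)
  (h2 : (2 : F) ≠ 0) {m : ℕ} {hn : finrank F V = 2 * (m + 1)} {γ : Sim B Q} (hd : dS hB hn γ ≠ 1)
include h h2 hd

theorem bal_graph (hm : 3 ≤ m) {K : Type*} [Group K] {Φ : SemiSim B Q →* MulAut K}
    (hΦ : IsBar h (commutator _) Φ) (e : Φ γ ^ 2 = 1) : H10.Bal 2 (Φ γ) := by
  obtain ⟨c, e⟩ := (hΦ.ker (γ * γ)).mp (by rw [map_mul, ← sq, e])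
  rcases h.graph_cases hB h2 hd e with ⟨a, s, h3, h4, h5⟩ | ⟨h3, h4, h5⟩
  · rw [h5, map_mul, (hΦ.ker _).mpr ⟨a, rfl⟩, one_mul]
    exact h.bal_invol hB h2 hΦ (by omega) (hn ▸ even_two_mul _) h3 h4
  · have : Fact (∀ r, r ^ 2 ≠ (c : F) + 0 * r) := ⟨fun r hr => h4 ⟨r, by simpa [sq] using hr.symm⟩⟩
    obtain ⟨_, _, h6⟩ := exists_module (c := (c : F)) (simLin B Q γ).toLinearMap fun x =>
      congrArg (fun γ : SemiSim B Q => γ.1.1 x) e
    exact h.bal_ext (fun x y => by rw [← h6, ← h6]; exact h5 x y) hB h2 (by grind) hΦ h6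

/-- A graph involution is centralised by a rotation of nontrivial spinor norm and by a nontrivial
element of `Ω`. -/
theorem exists_cent (hm : 1 ≤ m) {c : Fˣ} (e : γ.1 * γ.1 = h.semiScal c) :
    (∃ g : Isom B Q, dick g.1 = 0 ∧ g ∉ commutator _ ∧ Commute (ofIsom B Q g) γ) ∧
      ∃ g ∈ commutator (Isom B Q), (∃ u, ∀ c : F, g.1 u ≠ c • u) ∧ Commute (ofIsom B Q g) γ := by
  have hex := h.nonExc_of_two_ne_zero hB h2
  have k : ∀ {u v}, Q u ≠ 0 → Q v ≠ 0 → dick (h.reflO u * h.reflO v).1 = 0 ∧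
      (h.reflO u * h.reflO v ∈ commutator _ ↔ IsSquare (Q u * Q v)) := fun {u v} hu hv =>
    ⟨by rw [h.dick_mul hB, h.dick_reflO hB hu, h.dick_reflO hB hv]; rfl, by
      classical
      have := Fintype.ofFinite F
      simpa using h.prod_mem_commutator_iff hB hex [u, v] (by simp [hu, hv])⟩
  have k2 : ∀ u, γ.1 * ofIsom B Q (h.reflO u) = ofIsom B Q (h.reflO (γ.1.1.1 u)) * γ := fun u => by
    rw [← h.semiConj_reflO, ofIsom_semiConj, inv_mul_cancel_right]
  rcases h.graph_cases hB h2 hd e with ⟨a, s, h3, h4, h5⟩ | ⟨h3, h4, h5⟩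
  · obtain ⟨ho, ho'⟩ := h.odd_fixS hB (hn ▸ even_two_mul _) h4
    have hW := h.nondegOn_fixS hB h2 h3
    have h0 := h.finrank_perp hB (fixS s.1)
    obtain ⟨U, hU, hU', h6⟩ : ∃ U, (U = fixS s.1 ∨ U = perp B (fixS s.1)) ∧ NondegOn B U ∧
        3 ≤ finrank F U := by
      by_cases h3 : 3 ≤ finrank F (fixS s.1)
      exacts [⟨_, .inl rfl, hW, h3⟩, ⟨_, .inr rfl, h.nondegOn_perp hB hW, by grind⟩]
    have k3 : ∀ u ∈ U, Commute (ofIsom B Q (h.reflO u)) γ := fun u hu => by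
      rw [commute_iff_eq, k2, h5]
      rcases hU with rfl | rfl
      · simp [mem_fixS.mp hu, h.reflO_smul]
      · simp [(h.mem_perp_fixS hB h2 h3).mp hu, ← neg_smul, h.reflO_smul]
    obtain ⟨d, hd⟩ := FiniteField.exists_nonsquare (ringChar_ne_two_of h2)
    obtain ⟨u, hu, e1⟩ := h.exists_eq_on hU' (by omega) 1
    obtain ⟨v, hv, e2⟩ := h.exists_eq_on hU' (by omega) d
    have k4 := k (u := u) (v := v) (by simp [e1]) (by rw [e2]; rintro rfl; simp at hd)
    refine ⟨⟨_, k4.1, by simpa [k4.2, e1, e2], by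
      rw [map_mul]; exact (k3 u hu).mul_left (k3 v hv)⟩, ?_⟩
    have h' : IsQuad _ _ := h.restrict U
    obtain ⟨u, hu0, hu⟩ := h'.exists_singular h6
    obtain ⟨f, hf, huf⟩ := h'.exists_partner (nondegOn_iff.mp hU') hu hu0
    obtain ⟨y, hy, hy0⟩ := h'.exists_nonsingular_hperp (nondegOn_iff.mp hU') h6 hu hf huf
    simp only [mem_hperp, pull_apply, Submodule.subtype_apply] at hy huf
    refine ⟨_, h.eich_mem_commutator hB hex hu hy.1, ⟨f, fun c hc => ?_⟩, by
      rw [h5]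
      exact (h.commute_semiScal rfl a).symm.mul_right (h.commute_eich hB h2 h3 hU u.2 y.2 _ _)⟩
    simpa [h.eich_apply, h.diag', hf, hy.2, h.refl hy.2, huf, h.comm f u, hy0] using
      congrArg (B f) hc
  · have : Fact (∀ r, r ^ 2 ≠ (c : F) + 0 * r) := ⟨fun r hr => h4 ⟨r, by simpa [sq] using hr.symm⟩⟩
    have e1 : ∀ x, γ.1.1.1 (γ.1.1.1 x) = (c : F) • x := fun x =>
      congrArg (fun γ : SemiSim B Q => γ.1.1 x) e
    obtain ⟨_, _, h6⟩ := exists_module (c := (c : F)) (simLin B Q γ).toLinearMap e1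
    have hs : ∀ x y, B ((ω : QK (c : F)) • x) y = B x ((ω : QK (c : F)) • y) := fun x y => by
      rw [← h6, ← h6]; exact h5 x y
    constructor
    · obtain ⟨v, hv, hv'⟩ := h.exists_perp_omega hs hB h2 (by omega)
      rw [← h6] at hv'
      replace hv' : B v (γ.1.1.1 v) = 0 := hv'
      have e2 : Q (γ.1.1.1 v) = c * Q v := mul_left_cancel₀ h2 (by
        rw [← h.diag', h5, e1, map_smul, h.diag', smul_eq_mul]; ring)
      have k4 := k hv (v := γ.1.1.1 v) (by simp [e2, hv])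
      refine ⟨_, k4.1, ?_, ?_⟩
      · rw [k4.2, e2, mul_left_comm, mul_comm, isSquare_mul_iff_of_isSquare (by simp [hv]) ⟨_, rfl⟩]
        exact h4
      · rw [commute_iff_eq, map_mul, ← mul_assoc, k2, mul_assoc _ γ.1, k2, e1,
          h.reflO_smul c.ne_zero, ← mul_assoc, ← map_mul, ← map_mul]
        congr 2
        rw [← mul_inv_eq_iff_eq_mul, h.conj_reflO, h.reflO_of_perp hv']
    · have := Module.finite_of_finite F (M := QK (c : F))
      have := Module.Finite.of_restrictScalars_finite F (QK (c : F)) V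
      have := finrank_mul_finrank F (QK (c : F)) V
      rw [finrank_eq_two] at this
      have h' := h.isQuad_ext hs h2
      obtain ⟨g, hg, u, -, hu⟩ := h'.exists_move (extB_sep hs hB)
        (h'.nonExc_of_two_ne_zero (extB_sep hs hB) (qa_two h2)) (by grind)
      exact ⟨_, map_mem_commutator (resHom hs h) hg, ⟨u, fun c e => hu (algebraMap _ _ c) (by
        rw [algebraMap_smul]; exact e)⟩, commute_ofIsom_iff.mpr fun x => by
          change simLin B Q γ (g.1 x) = g.1 (simLin B Q γ x)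
          rw [← LinearEquiv.coe_coe (simLin B Q γ), h6, h6, map_smul]⟩

theorem isSquare_of_cent (hm : Odd m) {c : Fˣ} (e : γ.1 * γ.1 = h.semiScal c) {δ : Sim B Q}
    {z : Fˣ} (e' : γ.1 * δ = h.semiScal z * δ * γ) : IsSquare (SemiSim.mult δ.1) := by
  obtain ⟨a, s, h3, h4, h5⟩ := (h.graph_cases hB h2 hd e).resolve_right fun H => by grind
  obtain ⟨ho, ho'⟩ := h.odd_fixS hB (hn ▸ even_two_mul _) h4
  have hW := h.nondegOn_fixS hB h2 h3
  have h0 := h.finrank_perp hB (fixS s.1)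
  have e1 : ∀ x, s.1 (simLin B Q δ x) = (z : F) • simLin B Q δ (s.1 x) := fun x => by
    have := congrArg (fun γ : SemiSim B Q => γ.1.1 x) (h5 ▸ e')
    change (a : F) • s.1 (simLin B Q δ x) = (z : F) • simLin B Q δ ((a : F) • s.1 x) at this
    rw [map_smul, smul_comm (z : F)] at this
    exact smul_right_injective V a.ne_zero this
  obtain ⟨x, hx⟩ := finrank_pos_iff_exists_ne_zero.mp ho.pos
  have e2 : (z : F) * z = 1 := by
    have := congrArg s.1 (e1 x)
    rw [invol_apply h3, map_smul, e1, invol_apply h3, smul_smul] at this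
    exact smul_left_injective F (by simpa using hx) (this.symm.trans (one_smul _ _).symm)
  rcases mul_self_eq_one_iff.mp e2 with e2 | e2
  · have := det_isom (fun _ => rfl) (nondegOn_iff.mp hW) ((simLin B Q δ).toLinearMap.restrict
      (p := fixS s.1) (q := fixS s.1) fun x hx => by simp [mem_fixS, e1, e2, mem_fixS.mp hx])
      (SemiSim.mult δ.1) fun x y => by
        simpa [mem_Sim.mp δ.2, pull_apply, simLin_apply] using SemiSim.map_B δ.1 x y
    by_contra h6
    exact (isSquare_pow_iff' _).mp ⟨_, this.symm⟩ ⟨ho, h6⟩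
  · have k : ∀ {U U' : Submodule F V}, (∀ x ∈ U, simLin B Q δ x ∈ U') →
        finrank F U ≤ finrank F U' := fun {U U'} H => by
      rw [← (simLin B Q δ).finrank_map_eq U]
      exact Submodule.finrank_mono (Submodule.map_le_iff_le_comap.mpr H)
    have k1 := k (U := fixS s.1) (U' := perp B (fixS s.1)) fun x hx => by
      simp [h.mem_perp_fixS hB h2 h3, e1, e2, mem_fixS.mp hx]
    have k2 := k (U' := fixS s.1) (U := perp B (fixS s.1)) fun x hx => by
      simp [mem_fixS, e1, e2, (h.mem_perp_fixS hB h2 h3).mp hx]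
    grind

end IsQuad

section congr

variable {σ : F →+* F} {V' : Type*} [AddCommGroup V'] [Module F V']
  {B : V →ₛₗ[σ] V →ₗ[F] F} {Q : V → F} {B' : V' →ₛₗ[σ] V' →ₗ[F] F} {Q' : V' → F}

/-- Similar spaces have isomorphic isometry groups. -/
def simCongr (e : V ≃ₗ[F] V') {c : F} (hc : c ≠ 0) (hB : ∀ x y, B' (e x) (e y) = c * B x y)
    (hQ : ∀ x, Q' (e x) = c * Q x) : Isom B Q ≃* Isom B' Q' where
  toFun g := ⟨e.symm.trans (g.1.trans e), fun x y => by
      simp only [LinearEquiv.trans_apply, hB, g.2.1]; rw [← hB]; simp,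
    fun x => by simp only [LinearEquiv.trans_apply, hQ, g.2.2]; rw [← hQ]; simp⟩
  invFun g := ⟨e.trans (g.1.trans e.symm), fun x y => mul_left_cancel₀ hc (by
      simp only [LinearEquiv.trans_apply]; rw [← hB]; simp [g.2.1, hB]),
    fun x => mul_left_cancel₀ hc (by
      simp only [LinearEquiv.trans_apply]; rw [← hQ]; simp [g.2.2, hQ])⟩
  left_inv g := by ext x; simp
  right_inv g := by ext x; simp
  map_mul' g h := by ext x; simp

theorem simCongr_apply (e : V ≃ₗ[F] V') {c : F} (hc : c ≠ 0)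
    (hB : ∀ x y, B' (e x) (e y) = c * B x y) (hQ : ∀ x, Q' (e x) = c * Q x) (g : Isom B Q) (x : V) :
    (simCongr e hc hB hQ g).1 (e x) = e (g.1 x) := by
  simp [simCongr]

theorem matBar_congr {G : Subgroup (Isom B Q)} {G' : Subgroup (Isom B' Q')} {M M' : Type*}
    [Group M] [Group M'] (e : M ≃* G) (e' : M' ≃* G') {hG hG'} (φ : G ≃* G') {γ γ'}
    (H : ∀ g : G, (φ ⟨semiConj B Q γ g, hG γ g g.2⟩).1 = semiConj B' Q' γ' (φ g)) :
    ((quotCenterEquiv (e.trans (φ.trans e'.symm))).symm.trans (matBar e hG γ)).trans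
      (quotCenterEquiv (e.trans (φ.trans e'.symm))) = matBar e' hG' γ' := by
  ext x
  obtain ⟨x, rfl⟩ := (quotCenterEquiv (e.trans (φ.trans e'.symm))).surjective x
  obtain ⟨x, rfl⟩ := QuotientGroup.mk_surjective x
  simp only [MulEquiv.trans_apply, MulEquiv.symm_apply_apply, matBar_mk]
  change QuotientGroup.mk _ = matBar e' hG' γ' (QuotientGroup.mk _)
  rw [matBar_mk]
  simp [← H]

end congr

section matrices

variable [Finite F] {ι : Type} [Fintype ι] [DecidableEq ι]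
  {B : (ι → F) →ₗ[F] (ι → F) →ₗ[F] F} {Q : (ι → F) → F} (h : IsQuad B Q) (hB : B.SeparatingLeft)

theorem IsQuad.split_graph (h2 : (2 : F) ≠ 0) (hn : 5 ≤ Fintype.card ι) {m : ℕ}
    {hm : finrank F (ι → F) = 2 * (m + 1)} {δ : Sim B Q} (hδ : h.GoodSim hB hm δ) {γ : Sim B Q}
    (hd : IsQuad.dS hB hm γ ≠ 1) (e : orderOf (h.oBar γ) = 2) {k : ℕ} (hk : k = splitClassCount
      ((IsQuad.dS hB hm).ker.map (h.oBar.comp (Sim B Q).subtype)) (Inn _) (h.oBar γ)) :
    (k = 1 ∨ k = 2) ∧ (h.negI ∈ commutator _ ∨ Odd m → k = 2) := by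
  have hω := h.isOut hB hn
  have hex := h.nonExc_of_two_ne_zero hB h2
  have hn' : 5 ≤ finrank F (ι → F) := by simpa
  obtain ⟨c, e⟩ := (h.oBar_eq_one hB hn (γ := γ * γ)).mp (by
    rw [map_mul, ← sq, ← e, pow_orderOf_eq_one])
  rw [splitClassCount_eq_map (h.inn_le hB hn (fun a => h.dP_eq_dS h2 ▸ h.dP_scal rfl)
    fun g hg => h.dP_eq_dS h2 ▸ (h.dP_isom rfl).mpr hg), Subgroup.map_map] at hk
  have h3 := hω.card_map_dS hB h2 hm hδ
  have : Finite (Out (POmega F Q)) := Quotient.finite _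
  set I := Subgroup.map (QuotientGroup.mk' (Inn _)) (_ ⊓ Subgroup.centralizer {h.oBar γ})
  have hI : I ≤ (IsQuad.dS hB hm).ker.map (h.outBar.comp (Sim B Q).subtype) :=
    (Subgroup.map_mono inf_le_left).trans (Subgroup.map_map ..).le
  have h4 : Nat.card I * k = Nat.card (h.soMap hB h.outBar) * 2 := by
    rw [← h3, hk, ← Subgroup.relIndex_bot_left, ← Subgroup.relIndex_bot_left]
    exact Subgroup.relIndex_mul_relIndex _ _ _ bot_le hI
  by_cases H : h.negI ∈ commutator _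
  · rw [hω.card_soMap hB h2 (by omega) fun _ => H] at h3 h4
    obtain ⟨⟨g, h5, h6, h7⟩, -⟩ := h.exists_cent hB h2 hd (by omega) e
    have h8 : Nat.card I ≠ 1 := fun e => hω.isom_ne_one hB (by omega) h5 h6 (fun _ => H)
      ((Subgroup.card_eq_one.mp e).le ⟨_, ⟨⟨⟨ofIsom B Q g, rfl⟩,
        h.dP_eq_dS h2 ▸ (h.dP_isom rfl).mpr h5, rfl⟩,
        Subgroup.mem_centralizer_singleton_iff.mpr (h7.map h.oBar)⟩, rfl⟩)
    have h9 : Nat.card I ≠ 4 := fun e => by
      obtain ⟨x, ⟨-, hx⟩, e⟩ := (Subgroup.eq_of_le_of_card_ge hI (h3.trans e.symm).le).ge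
        ⟨δ, hδ.proper, rfl⟩
      have e1 : Commute (h.outBar δ) (h.outBar γ) :=
        (show h.outBar δ = _ from e.symm) ▸ Commute.map
          (Subgroup.mem_centralizer_singleton_iff.mp hx) (QuotientGroup.mk' _)
      obtain ⟨g, hg, e2⟩ : ∃ g, dick g.1 ≠ 0 ∧ Commute (h.outBar δ) (h.outBar (ofIsom B Q g)) := by
        by_cases h5 : IsSquare (SemiSim.mult γ.1)
        · obtain ⟨a, g, e⟩ := h.exists_eq_scal_mul' hB (by omega) γ.2 h5
          exact ⟨g, mt (h.dS_scal_mul h2 e).mpr hd, by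
            rwa [e, map_mul, hω.scal, one_mul] at e1⟩
        · obtain ⟨a, g, e⟩ := h.exists_eq_scal_mul' hB (by omega) (δ⁻¹ * γ).2
            (IsQuad.isSquare_mult_inv_mul hB (by omega) hδ.nonsq h5)
          refine ⟨g, mt (h.dS_scal_mul h2 (hB := hB) (hn := hm) e).mpr (by
            simpa [hδ.proper]), ?_⟩
          have := congrArg h.outBar e
          rw [map_mul, hω.scal, one_mul] at this
          rw [← this]
          simpa using (Commute.refl _).inv_right.mul_right e1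
      exact hω.comm_ne_one hB h2 hm hδ.nonsq H hg (by rw [e2.eq]; simp)
    have h10 : Nat.card I ≤ 4 := Nat.le_of_dvd (by norm_num) ⟨k, h4.symm⟩
    have : k = 2 := by
      generalize Nat.card I = i at *
      interval_cases i <;> omega
    simp [this]
  · have h0 := hω.soMap_eq_bot hB hex (h.dick_negI_of_even (hm ▸ even_two_mul _)) H
    rw [h0, Subgroup.card_bot, one_mul] at h4
    refine ⟨(Nat.dvd_prime Nat.prime_two).mp (Dvd.intro_left _ h4), fun ho => ?_⟩
    rw [Subgroup.card_eq_one.mpr (eq_bot_iff.mpr ?_), one_mul] at h4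
    · exact h4
    rintro _ ⟨_, ⟨⟨δ', h5, rfl⟩, h6⟩, rfl⟩
    obtain ⟨z, e'⟩ := (h.oBar_eq_one hB hn (γ := γ.1 * δ' * (δ'.1 * γ)⁻¹)).mp (by
      rw [map_mul, map_inv, map_mul, map_mul, mul_inv_eq_one]
      exact (Subgroup.mem_centralizer_singleton_iff.mp h6).symm)
    rw [← h0]
    exact (hω.simChar_iff hB h2 hm).mp (IsQuad.simChar_eq_one.mpr ⟨h5, h.isSquare_of_cent hB h2 hd
      (ho.resolve_left H) e (by rw [mul_assoc, ← e', inv_mul_cancel_right])⟩)

theorem IsQuad.balance_graph (hn : 7 ≤ Fintype.card ι) {m : ℕ}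
    {hm : finrank F (ι → F) = 2 * (m + 1)} {K : Type*} [Group K] [Finite K]
    {Φ : SemiSim B Q →* MulAut K} (hΦ : IsBar h (commutator _) Φ) {γ : Sim B Q}
    (hd : h.dP hB hm γ ≠ 1) {p r : ℕ} [hp : Fact p.Prime] [Fact r.Prime] [CharP F r] (hpr : p ≠ r)
    (hk : orderOf (Φ γ) = p) {A : Subgroup (MulAut K)} (hinn : ∀ k, MulAut.conj k ∈ A) (P : Prop) :
    pPrimeCore p ↥(A ⊓ Subgroup.centralizer {Φ γ.1}) ≠ ⊥ ↔
      P ∧ p.Coprime (Nat.card ((Φ γ).toMonoidHom.eqLocus (MonoidHom.id K))) := by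
  have hk' := hk ▸ pow_orderOf_eq_one (Φ γ)
  obtain rfl : p = 2 := hp.out.eq_two_or_odd'.resolve_right fun ⟨k, e⟩ => hd (by
    obtain ⟨a, e'⟩ := (hΦ.ker (γ ^ p : Sim B Q)).mp (by simpa)
    have := h.dP_scal (hB := hB) (hn := hm) e'
    rwa [map_pow, e, pow_succ, pow_mul, show ∀ z : Multiplicative (ZMod 2), z ^ 2 = 1 by decide,
      one_pow, one_mul] at this)
  have h2 : (2 : F) ≠ 0 := fun h2 =>
    hpr (CharP.eq F ((CharP.charP_iff_prime_eq_zero Nat.prime_two).2 h2) ‹_›)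
  rw [h.dP_eq_dS h2] at hd
  have hm' : 3 ≤ m := by simp at hm; omega
  have hb := h.bal_graph hB h2 hd hm' hΦ hk'
  obtain ⟨c, e⟩ := (hΦ.ker (γ * γ)).mp (by rw [map_mul, ← sq, hk'])
  obtain ⟨-, g, h3, ⟨u, h4⟩, h5⟩ := h.exists_cent hB h2 hd (by omega) e
  refine balance_iff' hΦ.inj hinn ⟨_, (hΦ.inn _).mpr ⟨1, g, h3, (one_mul _).symm.trans (by simp)⟩,
    fun e => ?_, h5.map Φ⟩ (fun _ _ _ _ => hb) (.inr hb)
  obtain ⟨a, e⟩ := (hΦ.ker _).mp e
  exact h4 a (congrArg (fun γ : SemiSim B Q => γ.1.1 u) e)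

end matrices

section minus

variable [Finite F] {m : ℕ} (hm : 3 ≤ m) {a b : F}
  (hab : ∀ z₁ z₂ : F, z₁ ^ 2 + a * z₁ * z₂ + b * z₂ ^ 2 = 0 → z₁ = 0 ∧ z₂ = 0)
  {γ : SemiSim (bMinus m F a b) (quadFormMinus m F a b)}
include hm hab

theorem exists_rform_minus (h1 : γ.1.2 ≠ 1) {r : ℕ} (hr : r.Prime)
    (hk : orderOf ((isQuad_minus m F a b).oBar γ) = r) {a₀ b₀ : H10.fixS γ.1.2}
    (hab₀ : ∀ z₁ z₂, z₁ ^ 2 + a₀ * z₁ * z₂ + b₀ * z₂ ^ 2 = 0 → z₁ = 0 ∧ z₂ = 0) :
    ∃ (c : Fˣ) (t : _ →ₛₗ[(H10.fixS γ.1.2).subtype] _) (μ : F),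
      RForm (bMinus m _ a₀ b₀) (quadFormMinus m _ a₀ b₀) (bMinus m F a b)
        (quadFormMinus m F a b) t μ ∧
      ∀ x, ((isQuad_minus m F a b).semiScal c * γ).1.1 (t x) = t x := by
  have h := isQuad_minus m F a b
  have hB := bMinus_sep m hab
  obtain ⟨c, t, μ, B₀, Q₀, H, ht⟩ := h.exists_rform hB (fun γ => h.oBar_eq_one hB (by simp; omega))
    h1 hr (by simp) (hk ▸ pow_orderOf_eq_one _) (fixS_iff _)
  obtain ⟨e, H'⟩ := H.exists_std h hB (isQuad_minus m _ a₀ b₀) (bMinus_sep m hab₀)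
    (by rw [finrank_minus]; simp) (by simp)
    (((H.isQuad h).wittIdx_even_cases (H.sep₀ hB) (finrank_minus m)).resolve_left fun hν => by
      have := h.wittIdx_unique hB (H.wittIdx h (H.isQuad h) hB (finrank_minus m) hν)
        (wittIdx_minus m hab)
      omega) (wittIdx_minus m hab₀)
  exact ⟨c, _, μ, H', fun x => ht _⟩

theorem odd_of_field_minus (h1 : γ.1.2 ≠ 1) {r : ℕ} (hr : r.Prime)
    (hk : orderOf ((isQuad_minus m F a b).oBar γ) = r) : Odd (orderOf γ.1.2) := by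
  have h := isQuad_minus m F a b
  obtain ⟨a₀, b₀, hab₀⟩ := exists_aniso (H10.fixS γ.1.2)
  obtain ⟨c, t, μ, H, -⟩ := exists_rform_minus hm hab h1 hr hk hab₀
  refine Nat.not_even_iff_odd.mp fun he => ?_
  obtain ⟨θ, hθ⟩ := exists_root_of_even (fixS_iff _) he a₀ b₀
  have H' := rform_minus (H10.fixS γ.1.2).subtype m a₀ b₀
  have h' := isQuad_minus m F a₀ b₀
  have hB' := H'.sep (bMinus_sep m hab₀)
  obtain ⟨e, -, h3, h4⟩ := H'.exists_equiv H (h'.spanExt h) (LinearEquiv.refl _ _) (c := 1)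
    (by simp) (by simp)
  obtain ⟨U, hU, hUm⟩ := wittIdx_minus_of_root hB' hθ
  have := h.finrank_le_wittIdx (bMinus_sep m hab) (wittIdx_minus m hab) (W := U.map e.toLinearMap)
    (h.totSing_iff.mpr (by rintro _ ⟨x, hx, rfl⟩; simp [h4, h'.totSing_iff.mp hU.1 x hx]))
  rw [e.finrank_map_eq] at this
  omega

theorem field_eq_one_minus (hk : orderOf ((isQuad_minus m F a b).oBar γ) = 2) : γ.1.2 = 1 := by
  by_contra h1
  have := odd_of_field_minus hm hab h1 Nat.prime_two hk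
  rw [(isQuad_minus m F a b).orderOf_field (fun γ => (isQuad_minus m F a b).oBar_eq_one
    (bMinus_sep m hab) (by simp; omega)) h1 Nat.prime_two (orderOf_dvd_iff_pow_eq_one.mp hk.dvd)]
    at this
  exact absurd this (by decide)

theorem fieldClass_minus (h1 : γ.1.2 ≠ 1) {r : ℕ} (hr : r.Prime)
    (hk : orderOf ((isQuad_minus m F a b).oBar γ) = r) :
    IsFieldAutClassPOmegaMinus m ((isQuad_minus m F a b).oBar γ) := by
  have h := isQuad_minus m F a b
  obtain ⟨a₀, b₀, hab₀⟩ := exists_aniso (H10.fixS γ.1.2)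
  obtain ⟨c, t, μ, H, ht⟩ := exists_rform_minus hm hab h1 hr hk hab₀
  have H' := rform_minus (H10.fixS γ.1.2).subtype m a₀ b₀
  have h' := isQuad_minus m F a₀ b₀
  obtain ⟨e, h2, h3, h4⟩ := H.exists_equiv H' (h.spanExt h') (LinearEquiv.refl _ _) (c := 1)
    (by simp) (by simp)
  have h5 : 1 * (H10.fixS γ.1.2).subtype 1 / μ ≠ 0 := by simp [H.ne]
  have ha : γ.1.2 a₀ = a₀ := a₀.2
  have hb : γ.1.2 b₀ = b₀ := b₀.2
  refine ⟨a₀, b₀, quotCenterEquiv ((omegaEquiv h).trans ((commutatorEquiv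
    (simCongr e h5 h3 h4)).trans (omegaEquiv h').symm)), γ.1.2, aniso_of_odd (fixS_iff _)
      (odd_of_field_minus hm hab h1 hr hk) hab₀, h1, ha, hb, ?_⟩
  rw [h'.isFieldAut_iff (fun x y => by simp [bMinus_apply, ha, hb, map_ofNat])
    (fun x => by simp [quadFormMinus, ha, hb]), show h.oBar γ = h.oBar (h.semiScal c * γ) by
      rw [map_mul, (h.oBar_eq_one (bMinus_sep m hab) (by simp; omega)).mpr ⟨c, rfl⟩, one_mul]]
  have key : ∀ x, e ((h.semiScal c * γ).1.1 x) = fun i => γ.1.2 (e x i) := fun x => by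
    induction H.span.ge (Submodule.mem_top (x := x)) using Submodule.span_induction with
    | mem x hx =>
      obtain ⟨x, rfl⟩ := hx
      rw [ht, h2]
      exact funext fun i => (x i).2.symm
    | zero => ext; simp [SemiSim.map_zero]
    | add x y _ _ hx hy => ext; simp only [SemiSim.map_add, map_add, hx, hy, Pi.add_apply]
    | smul d x _ hx =>
      ext; simp only [SemiSim.map_smul, map_smul, hx, Pi.smul_apply, smul_eq_mul, map_mul]; rfl
  refine matBar_congr _ _ _ fun g => (semiConj_eq_iff.mpr fun x => ?_).symm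
  obtain ⟨x, rfl⟩ := e.surjective x
  refine (fieldSim_apply _ _ _).trans (Eq.trans ?_ (congrArg _ (fieldSim_apply _ _ _).symm))
  change (fun i => γ.1.2 ((simCongr e h5 h3 h4 g).1 (e x) i)) =
    (simCongr e h5 h3 h4 (semiConj _ _ (h.semiScal c * γ) g)).1 fun i => γ.1.2 (e x i)
  rw [simCongr_apply, ← key, ← key, simCongr_apply, semiConj_apply]

end minus

end Cfsg.Agent.H11
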