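import Mathlib
import Cfsg.Agent.H11.UBal

/-!
# Local balance in linear groups
-/

set_option autoImplicit false

namespace Cfsg.Agent.H11

open Module Matrix H10
open scoped MatrixGroups

variable {F F₀ : Type*} [Field F] [Field F₀] {j : F₀ →+* F} {n p r : ℕ}

theorem pow_mem_commutator_SL [CharP F r] (s : SL(n, F)) : s ^ r ∈ commutator SL(n, F) := by
  have := SL_eq_top_of_transvection_mem
    (((powMonoidHom r).comp Abelianization.of).ker : Subgroup SL(n, F)) fun i k hik a => by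
      have : ∀ m : ℕ, SpecialLinearGroup.transvection hik a ^ m =
          SpecialLinearGroup.transvection hik (m * a) := fun m => by
        induction m with
        | zero => simp
        | succ k ih => rw [pow_succ, ih, ← SpecialLinearGroup.transvection_add]; simp [add_mul]
      rw [MonoidHom.mem_ker, MonoidHom.comp_apply, powMonoidHom_apply, ← map_pow, this]
      simp
  have h : s ∈ (((powMonoidHom r).comp Abelianization.of).ker : Subgroup SL(n, F)) := this ▸ trivial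
  rwa [MonoidHom.mem_ker, MonoidHom.comp_apply, powMonoidHom_apply, ← map_pow,
    ← MonoidHom.mem_ker, Abelianization.ker_of] at h

theorem normP_SL [Finite F] [hp : Fact p.Prime] [hr : Fact r.Prime] [CharP F r] (hn : 2 ≤ n)
    (hpr : p ≠ r) {A : Type*} [Group A] (Ψ : GL (Fin n) F →* A)
    (hΨ : ∀ g, Ψ g = 1 ↔ ∃ c : F, ∀ x, g.1 *ᵥ x = c • x) :
    NormP Ψ (GeneralLinearGroup.det (n := Fin n) (R := F)).ker p := by
  obtain ⟨n, rfl⟩ : ∃ m, n = m + 2 := ⟨n - 2, by omega⟩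
  obtain ⟨w, hw⟩ : ∃ w : SL(n + 2, F), ∀ x, w.1 *ᵥ x =
      x + (x 1 - x 0) • Pi.single 0 1 - (x 0 + x 1) • Pi.single 1 1 :=
    ⟨trv (Pi.single 0 1) (Pi.single 1 1) (by simp) * trv (Pi.single 1 1) (-Pi.single 0 1) (by simp) *
      trv (Pi.single 0 1) (Pi.single 1 1) (by simp), fun x => by
        simp only [slv_mul, ← mulVec_mulVec, trv_mulVec]
        simp
        module⟩
  have h3 : Ψ (SpecialLinearGroup.toGL w) ≠ 1 := fun e => by
    obtain ⟨c, hc⟩ := (hΨ _).mp e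
    simpa using congrFun ((hw _).symm.trans (hc (Pi.single 0 1))) 1
  rw [← range_toGL_eq_ker_det]
  refine ⟨⟨_, ⟨w, rfl⟩, h3⟩, fun H M hM hN => ?_⟩
  have : (M.comap SpecialLinearGroup.toGL).Normal :=
    ⟨fun a ha l => by simpa using hN _ ⟨l, rfl⟩ _ ha⟩
  refine (normal_SL_le_center_or (M.comap SpecialLinearGroup.toGL)).imp (fun e a ha => ?_)
    fun e => ?_
  · obtain ⟨s, rfl⟩ := hM ha
    obtain ⟨c, hc⟩ := slQ_eq_iff.mp (((QuotientGroup.eq_one_iff s).mpr (e ha)).trans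
      (map_one (slQ _ F)).symm)
    exact (hΨ _).mpr ⟨c, fun x => by
      rw [SpecialLinearGroup.coe_GL_coe_matrix, hc, slv_one, smul_mulVec, one_mulVec]⟩
  obtain ⟨_, ⟨s, rfl⟩, hs⟩ : ∃ s ∈ (SpecialLinearGroup.toGL : SL(n + 2, F) →* _).range,
      orderOf (Ψ s) = p := by
    by_cases h2 : p = 2
    · subst h2
      refine exists_orderOf_two Ψ ⟨w, rfl⟩ h3 ?_
      rw [← map_pow, ← map_pow, show w ^ 4 = 1 from slv_ext_iff.mpr (matrix_eq_iff_mulVec.mpr
        fun x => ?_), map_one, map_one]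
      simp only [pow_succ, pow_zero, one_mul, slv_mul, ← mulVec_mulVec, hw, slv_one, one_mulVec]
      simp
      module
    rw [range_toGL_eq_ker_det]
    by_cases hd : p ∣ Nat.card Fˣ
    · obtain ⟨a, ha⟩ := exists_prime_orderOf_dvd_card' p hd
      refine ⟨dgl 0 a * dgl 1 a⁻¹, by simp [det_dgl], orderOf_eq_prime ?_ fun e => h2 ?_⟩
      · rw [← map_pow, Commute.mul_pow (Units.ext (by
          simp only [Units.val_mul, dgl_val, diagonal_mul_diagonal, mul_comm])), ← map_pow,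
          ← map_pow, inv_pow, ← ha, pow_orderOf_eq_one, inv_one, map_one, map_one, mul_one, map_one]
      · obtain ⟨c, hc⟩ := (hΨ _).mp e
        have e0 := congrFun (hc (Pi.single 0 1)) 0
        have e1 := congrFun (hc (Pi.single 1 1)) 1
        simp [dgl_val, -map_inv] at e0 e1
        refine (Nat.prime_dvd_prime_iff_eq hp.out Nat.prime_two).mp
          (ha ▸ orderOf_dvd_of_pow_eq_one (Units.ext ?_))
        rw [Units.val_pow_eq_pow_val, sq, Units.val_one, ← mul_inv_cancel₀ a.ne_zero, e1, e0]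
    · obtain ⟨y, hy⟩ := H.resolve_left h2
      refine ⟨y ^ Nat.card Fˣ, by simp, ?_⟩
      rw [map_pow, Nat.Coprime.orderOf_pow, hy]
      exact hy ▸ hp.out.coprime_iff_not_dvd.mpr hd
  refine ⟨_, e (pow_mem_commutator_SL (r := r) s), ?_⟩
  rw [map_pow, map_pow, Nat.Coprime.orderOf_pow, hs]
  exact hs ▸ (Nat.coprime_primes hp.out hr.out).mpr hpr

/-- A semilinear bijection as a semisimilarity of the zero form. -/
noncomputable def linSemi (g : GL (Fin n) F) (ρ : RingAut F) :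
    SemiSim (0 : (Fin n → F) →ₗ[F] (Fin n → F) →ₗ[F] F) 0 :=
  ⟨(matPerm g ρ, ρ), matPerm_add g ρ, matPerm_smul g ρ, 1, one_ne_zero, by simp, by simp⟩

theorem emb_coordMap : Emb (coordMap (Fin n) j) :=
  RForm.emb (B₀ := (0 : _ →ₗ[F₀] _ →ₗ[F₀] F₀)) (B := (0 : _ →ₗ[F] _ →ₗ[F] F)) (Q₀ := 0) (Q := 0)
    ⟨span_coordMap, by simp, one_ne_zero, by simp, by simp⟩

/-- Extension of scalars for linear bijections. -/
noncomputable def linMap (j : F₀ →+* F) : ((Fin n → F₀) ≃ₗ[F₀] (Fin n → F₀)) →* GL (Fin n) F :=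
  (GeneralLinearGroup.map j).comp (glEquiv _ F₀).symm.toMonoidHom

theorem linMap_glEquiv (g : GL (Fin n) F₀) :
    linMap j (glEquiv _ F₀ g) = GeneralLinearGroup.map j g := by simp [linMap]

theorem linMap_id (g : GL (Fin n) F) : linMap (RingHom.id F) (glEquiv _ F g) = g :=
  (linMap_glEquiv g).trans (Units.ext (Matrix.map_id _))

theorem conj_injective_PSL (hn : 2 ≤ n) : Function.Injective (MulAut.conj : PSL(n, F) →* _) :=
  (injective_iff_map_eq_one _).2 fun x h => by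
    obtain ⟨s, rfl⟩ := slQ_surjective x
    rw [← pDiag_toGL, pDiag_eq_one_iff (by simpa)] at h
    exact (map_one (slQ (Fin n) F)) ▸ slQ_eq_iff.2 h

variable [Fact r.Prime] [CharP F r]

theorem cmt_lin (hn : 2 ≤ n) {g : GL (Fin n) F} {ρ : RingAut F}
    {e : (Fin n → F₀) ≃ₗ[F₀] (Fin n → F₀)} {k : ℕ} (he : e ^ r ^ k = 1)
    (hc : Commute (pDiag g * pField _ ρ) (pDiag (linMap j e))) :
    Cmt (coordMap _ j) (linSemi g ρ) e.toLinearMap := by
  have hA : linMap j e ^ r ^ k = 1 := by rw [← map_pow, he, map_one]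
  have : Nonempty (Fin n) := ⟨⟨0, by omega⟩⟩
  refine ⟨mulVecLin (linMap j e).1, fun x => ?_, fun v => ?_⟩
  · obtain ⟨e, rfl⟩ := (glEquiv _ F₀).surjective e
    rw [linMap_glEquiv]
    exact funext fun i => (j.map_mulVec e.1 x i).symm
  generalize linMap j e = A at *
  obtain ⟨c, hc⟩ := mem_center_GL_iff'.mp ((pDiag_eq_one_iff' (by simpa)).mp
    (show pDiag (g * glField ρ A * g⁻¹ * A⁻¹) = 1 by
      rw [map_mul, ← conj_pDiag_mem, hc.eq, map_inv]; group))
  rw [eq_mul_inv_iff_mul_eq] at hc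
  have h1 := congrArg (· ^ r ^ k) hc
  simp only [conj_pow, ← map_pow, hA, map_one, mul_one, mul_inv_cancel, Commute.mul_pow
    (Subgroup.mem_center_iff.mp (mem_center_GL_iff'.mpr ⟨c, rfl⟩) A).symm] at h1
  have h2 : ((c : F) - 1) ^ r ^ k = 0 := by
    rw [sub_pow_char_pow, one_pow, ← Units.val_pow_eq_pow_val,
      scalar_injective (h1.trans (map_one _).symm), Units.val_one, sub_self]
  obtain rfl : c = 1 := Units.ext (sub_eq_zero.mp (pow_eq_zero_iff (pow_ne_zero _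
    (Fact.out : r.Prime).ne_zero) |>.mp h2))
  rw [map_one, one_mul] at hc
  exact (matPerm_mulVec g ρ A.1 v).trans (congrArg (fun A : GL (Fin n) F => A.1 *ᵥ _) hc.symm)

omit [Fact r.Prime] [CharP F r] in
theorem pow_of_fixes [Finite F] {g : GL (Fin n) F} {ρ ρ₀ : RingAut F}
    (hj : ∀ a, ρ₀ a = a ↔ ∃ b, j b = a) (hp : ρ₀ ^ p = 1)
    (h : Fixes (coordMap _ j) (linSemi g ρ)) : (pDiag g * pField (Fin n) ρ) ^ p = 1 := by
  obtain ⟨a, h1, h2⟩ := h
  rw [pDiag_eq_one_of_scalar (g := g) (c := (a : F)) (Matrix.ext fun i k => by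
    have := congrFun (h1 (Pi.single k 1)) i
    simp only [linSemi, matPerm_apply, coordMap_apply, Pi.single_apply, apply_ite j, apply_ite ρ,
      map_one, map_zero, Pi.smul_apply] at this
    simpa [mulVec, dotProduct, one_apply] using this), one_mul, ← map_pow,
    orderOf_dvd_iff_pow_eq_one.mp ((orderOf_dvd_of_pow_eq_one (pow_orderOf_eq_one_of_fix (σ := ρ₀)
      fun b hb => ?_)).trans (orderOf_dvd_of_pow_eq_one hp)), map_one]
  obtain ⟨b, rfl⟩ := (hj b).mp hb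
  exact h2 b

theorem balD_lin [Finite F] (hn : 2 ≤ n) {Γ : Type*} [Group Γ]
    (i : Γ →* ((Fin n → F₀) ≃ₗ[F₀] (Fin n → F₀))) (L : Subgroup Γ) [L.Normal]
    {x : MulAut PSL(n, F)} {ρ₀ : RingAut F} (hj : ∀ a, ρ₀ a = a ↔ ∃ b, j b = a) (hp : ρ₀ ^ p = 1)
    (hL : ∀ l ∈ L, LinearEquiv.det (i l) = 1)
    (h1 : ∀ g, pDiag g ∈ Subgroup.centralizer {x} ↔
      ∃ c l, g = GeneralLinearGroup.scalar _ c * linMap j (i l))
    (h2 : ∀ Ψ : Γ →* MulAut PSL(n, F), (∀ g, Ψ g = 1 ↔ ∃ c : F₀, ∀ x, i g x = c • x) → NormP Ψ L p)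
    (h4 : ∀ θ : SemiSim (0 : (Fin n → F) →ₗ[F] (Fin n → F) →ₗ[F] F) 0,
      (∀ l ∈ L, l ^ r ^ 2 = 1 → Cmt (coordMap _ j) θ (i l).toLinearMap) → Fixes (coordMap _ j) θ)
    (h5 : p = 2 ∨ ∀ g ρ, 3 ≤ n →
      ¬ ∀ l ∈ L, Commute (pDiag g * pField _ ρ * pInvT _ F) (pDiag (linMap j (i l)))) :
    BalD p x := by
  have : Nonempty (Fin n) := ⟨⟨0, by omega⟩⟩
  have key : ∀ g ρ, (∀ l ∈ L, Commute (pDiag g * pField _ ρ) (pDiag (linMap j (i l)))) →
      (pDiag g * pField (Fin n) ρ) ^ p = 1 := fun g ρ H => pow_of_fixes hj hp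
    (h4 _ fun l hl e => cmt_lin hn (r := r) (k := 2) (by rw [← map_pow, e, map_one]) (H l hl))
  refine balD_of_hom (conj_injective_PSL hn) (pDiag.comp ((linMap j).comp i)) L (fun l hl => ?_)
    (fun g => Subgroup.mem_centralizer_singleton_iff.mp ((h1 _).mpr ⟨1, g, by simp⟩))
    (fun k a b => ?_) (h2 _ fun g => ?_) fun θ hθ => ?_
  · obtain ⟨g, e⟩ := (glEquiv _ F₀).surjective (i l)
    refine (pDiag_mem_inn_iff (by simpa)).mpr ⟨1, Units.ext ?_⟩
    have := congrArg Units.val (hL l hl)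
    rw [LinearEquiv.coe_det, ← e, det_glEquiv] at this
    rw [MonoidHom.comp_apply, ← e, linMap_glEquiv, map_one, GeneralLinearGroup.val_det_apply]
    exact ((j.map_det g.1).symm.trans (by rw [this]; simp)).symm
  · obtain ⟨g, rfl⟩ := inn_le_range_pDiag a
    obtain ⟨c, l, rfl⟩ := (h1 g).mp (Subgroup.mem_centralizer_singleton_iff.mpr b)
    exact ⟨l, by rw [map_mul, pDiag_scalar, one_mul]; rfl⟩
  · obtain ⟨a, e⟩ := (glEquiv _ F₀).surjective (i g)
    rw [MonoidHom.comp_apply, MonoidHom.comp_apply, ← e, linMap_glEquiv,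
      pDiag_eq_one_iff' (by simpa), map_mem_center_iff, mem_center_GL_iff]
    simp only [matrix_eq_iff_mulVec, smul_mulVec, one_mulVec, glEquiv_apply]
  · obtain ⟨g, ρ, rfl | ⟨h3, rfl⟩⟩ := aut_PSL_fin hn θ
    · exact ⟨1, (pow_one p).symm ▸ key g ρ hθ⟩
    obtain rfl := h5.resolve_right fun H => H g ρ h3 hθ
    have e : (pDiag g * pField _ ρ * pInvT _ F) ^ 2 =
        pDiag (g * (glField ρ * glInvT : MulAut _) g) * pField (Fin n) (ρ ^ 2) := by
      rw [← pGF_sq, sq, sq, map_mul, mul_assoc (pDiag g), mul_assoc (pDiag g), mul_assoc (pDiag g),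
        ← mul_assoc (_ * pInvT _ F), pGF_mul_pDiag, mul_assoc]
    exact ⟨2, by rw [sq 2, pow_mul, e, key _ _ fun l hl => e ▸ (hθ l hl).pow_left 2]⟩

variable [Finite F]

theorem balD_pField [Fact p.Prime] (hn : 2 ≤ n) (hpr : p ≠ r) {σ : RingAut F}
    (hp : orderOf σ = p) : BalD p (pField (Fin n) σ) := by
  have hn' : 2 ≤ Fintype.card (Fin n) := by simpa
  refine balD_lin (r := r) hn (glEquiv _ (H10.fixS σ)).toMonoidHom GeneralLinearGroup.det.ker
    (fixS_iff σ) (hp ▸ pow_orderOf_eq_one σ)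
    (fun l hl => Units.ext ((LinearEquiv.coe_det _).trans ((det_glEquiv l).trans
      (congrArg Units.val hl)))) (fun g => ?_)
    (fun Ψ => normP_SL hn hpr Ψ) (fun θ H => emb_coordMap.fixes_all (by simpa) fun v => ?_)
    (.inr fun g ρ h3 H => ?_)
  · simp only [pDiag_mem_centralizer_pField hn', exists_map_eq_of_fixed (fixS_iff σ),
      MulEquiv.coe_toMonoidHom, linMap_glEquiv]
    exact exists_congr fun c => ⟨fun ⟨_, ⟨l, e⟩, e'⟩ => ⟨l, e ▸ e'⟩, fun ⟨l, e⟩ => ⟨_, ⟨l, rfl⟩, e⟩⟩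
  · obtain ⟨f, h0, hf⟩ := exists_dot_eq_zero hn' v
    obtain ⟨i, hi⟩ := Function.ne_iff.mp h0
    rw [dotProduct_comm] at hf
    refine (H (SpecialLinearGroup.toGL (trv v f hf)) (by simp) (by
      rw [← map_pow, show trv v f hf ^ r ^ 2 = 1 from slv_ext_iff.mpr (by
        rw [trv_pow_val]; simp), map_one])).sub_one.fix emb_coordMap (x := Pi.single i (f i)⁻¹) ?_
      fun y => ⟨f ⬝ᵥ y, by simp [trv_mulVec]⟩
    simp [trv_mulVec, mul_inv_cancel₀ hi, -mulVec_single]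
  · obtain ⟨n, rfl⟩ : ∃ m, n = m + 3 := ⟨n - 3, by omega⟩
    have key : ∀ i, i ≠ 1 → ∃ c : F, Pi.single i 1 = c • g.1 *ᵥ (ρ ∘ (-Pi.single 1 1)) := by
      intro i hi
      have h4 := H (SpecialLinearGroup.toGL (trv (Pi.single i 1) (Pi.single 1 1) (by simp [hi])))
        (by simp)
      rw [MulEquiv.coe_toMonoidHom, linMap_glEquiv, show GeneralLinearGroup.map (H10.fixS σ).subtype _ =
        SpecialLinearGroup.toGL (trv (Pi.single i 1) (Pi.single 1 1) (by simp [hi])) from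
          Units.ext (Matrix.ext fun a b => by
            simp [trv_val, one_apply, vecMulVec_apply, Pi.single_apply, apply_ite Subtype.val]),
        pDiag_toGL] at h4
      have h5 := (conj_mem_centralizer_iff (conj_injective_PSL hn)).mp
        (Subgroup.mem_centralizer_singleton_iff.mpr h4.symm)
      rw [MulAut.mul_apply, MulAut.mul_apply, pInvT_slQ, pField_slQ, pDiag_slQ, slInvT_trv,
        slField_trv, slDiag_trv] at h5
      have h6 := congrArg (fun s : SL(n + 3, F) => s.1 *ᵥ Pi.single 1 1)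
        (IsTv.eq_of_slQ_eq hn' ⟨_, _, _, rfl⟩ ⟨_, _, _, rfl⟩ h5)
      simp only [trv_mulVec, add_right_inj, dotProduct_single_one, Pi.single_eq_same,
        one_smul] at h6
      exact ⟨_, h6.symm⟩
    obtain ⟨c, hc⟩ := key 0 (by simp)
    obtain ⟨d, hd⟩ := key 2 (Fin.succ_succ_ne_one (0 : Fin (n + 1)))
    have h2 : (2 : Fin (n + 3)) ≠ 0 := Fin.succ_ne_zero (1 : Fin (n + 2))
    have e1 := congrFun hc 0
    have e2 := congrFun hd 0
    have e3 := congrFun hd 2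
    simp only [Pi.single_eq_same, Pi.single_eq_of_ne h2.symm, Pi.smul_apply, smul_eq_mul] at e1 e2 e3
    grind

theorem balD_lRel (hn : 3 ≤ n) (hr : 2 ≠ r) {x : MulAut PSL(n, F)} {B} (h : LRel x B) :
    BalD 2 x := by
  obtain ⟨g, rfl, rfl, hG⟩ := h
  have h0 : (2 : F) ≠ 0 := fun h0 => hr (CharP.eq F (charP_two_of h0) ‹_›)
  refine balD_lin (r := r) (j := RingHom.id F) (ρ₀ := 1) (by omega) (simE (toBilin' g.1)).subtype
    (commutator _) (by simp) (one_pow 2) (fun l hl => (Abelianization.commutator_subset_ker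
      (LinearEquiv.det.comp (Subgroup.subtype _)) hl :)) (fun k => ?_)
    (fun Ψ => hG.normP h0 (by simpa) Ψ) (fun θ => hG.fixes h0 (by simpa) emb_coordMap) (.inl rfl)
  rw [Subgroup.mem_centralizer_singleton_iff, ← mul_inv_eq_iff_eq_mul, eq_comm,
    pGraph_conj_iff (by omega)]
  refine ⟨fun H => ⟨1, ⟨glEquiv _ F k, H⟩, by simp [linMap_id]⟩, ?_⟩
  rintro ⟨c, ⟨l, hl⟩, rfl⟩
  obtain ⟨l, rfl⟩ := (glEquiv _ F).surjective l
  obtain ⟨d, h1, h2⟩ := (scalE _ c * ⟨_, hl⟩ : simE (toBilin' g.1)).2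
  refine ⟨d, h1, fun u v => (h2 u v) ▸ ?_⟩
  simp only [Subgroup.coe_subtype, linMap_id, Units.val_mul, scalar_val, ← mulVec_mulVec,
    smul_mulVec, one_mulVec]
  rfl

theorem balD_pGF (hn : 3 ≤ n) (hr : 2 ≠ r) {σ : RingAut F} (hσ : orderOf σ = 2) :
    BalD 2 (pField (Fin n) σ * pInvT _ F) := by
  have hq : QConj σ.toRingHom (Nat.card (H10.fixS σ)) := ⟨by rw [← hσ, card_fixS_pow],
    Finite.one_lt_card, apply_eq_pow_of_orderOf_two hσ⟩
  have hH := hq.isHerm (Fin n)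
  have h0 : (2 : F) ≠ 0 := fun h0 => hr (CharP.eq F (charP_two_of h0) ‹_›)
  obtain ⟨u, f, hu, hf, huf, _, hc⟩ := hH.exists_frame (hermB_sep _) (by simpa)
  refine balD_lin (r := r) (j := RingHom.id F) (ρ₀ := 1) (by omega)
    (UIsom (hermB (Fin n) σ.toRingHom)).subtype (SIsom _) (by simp) (one_pow 2) (fun l hl => hl)
    (fun k => ?_) (fun Ψ => hH.normP (hermB_sep _) (by simpa) hq hr Ψ)
    (fun θ hθ => emb_coordMap.fixes hH.form h0 hu hf huf hc
      (hH.fix_pts (hermB_sep _) emb_coordMap hθ)) (.inl rfl)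
  simp only [pDiag_mem_centralizer_pGF (ι := Fin n) (by simpa using by omega) hσ,
    ← mem_GU_iff (apply_eq_pow_of_orderOf_two hσ)]
  refine exists_congr fun c => ⟨fun ⟨b, hb, e⟩ => ⟨guEquiv hq n ⟨b, hb⟩, e.trans
    (congrArg _ (linMap_id b).symm)⟩, fun ⟨l, e⟩ => ?_⟩
  obtain ⟨l, rfl⟩ := (guEquiv hq n).surjective l
  exact ⟨l, l.2, e.trans (congrArg _ (linMap_id l.1))⟩

theorem balD_PSL [hp : Fact p.Prime] (hn : 2 ≤ n) (hpr : p ≠ r) {β : MulAut PSL(n, F)}
    (hord : orderOf β = p) (hnot : β ∉ (pDiag : GL (Fin n) F →* _).range) :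
    BalD p β ∧ ((∃ g σ, β = pDiag g * pField _ σ) ∨ p = 2) := by
  have hn' : 2 ≤ Fintype.card (Fin n) := by simpa
  have hk := hord ▸ pow_orderOf_eq_one β
  obtain ⟨g, σ, rfl | ⟨h3, rfl⟩⟩ := aut_PSL_fin hn β
  · have := normal_range_pDiag (F := F) hn
    obtain ⟨a, ha⟩ : pField (Fin n) σ ^ p ∈ (pDiag : GL (Fin n) F →* _).range := by
      have := congrArg (QuotientGroup.mk' (pDiag : GL (Fin n) F →* _).range) hk
      rwa [map_pow, map_mul, QuotientGroup.mk'_apply, (QuotientGroup.eq_one_iff (pDiag g)).mpr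
        (MonoidHom.mem_range.mpr ⟨g, rfl⟩), one_mul, ← map_pow, map_one, QuotientGroup.mk'_apply,
        QuotientGroup.eq_one_iff] at this
    have hσ : orderOf σ = p := orderOf_eq_prime (pDiag_mul_pField_eq_one hn' (g := a⁻¹) (by
      rw [map_inv, ha, map_pow, inv_mul_cancel])).1 (by rintro rfl; exact hnot ⟨g, by simp⟩)
    obtain ⟨α, -, e⟩ := lang_pField hn' hσ _ ⟨g, rfl⟩ hk
    exact ⟨e ▸ (balD_pField hn hpr hσ).conj α, .inl ⟨g, σ, rfl⟩⟩
  obtain ⟨π, h0, h1, h2, -⟩ := exists_autType (F := F) h3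
  have h4 := congrArg π hk
  rw [map_pow, map_mul, map_mul, h1, h2, π.map_one, h0.ge ⟨g, rfl⟩, one_mul, Prod.mk_mul_mk,
    mul_one, one_mul, Prod.pow_mk, Prod.mk_eq_one] at h4
  obtain rfl : p = 2 := ((Nat.prime_dvd_prime_iff_eq Nat.prime_two hp.out).1
    (orderOf_eq_prime (x := Multiplicative.ofAdd (1 : ZMod 2)) (p := 2) (by decide) (by decide) ▸
      orderOf_dvd_of_pow_eq_one h4.2)).symm
  refine ⟨?_, .inr rfl⟩
  by_cases hσ : σ = 1
  · rw [hσ, map_one, mul_one] at hk ⊢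
    exact balD_lRel h3 hpr ⟨g⁻¹, rfl, rfl, (pGraph_sq_iff hn _).mp hk⟩
  · rw [mul_assoc] at hk ⊢
    obtain ⟨α, -, e⟩ := lang_pGF hn' (orderOf_eq_prime h4.1 hσ) _ ⟨g, rfl⟩ hk
    exact e ▸ (balD_pGF h3 hpr (orderOf_eq_prime h4.1 hσ)).conj α

end Cfsg.Agent.H11
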