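import Mathlib
import Cfsg.Agent.H11.FinQuad
import Cfsg.Agent.H11.Unit2

/-!
# Weights of abelian unipotent radicals

Tools for the lower bounds of Landazuri and Seitz for the degrees of complex representations of
classical groups: weight vectors, and the sizes of orbits of forms under linear groups.
-/

set_option autoImplicit false

namespace Cfsg.Agent.H11

open Module

section weights

variable {k : Type*} [Field k] {V : Type*} [AddCommGroup V] [Module k V] {ι κ : Type*}

theorem eq_zero_of_sum_weight (f : κ → End k V) {χ : ι → κ → k} (hχ : Function.Injective χ)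
    (s : Finset ι) : ∀ v : ι → V, (∀ i ∈ s, ∀ b, f b (v i) = χ i b • v i) → ∑ i ∈ s, v i = 0 →
    ∀ i ∈ s, v i = 0 := by
  classical
  induction s using Finset.induction_on with
  | empty => simp
  | insert a s ha ih =>
    intro v h h0
    rw [Finset.sum_insert ha] at h0
    have key : ∀ i ∈ s, v i = 0 := fun i hi => by
      obtain ⟨b, hb⟩ := Function.ne_iff.mp (hχ.ne (ne_of_mem_of_not_mem hi ha))
      refine (smul_eq_zero.mp (ih (fun j => (χ j b - χ a b) • v j) (fun j hj c => ?_) ?_ i
        hi)).resolve_left (sub_ne_zero.mpr hb)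
      · rw [map_smul, h j (by simp [hj]), smul_comm]
      · have := congrArg (f b) h0
        rw [map_add, map_sum, map_zero, h a (by simp),
          Finset.sum_congr rfl fun j hj => h j (by simp [hj]) b] at this
        simp only [sub_smul, Finset.sum_sub_distrib, ← Finset.smul_sum]
        rw [eq_neg_of_add_eq_zero_right this, eq_neg_of_add_eq_zero_right h0, smul_neg, sub_self]
    intro i hi
    rcases Finset.mem_insert.mp hi with rfl | hi
    · simpa [Finset.sum_eq_zero key] using h0
    · exact key i hi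

theorem card_mul_le_finrank [FiniteDimensional k V] (f : κ → End k V) {χ : ι → κ → k}
    (hχ : Function.Injective χ) {J : Type*} (v : ι → J → V) (hv : ∀ i, LinearIndependent k (v i))
    (h : ∀ i j b, f b (v i j) = χ i b • v i j) : Nat.card ι * Nat.card J ≤ finrank k V := by
  classical
  have : LinearIndependent k fun x : ι × J => v x.1 x.2 := by
    rw [linearIndependent_iff']
    intro s c hs x hx
    rw [← Finset.sum_fiberwise_of_maps_to (g := Prod.fst) (t := s.image Prod.fst)
      fun y hy => Finset.mem_image_of_mem _ hy] at hs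
    have h1 := eq_zero_of_sum_weight f hχ _ _ (fun i _ b => by
      rw [map_sum, Finset.smul_sum]
      refine Finset.sum_congr rfl fun y hy => ?_
      rw [map_smul, h, (Finset.mem_filter.mp hy).2, smul_comm]) hs x.1
      (Finset.mem_image_of_mem _ hx)
    rw [Finset.sum_bij' (t := (s.filter fun y => y.1 = x.1).image Prod.snd)
      (g := fun j => c (x.1, j) • v x.1 j) (fun y _ => y.2) (fun j _ => (x.1, j))
      (fun y hy => Finset.mem_image_of_mem _ hy) (by simp) (fun y hy => by
        rw [← (Finset.mem_filter.mp hy).2]) (fun _ _ => rfl) fun y hy => by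
        rw [← (Finset.mem_filter.mp hy).2]] at h1
    exact linearIndependent_iff'.mp (hv x.1) _ _ h1 x.2 (Finset.mem_image_of_mem _ (by simpa))
  rw [← Nat.card_prod]
  have h1 := this.finite
  have := Fintype.ofFinite (ι × J)
  rw [Nat.card_eq_fintype_card]
  exact LinearIndependent.fintype_card_le_finrank ‹_›

variable {G : Type*} [Group G]

/-- The weight space of a family of group elements. -/
def wtSp (ρ : Representation k G V) (u : κ → G) (χ : κ → k) : Submodule k V :=
  ⨅ b, End.eigenspace (ρ (u b)) (χ b)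

theorem mem_wtSp {ρ : Representation k G V} {u : κ → G} {χ : κ → k} {v : V} :
    v ∈ wtSp ρ u χ ↔ ∀ b, ρ (u b) v = χ b • v := by simp [wtSp]

theorem iSup_wtSp [IsAlgClosed k] [CharZero k] [FiniteDimensional k V] [Finite G]
    (ρ : Representation k G V) (u : κ → G) (hu : ∀ a b, Commute (u a) (u b)) :
    ⨆ χ, wtSp ρ u χ = ⊤ := by
  have hs : ∀ g, End.IsSemisimple (ρ g) := fun g =>
    End.isSemisimple_of_squarefree_aeval_eq_zero (Polynomial.separable_X_pow_sub_C (n := Nat.card G)
      1 (by simp [Nat.card_pos.ne']) one_ne_zero).squarefree (by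
        rw [map_sub, map_pow, Polynomial.aeval_X, ← map_pow, pow_card_eq_one']; simp)
  rw [← End.iSup_iInf_maxGenEigenspace_eq_top_of_iSup_maxGenEigenspace_eq_top_of_commute
    (fun b => ρ (u b)) (fun a b _ => (hu a b).map ρ) fun _ => End.iSup_maxGenEigenspace_eq_top _]
  simp only [wtSp, (hs _).isFinitelySemisimple.maxGenEigenspace_eq_eigenspace]

theorem exists_wtSp [IsAlgClosed k] [CharZero k] [FiniteDimensional k V] [Finite G]
    (ρ : Representation k G V) (u : κ → G) (hu : ∀ a b, Commute (u a) (u b)) {b : κ}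
    (hb : ρ (u b) ≠ 1) : ∃ χ, χ b ≠ 1 ∧ wtSp ρ u χ ≠ ⊥ := by
  by_contra H
  push Not at H
  refine hb (LinearMap.ext fun v => ?_)
  have : ⨆ χ, wtSp ρ u χ ≤ End.eigenspace (ρ (u b)) 1 := iSup_le fun χ => by
    by_cases h : χ b = 1
    · exact h ▸ iInf_le _ b
    · simp [H χ h]
  simpa using this (iSup_wtSp ρ u hu ▸ Submodule.mem_top : v ∈ _)

theorem card_mul_finrank_wtSp_le [FiniteDimensional k V] (ρ : Representation k G V) (u : κ → G)
    (χ : κ → k) {ψ : ι → κ → k} (hψ : Function.Injective ψ)
    (h : ∀ i, ∃ (g : G) (t : κ → κ), (∀ b, g * u b * g⁻¹ = u (t b)) ∧ ψ i = χ ∘ t) :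
    Nat.card ι * finrank k (wtSp ρ u χ) ≤ finrank k V := by
  choose g t h1 h2 using h
  let b := finBasis k (wtSp ρ u χ)
  have := card_mul_le_finrank (fun b => ρ (u b)) hψ (fun i j => ρ (g i)⁻¹ (b j)) (fun i =>
    (b.linearIndependent.map' _ (Submodule.ker_subtype _)).map' (ρ (g i)⁻¹)
      (LinearMap.ker_eq_bot.mpr (ρ.apply_bijective _).1)) fun i j c => by
    rw [h2, Function.comp_apply, ← map_smul, ← mem_wtSp.mp (b j).2, ← h1, ← End.mul_apply,
      ← End.mul_apply, ← map_mul, ← map_mul]
    congr 2; group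
  simpa using this

theorem ker_ne_top_of_irreducible {n : ℕ} {ρ : Representation k G (Fin n → k)}
    (hρ : ρ.IsIrreducible) (hn : 2 ≤ n) : ρ.ker ≠ ⊤ := fun h1 => by
  have hv : (Pi.single (⟨0, by omega⟩ : Fin n) (1 : k) : Fin n → k) ≠ 0 := by simp
  let W : Subrepresentation ρ :=
    ⟨k ∙ (Pi.single (⟨0, by omega⟩ : Fin n) (1 : k) : Fin n → k), fun x v hv => by
      rw [MonoidHom.mem_ker.1 (h1.ge (Subgroup.mem_top x))]
      exact hv⟩
  have h2 : finrank k W.toSubmodule = 1 := finrank_span_singleton hv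
  rcases hρ.eq_bot_or_eq_top W with h3 | h3 <;> rw [h3] at h2
  · change finrank k (⊥ : Submodule k (Fin n → k)) = 1 at h2
    simp at h2
  · change finrank k (⊤ : Submodule k (Fin n → k)) = 1 at h2
    simp at h2
    omega

variable {F : Type*} [Field F] [Finite F] {ψ : AddChar F ℂ}

theorem exists_eq_addChar (hψ : ψ ≠ 1) (χ : F → ℂ) (h0 : χ 0 = 1)
    (h : ∀ a b, χ (a + b) = χ a * χ b) : ∃ c, ∀ a, χ a = ψ (c * a) := by
  have := Fintype.ofFinite F
  obtain ⟨c, hc⟩ := ((Fintype.bijective_iff_injective_and_card _).mpr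
    ⟨AddChar.to_mulShift_inj_of_isPrimitive (AddChar.IsPrimitive.of_ne_one hψ), by simp⟩).2 ⟨χ, h0, h⟩
  exact ⟨c, fun a => (DFunLike.congr_fun hc a).symm⟩

omit [Finite F] in
theorem eq_of_addChar (hψ : ψ ≠ 1) {c d : F} (h : ∀ a, ψ (c * a) = ψ (d * a)) : c = d :=
  AddChar.to_mulShift_inj_of_isPrimitive (AddChar.IsPrimitive.of_ne_one hψ) (DFunLike.ext _ _ h)

theorem exists_addChar_ne_one (F : Type*) [Field F] [Finite F] : ∃ ψ : AddChar F ℂ, ψ ≠ 1 :=
  (AddChar.exists_apply_ne_zero.mpr (one_ne_zero' F)).imp fun _ h e => h (by simp [e])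

end weights

end Cfsg.Agent.H11
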