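import Mathlib
import Cfsg.Agent.H11.LS

/-!
# Orbits of forms under linear groups
-/

set_option autoImplicit false

namespace Cfsg.Agent.H11

open Module

theorem card_le_mul_of_fiber {α β γ : Type*} [Finite β] [Finite γ] (f : α → β)
    (R : γ → α → α → Prop) (hR : ∀ w a b c, R w a b → R w a c → b = c)
    (h : ∀ a b, f a = f b → ∃ w, R w a b) : Nat.card α ≤ Nat.card γ * Nat.card β := by
  classical
  rcases isEmpty_or_nonempty α with _ | _
  · simp
  choose w hw using fun a => h _ a (Function.invFun_eq ⟨a, rfl⟩)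
  rw [← Nat.card_prod]
  refine Nat.card_le_card_of_injective (fun a => (w a, f a)) fun a b e => ?_
  obtain ⟨e1, e2⟩ := Prod.ext_iff.mp e
  exact hR _ _ _ _ (hw a) (by rw [show w a = w b from e1, show f a = f b from e2]; exact hw b)

variable {F : Type*} [Field F] {U : Type*} [AddCommGroup U] [Module F U]

theorem exists_pair_ne_zero {W : Submodule F U} {f g : U →ₗ[F] F} (hf : ∃ x ∈ W, f x ≠ 0)
    (hg : ∃ x ∈ W, g x ≠ 0) : ∃ y ∈ W, f y = 1 ∧ g y ≠ 0 := by
  obtain ⟨x, hx, h1⟩ := hf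
  obtain ⟨y, hy, h2⟩ := hg
  suffices ∃ y ∈ W, f y ≠ 0 ∧ g y ≠ 0 by
    obtain ⟨y, hy, h1, h2⟩ := this
    exact ⟨(f y)⁻¹ • y, W.smul_mem _ hy, by simp [h1], by simp [h1, h2]⟩
  by_cases h3 : g x = 0
  · by_cases h4 : f y = 0
    · exact ⟨x + y, add_mem hx hy, by simpa [h4], by simpa [h3]⟩
    · exact ⟨y, hy, h4, h2⟩
  · exact ⟨x, hx, h1, h3⟩

theorem eq_zero_or_of_mul {f g : U →ₗ[F] F} (h : ∀ x, f x * g x = 0) : f = 0 ∨ g = 0 := by
  by_contra! H
  obtain ⟨x, hx⟩ := DFunLike.ne_iff.mp H.1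
  obtain ⟨y, hy⟩ := DFunLike.ne_iff.mp H.2
  obtain ⟨z, -, h1, h2⟩ := exists_pair_ne_zero (W := ⊤) ⟨x, trivial, hx⟩ ⟨y, trivial, hy⟩
  simpa [h1, h2] using h z

variable [FiniteDimensional F U] {D : Submonoid F}

theorem exists_det_eq {f : Dual F U} {y : U} (h : f y = 1) (u : F) :
    LinearMap.det (LinearMap.transvection f ((u - 1) • y)) = u := by simp [h]

theorem exists_move (hD : (∀ d ≠ 0, d ∈ D) ∨ 2 ≤ finrank F U) {x y : U} (hx : x ≠ 0) (hy : y ≠ 0) :
    ∃ h : U →ₗ[F] U, LinearMap.det h ∈ D ∧ h x = y := by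
  obtain ⟨f, -, h1, h2⟩ := exists_pair_ne_zero (W := ⊤) (f := Dual.eval F U x) (g := Dual.eval F U y)
    ((Projective.exists_dual_ne_zero F hx).imp fun _ h => ⟨trivial, h⟩)
    ((Projective.exists_dual_ne_zero F hy).imp fun _ h => ⟨trivial, h⟩)
  rw [Dual.eval_apply] at h1 h2
  rcases hD with hD | hD
  · exact ⟨LinearMap.transvection f (y - x), hD _ (by simpa [h1]), by
      simp [LinearMap.transvection.apply, h1]⟩
  obtain ⟨z, hz⟩ : ∃ z, z ∉ Submodule.span F {x} := by
    by_contra! H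
    have := finrank_span_singleton (K := F) hx
    rw [show Submodule.span F {x} = ⊤ from eq_top_iff.mpr fun z _ => H z, finrank_top] at this
    omega
  obtain ⟨g, g1, g2⟩ := Submodule.exists_dual_map_eq_bot_of_notMem hz inferInstance
  have g3 : g x = 0 := g2.le ⟨x, Submodule.mem_span_singleton_self x, rfl⟩
  refine ⟨LinearMap.transvection f (y - x) ∘ₗ LinearMap.transvection ((g z)⁻¹ • g) (((f y)⁻¹ - 1) • z),
    ?_, by simp [LinearMap.transvection.apply, h1, g3]⟩
  rw [LinearMap.det_comp, exists_det_eq (by simp [g1])]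
  simpa [h1, h2] using D.one_mem

theorem exists_move_surj {T : Type*} [AddCommGroup T] [Module F T]
    (hD : (∀ d ≠ 0, d ∈ D) ∨ finrank F T < finrank F U) {π π' : U →ₗ[F] T}
    (h : Function.Surjective π) (h' : Function.Surjective π') :
    ∃ g : U →ₗ[F] U, LinearMap.det g ∈ D ∧ ∀ x, π (g x) = π' x := by
  obtain ⟨s, hs⟩ := π.exists_rightInverse_of_surjective (LinearMap.range_eq_top.mpr h)
  obtain ⟨s', hs'⟩ := π'.exists_rightInverse_of_surjective (LinearMap.range_eq_top.mpr h')
  have k := π.finrank_range_add_finrank_ker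
  have k' := π'.finrank_range_add_finrank_ker
  rw [LinearMap.range_eq_top.mpr h, finrank_top] at k
  rw [LinearMap.range_eq_top.mpr h', finrank_top] at k'
  have a : ∀ t, π (s t) = t := LinearMap.congr_fun hs
  have a' : ∀ t, π' (s' t) = t := LinearMap.congr_fun hs'
  let e : LinearMap.ker π' ≃ₗ[F] LinearMap.ker π := LinearEquiv.ofFinrankEq _ _ (by omega)
  let g := (LinearMap.ker π).subtype ∘ₗ e.toLinearMap ∘ₗ
    (LinearMap.id - s' ∘ₗ π').codRestrict (LinearMap.ker π') (by simp [a']) + s ∘ₗ π'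
  have g1 : ∀ x, π (g x) = π' x := fun x => by simp [g, a]
  have g2 : LinearMap.det g ≠ 0 := fun h0 => by
    obtain ⟨x, hx, hx0⟩ := (Submodule.ne_bot_iff _).mp (LinearMap.bot_lt_ker_of_det_eq_zero h0).ne'
    have h1 : π' x = 0 := by rw [← g1, hx, map_zero]
    have h2 : e ⟨x, h1⟩ = 0 := Subtype.ext (by
      refine Eq.trans ?_ hx
      simp only [g, LinearMap.add_apply, LinearMap.comp_apply, h1, map_zero, add_zero]
      exact congrArg (fun y => (e y).1) (Subtype.ext (by simp [h1])))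
    exact hx0 (congrArg Subtype.val (e.map_eq_zero_iff.mp h2))
  rcases hD with hD | hD
  · exact ⟨g, hD _ g2, g1⟩
  obtain ⟨z, hz, hz0⟩ := (Submodule.ne_bot_iff (LinearMap.ker π)).mp fun h0 => by
    rw [h0, finrank_bot] at k; omega
  obtain ⟨f, hf⟩ := Projective.exists_dual_eq_one F hz0
  refine ⟨LinearMap.transvection f (((LinearMap.det g)⁻¹ - 1) • z) ∘ₗ g, ?_, fun x => by
    simp [LinearMap.transvection.apply, g1, LinearMap.mem_ker.mp hz]⟩
  rw [LinearMap.det_comp, exists_det_eq hf, inv_mul_cancel₀ g2]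
  exact D.one_mem

variable [Finite F]

theorem card_dual_zero {x : U} (hx : x ≠ 0) :
    Nat.card {f : Dual F U // f x = 0} = Nat.card F ^ (finrank F U - 1) := by
  have := Dual.finrank_ker_add_one_of_ne_zero (f := Dual.eval F U x)
    ((eval_apply_eq_zero_iff F x).not.mpr hx)
  rw [Subspace.dual_finrank_eq] at this
  rw [← this, Nat.add_sub_cancel]
  exact Module.natCard_eq_pow_finrank (K := F) (V := LinearMap.ker (Dual.eval F U x))

theorem card_dual_zero_ne {x : U} (hx : x ≠ 0) :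
    Nat.card {f : Dual F U // f x = 0 ∧ f ≠ 0} = Nat.card F ^ (finrank F U - 1) - 1 := by
  have : Finite (Dual F U) := Module.finite_of_finite F
  rw [← card_dual_zero hx]
  have := Set.ncard_sdiff_singleton_of_mem (s := {f : Dual F U | f x = 0}) (a := 0) rfl
  exact this

theorem prod_le_card_surj {k : ℕ} (hk : k ≤ finrank F U) :
    ∏ i : Fin k, (Nat.card F ^ finrank F U - Nat.card F ^ (i : ℕ)) ≤
      Nat.card {π : U →ₗ[F] Fin k → F // Function.Surjective π} := by
  have := Fintype.ofFinite F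
  have : Finite (U →ₗ[F] Fin k → F) := Module.finite_of_finite F
  have : Finite (Dual F U) := Module.finite_of_finite F
  rw [Nat.card_eq_fintype_card, ← Subspace.dual_finrank_eq,
    ← card_linearIndependent (Subspace.dual_finrank_eq (K := F) (V := U) ▸ hk)]
  refine Nat.card_le_card_of_injective (fun s => ⟨LinearMap.pi s.1, ?_⟩) fun s t e =>
    Subtype.ext (funext fun i => LinearMap.ext fun x =>
      congrFun (LinearMap.congr_fun (congrArg Subtype.val e) x) i)
  by_contra H
  obtain ⟨f, f1, f2⟩ := Submodule.exists_dual_map_eq_bot_of_lt_top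
    (lt_top_iff_ne_top.mpr (LinearMap.range_eq_top.not.mpr H)) inferInstance
  refine f1 (LinearMap.pi_ext' fun i => LinearMap.ext_ring ?_)
  refine Fintype.linearIndependent_iff.mp s.2 (fun i => f (Pi.single i 1)) (LinearMap.ext fun x => ?_) i
  have : f (LinearMap.pi s.1 x) = 0 := f2.le ⟨_, ⟨x, rfl⟩, rfl⟩
  rw [LinearMap.pi_apply_eq_sum_univ] at this
  rw [LinearMap.zero_apply, ← this, LinearMap.sum_apply]
  refine Finset.sum_congr rfl fun j _ => ?_
  rw [LinearMap.smul_apply, smul_eq_mul, smul_eq_mul, mul_comm]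
  congr 2
  exact funext fun l => by simp [Pi.single_apply, eq_comm]

variable {σ : F →+* F} {ε κ : F} {τ : F →+ F} {B : U →ₛₗ[σ] U →ₗ[F] F} {Q : U → F}

/-- The orbit of a form under the linear maps with determinant in `D`. -/
def formOrb (D : Submonoid F) (B : U →ₛₗ[σ] U →ₗ[F] F) (Q : U → F) :
    Set ((U → U → F) × (U → F)) :=
  {p | ∃ h : U →ₗ[F] U, LinearMap.det h ∈ D ∧ p = (fun x y => B (h x) (h y), fun x => Q (h x))}

theorem orb_ne {x : U} (hx : x ≠ 0) {C : Set F} (h0 : 0 ∉ C)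
    (hC : ∀ c ∈ C, ∃ h : U →ₗ[F] U, LinearMap.det h ∈ D ∧ B (h x) (h x) = c) :
    Nat.card C * Nat.card F ^ (finrank F U - 1) ≤
      Nat.card {p : formOrb D B Q // p.1.1 x x ≠ 0} := by
  have : Finite U := Module.finite_of_finite F
  choose h h1 h2 using hC
  rw [← card_dual_zero hx, ← Nat.card_prod]
  refine Nat.card_le_card_of_injective (fun a => ⟨⟨_, h a.1 a.1.2 ∘ₗ LinearMap.transvection a.2.1 x,
    by simpa [a.2.2] using h1 _ a.1.2, rfl⟩, by
      simpa [LinearMap.transvection.apply, a.2.2, h2] using ne_of_mem_of_not_mem a.1.2 h0⟩) ?_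
  rintro ⟨⟨c, hc⟩, f, hf⟩ ⟨⟨d, hd⟩, g, hg⟩ e
  have e1 := fun y => congrArg (fun p => p.1.1.1 x y) e
  obtain rfl : c = d := by simpa [LinearMap.transvection.apply, hf, hg, h2] using e1 x
  simpa [LinearMap.transvection.apply, hf, hg, h2, ne_of_mem_of_not_mem hc h0, LinearMap.ext_iff]
    using e1

theorem orb_core (h : IsForm ε κ τ B Q) {T : Type*} [AddCommGroup T] [Module F T]
    (hD : (∀ d ≠ 0, d ∈ D) ∨ finrank F T < finrank F U) (i : T →ₗ[F] U) (π : U →ₗ[F] T)
    (h1 : ∀ t, π (i t) = t) (h2 : ∀ x y, B (i (π x)) (i (π y)) = B x y)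
    (h3 : ∀ x, Q (i (π x)) = Q x) (h4 : ∀ t, Q (i t) = 0 → t = 0) :
    Nat.card {π : U →ₗ[F] T // Function.Surjective π} ≤
      Nat.card (Isom (pull B i) fun t => Q (i t)) * Nat.card (formOrb D B Q) := by
  have : Finite U := Module.finite_of_finite F
  have : Finite T := Finite.of_surjective π fun t => ⟨_, h1 t⟩
  have : Finite (T ≃ₗ[F] T) := Finite.of_injective _ DFunLike.coe_injective
  refine card_le_mul_of_fiber (fun p => ⟨(fun x y => B (i (p.1 x)) (i (p.1 y)),
    fun x => Q (i (p.1 x))), ?_⟩) (fun o a b => ∀ x, o.1 (a.1 x) = b.1 x)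
    (fun o a b c e e' => Subtype.ext (LinearMap.ext fun x => (e x).symm.trans (e' x))) ?_
  · obtain ⟨g, g1, g2⟩ := exists_move_surj hD (fun t => ⟨_, h1 t⟩) p.2
    exact ⟨g, g1, by simp only [← g2, h2, h3]⟩
  rintro ⟨a, ha⟩ ⟨b, hb⟩ e
  obtain ⟨e1, e2⟩ := Prod.ext_iff.mp (congrArg Subtype.val e)
  replace e1 := fun x => congrFun (congrFun e1 x)
  replace e2 := congrFun e2
  simp only at e1 e2
  have k : LinearMap.ker a = LinearMap.ker b := Submodule.ext fun x =>
    ⟨fun hx => h4 _ (by rw [← e2, hx, map_zero, h.map_zero]),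
      fun hx => h4 _ (by rw [e2, hx, map_zero, h.map_zero])⟩
  let o := (a.quotKerEquivOfSurjective ha).symm.trans
    ((Submodule.quotEquivOfEq _ _ k).trans (b.quotKerEquivOfSurjective hb))
  have ho : ∀ x, o (a x) = b x := fun x => by simp [o]
  refine ⟨⟨o, fun s t => ?_, fun s => ?_⟩, ho⟩
  · obtain ⟨s, rfl⟩ := ha s
    obtain ⟨t, rfl⟩ := ha t
    simp [pull_apply, ho, e1]
  · obtain ⟨s, rfl⟩ := ha s
    simp [ho, e2]

theorem orb_rank_one (h : IsForm ε κ τ B Q) (hD : (∀ d ≠ 0, d ∈ D) ∨ 2 ≤ finrank F U) {x : U}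
    (hx : B x x ≠ 0) (hr : ∀ y, B x y = 0 → Q y = 0) :
    ∃ i : (Fin 1 → F) →ₗ[F] U, (pull B i).SeparatingLeft ∧ Nat.card F ^ finrank F U - 1 ≤
      Nat.card (Isom (pull B i) fun t => Q (i t)) * Nat.card (formOrb D B Q) := by
  let i : (Fin 1 → F) →ₗ[F] U := LinearMap.toSpanSingleton F U x ∘ₗ LinearMap.proj 0
  let π : U →ₗ[F] Fin 1 → F := LinearMap.pi fun _ => (B x x)⁻¹ • B x
  have hi : ∀ t, i t = t 0 • x := fun _ => rfl
  have hπ : ∀ y, ∃ z, B x z = 0 ∧ y = i (π y) + z := fun y =>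
    ⟨y - i (π y), by simp [hi, π]; field_simp; ring, by simp⟩
  have hQ : Q x ≠ 0 := fun e => hx (h.diag_zero e)
  have hp : ∀ y z, B x y = 0 → B x z = 0 → B y z = 0 := fun y z hy hz => by
    by_contra e
    obtain ⟨t, ht⟩ := h.tv x
    have := h.add y ((t / B y z) • z)
    rw [hr _ (by simp [hy, hz]), hr y hy, hr _ (by simp [hz])] at this
    exact hQ (by simpa [e, ← ht] using this.symm)
  have h0 : x ≠ 0 := fun e => hx (by simp [e])
  have := prod_le_card_surj (F := F) (U := U) (k := 1) (finrank_pos_iff_exists_ne_zero.mpr ⟨x, h0⟩)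
  refine ⟨i, fun t ht => funext fun j => ?_, le_trans (by simp) (this.trans (orb_core h
    (by simpa [Nat.lt_iff_add_one_le] using hD) i π (fun t => funext fun j => ?_) (fun y z => ?_) (fun y => ?_)
    fun t ht => funext fun j => ?_))⟩
  · have := ht fun _ => 1
    simp only [pull_apply, hi, one_smul, map_smulₛₗ, LinearMap.smul_apply, smul_eq_mul] at this
    simpa [Subsingleton.elim j 0, hx] using this
  · simp [hi, π, Subsingleton.elim j 0, hx]
  · obtain ⟨y', h1, h2⟩ := hπ y
    obtain ⟨z', h3, h4⟩ := hπ z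
    conv_rhs => rw [h2, h4]
    simp [hi, h3, h.refl h1, hp _ _ h1 h3, mul_left_comm]
  · obtain ⟨y', h1, h2⟩ := hπ y
    conv_rhs => rw [h2, h.add, hr _ h1]
    simp [hi, h1]
  · rw [hi, h.smul] at ht
    simpa [Subsingleton.elim j 0, hQ] using ht

theorem exists_move' {x y : U} (hx : x ≠ 0) (hy : y ≠ 0) :
    ∃ h : U →ₗ[F] U, LinearMap.det h ≠ 0 ∧ h x = y := by
  simpa using exists_move (D := nonZeroDivisors F) (.inl (by simp)) hx hy

theorem orb_odd {B : U →ₗ[F] U →ₗ[F] F} (h : IsQuad B Q) (h2 : (2 : F) ≠ 0) {x : U}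
    (hx : Q x ≠ 0) :
    Nat.card F ^ finrank F U - 1 ≤ 2 * Nat.card (formOrb (nonZeroDivisors F) B Q) := by
  have hB : B x x ≠ 0 := by simp [h.diag', h2, hx]
  by_cases hr : ∀ y, B x y = 0 → Q y = 0
  · obtain ⟨i, h3, h4⟩ := orb_rank_one h (D := nonZeroDivisors F) (.inl (by simp)) hB hr
    rwa [IsQuad.card_isom_line (h.comp i) h3 (by simp)] at h4
  push Not at hr
  obtain ⟨y, h3, h4⟩ := hr
  have h0 : x ≠ 0 := fun e => hB (by simp [e])
  have := Fintype.ofFinite F
  have : Finite U := Module.finite_of_finite F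
  have h5 := orb_ne (D := nonZeroDivisors F) (B := B) (Q := Q) h0 (C := {0}ᶜ) (by simp)
    fun c hc => by
      obtain ⟨a, b, e⟩ := FiniteField.exists_root_sum_quadratic
        (Polynomial.degree_quadratic (b := 0) (c := 0) (mul_ne_zero h2 hx))
        (Polynomial.degree_quadratic (b := 0) (c := -c) (mul_ne_zero h2 h4))
        (FiniteField.odd_card_of_char_ne_two fun e => h2 (by
          simpa [e] using (ringChar.spec F 2).mpr))
      have e' : B (a • x + b • y) (a • x + b • y) = c := by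
        simp only [Polynomial.eval_add, Polynomial.eval_mul, Polynomial.eval_C, Polynomial.eval_X,
          Polynomial.eval_pow] at e
        rw [h.diag', h.add', h.smul', h.smul']
        simp only [map_smul, LinearMap.smul_apply, h3]
        linear_combination e
      obtain ⟨g, g1, g2⟩ := exists_move' (F := F) h0 (y := a • x + b • y) fun e => hc (by
        simp [← e', e])
      exact ⟨g, by simpa, by rw [g2, e']⟩
  obtain ⟨n, hn⟩ := Nat.exists_eq_add_one_of_ne_zero
    (finrank_pos_iff_exists_ne_zero.mpr ⟨x, h0⟩ : 0 < finrank F U).ne'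
  obtain ⟨q, hq⟩ : ∃ q, Nat.card F = q + 2 := Nat.exists_eq_add_of_le' (Finite.one_lt_card (α := F))
  rw [show Nat.card ({0}ᶜ : Set F) = q + 1 by
    have := Set.ncard_add_ncard_compl ({0} : Set F)
    rw [Set.ncard_singleton] at this
    rw [Nat.card_coe_set_eq]; omega, hn, hq, Nat.add_sub_cancel] at h5
  have h6 := h5.trans (Finite.card_subtype_le _)
  rw [hn, hq, pow_succ]
  nlinarith [Nat.sub_le ((q + 2) ^ n * (q + 2)) 1, Nat.zero_le (q * (q + 2) ^ n)]

theorem orb_even {B : U →ₗ[F] U →ₗ[F] F} (h : IsQuad B Q) (h2 : (2 : F) = 0) {x y : U}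
    (hx : B x y = 1) : (Nat.card F ^ finrank F U - 1) * (Nat.card F ^ finrank F U - Nat.card F) ≤
      2 * (Nat.card F + 1) * Nat.card (formOrb (nonZeroDivisors F) B Q) := by
  have hd : ∀ x, B x x = 0 := fun x => by simp [h.diag', h2]
  have : Finite U := Module.finite_of_finite F
  by_cases hr : ∀ e y, Q e = 0 → B e y = 0
  · let i : (Fin 2 → F) →ₗ[F] U := Fintype.linearCombination F ![x, y]
    let π : U →ₗ[F] Fin 2 → F := LinearMap.pi ![B y, B x]
    have hi : ∀ t, i t = t 0 • x + t 1 • y := fun _ => by simp [i, Fintype.linearCombination_apply]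
    have hy : B y x = 1 := by rw [h.comm, hx]
    have h1 : ∀ t, π (i t) = t := fun t => funext fun j => by
      fin_cases j <;> simp [π, hi, hx, hy, hd]
    have hπ : ∀ z, ∃ w, Q w = 0 ∧ z = i (π z) + w := fun z => by
      refine ⟨z - i (π z), ?_, by simp⟩
      have e : π (z - i (π z)) = 0 := by simp [h1]
      generalize z - i (π z) = w at e
      by_contra H
      have := Fintype.ofFinite F
      obtain ⟨t, ht⟩ := FiniteField.isSquare_of_char_two
        (ringChar.eq_iff.mpr (CharTwo.of_one_ne_zero_of_two_eq_zero one_ne_zero h2)) (Q x / Q w)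
      have := hr (x + t • w) y (by
        rw [h.add', h.smul', ← ht, map_smul, show B x w = 0 from congrFun e 1]
        field_simp
        linear_combination Q x * h2)
      simp [hx, h.comm w, show B y w = 0 from congrFun e 0] at this
    have h3 : ∀ t, (∀ s, B (i t) (i s) = 0) → t = 0 := fun t ht => by
      rw [← h1 t]
      funext j
      have := ht (Pi.single 0 1)
      have := ht (Pi.single 1 1)
      fin_cases j <;> simp_all [π, h.comm _ (t 0 • x + t 1 • y)]
    have h4 : ∀ t, Q (i t) = 0 → t = 0 := fun t ht => h3 t fun s => hr _ _ ht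
    have := (prod_le_card_surj (F := F) (U := U) (k := 2) (by
      simpa using π.finrank_le_finrank_of_surjective fun t => ⟨_, h1 t⟩)).trans
      (orb_core h (D := nonZeroDivisors F) (.inl (by simp)) i π h1 (fun y z => ?_) (fun y => ?_) h4)
    · rw [IsQuad.card_isom_aniso (h.comp i) h3 (by simp) h4] at this
      simpa using this
    · obtain ⟨y', h1, h2⟩ := hπ y
      obtain ⟨z', h3, h4⟩ := hπ z
      conv_rhs => rw [h2, h4]
      simp [hr _ _ h1, h.comm _ z', hr _ _ h3]
    · obtain ⟨y', h1, h2⟩ := hπ y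
      conv_rhs => rw [h2, h.add', h1, h.comm, hr _ _ h1]
      simp
  push Not at hr
  obtain ⟨e, z, he, hz⟩ := hr
  have h0 : e ≠ 0 := fun e => hz (by simp [e])
  have key : ∀ (c : F) (l : {f : Dual F U // f e = 0 ∧ f ≠ 0}), ∃ k : U →ₗ[F] U,
      LinearMap.det k ≠ 0 ∧ Q (k e) = c ∧ ∀ v, B (k e) (k v) = l.1 v := fun c l => by
    have e1 : B (z + ((c - Q z) / B e z) • e) e ≠ 0 := by simpa [hd, h.comm z]
    obtain ⟨g, g1, g2⟩ := exists_move' (F := F) h0 (y := z + ((c - Q z) / B e z) • e)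
      fun e => e1 (by simp [e])
    obtain ⟨v, hv⟩ := (LinearMap.equivOfDetNeZero g g1).surjective e
    obtain ⟨w, -, w1, w2⟩ := exists_pair_ne_zero (W := ⊤) (f := B (g e) ∘ₗ g) (g := l.1)
      ⟨v, trivial, by rwa [LinearMap.comp_apply, show g v = e from hv, g2]⟩
      ((DFunLike.ne_iff.mp l.2.2).imp fun _ h => ⟨trivial, h⟩)
    have e2 : LinearMap.transvection (l.1 - B (g e) ∘ₗ g) w e = e := by
      simp [LinearMap.transvection.apply, hd, l.2.1]
    rw [LinearMap.comp_apply] at w1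
    refine ⟨g ∘ₗ LinearMap.transvection (l.1 - B (g e) ∘ₗ g) w, by simp [g1, w1, w2], ?_,
      fun v => ?_⟩
    · rw [LinearMap.comp_apply, e2, g2, h.add', h.smul', he, map_smul, h.comm z]
      simp [hz]
    · simp [e2, LinearMap.transvection.apply, w1]
  choose k k1 k2 k3 using key
  have := card_le_mul_of_fiber (γ := Bool) (β := formOrb (nonZeroDivisors F) B Q)
    (fun a : F × {f : Dual F U // f e = 0 ∧ f ≠ 0} × {f : Dual F U // f e = 0} =>
      ⟨_, k a.1 a.2.1 ∘ₗ LinearMap.transvection a.2.2.1 e, by simpa [a.2.2.2] using k1 _ _, rfl⟩)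
    (fun w a b => b.1 = a.1 ∧ b.2.1 = a.2.1 ∧ b.2.2.1 = a.2.2.1 + cond w (a.1⁻¹ • a.2.1.1) 0)
    (fun w a b c hb hc => Prod.ext (hb.1.trans hc.1.symm) (Prod.ext (hb.2.1.trans hc.2.1.symm)
      (Subtype.ext (hb.2.2.trans hc.2.2.symm)))) ?_
  · obtain ⟨n, hn⟩ := Nat.exists_eq_add_one_of_ne_zero
      (finrank_pos_iff_exists_ne_zero.mpr ⟨e, h0⟩ : 0 < finrank F U).ne'
    rw [Nat.card_prod, Nat.card_prod, card_dual_zero h0, card_dual_zero_ne h0, hn,
      Nat.add_sub_cancel, Nat.card_eq_fintype_card (α := Bool), Fintype.card_bool] at this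
    rw [hn, mul_right_comm, pow_succ, ← Nat.sub_one_mul]
    refine le_trans ?_ (Nat.mul_le_mul_right _ this)
    nlinarith [Nat.mul_le_mul_right ((Nat.card F ^ n - 1) * Nat.card F)
      (Nat.sub_le (Nat.card F ^ n * Nat.card F) 1), Nat.zero_le ((Nat.card F ^ n - 1) *
        Nat.card F * Nat.card F ^ n)]
  rintro ⟨c, l, f, hf⟩ ⟨d, m, g, hg⟩ e0
  obtain ⟨e1, e2⟩ := Prod.ext_iff.mp (congrArg Subtype.val e0)
  replace e1 := congrFun (congrFun e1 e)
  replace e2 := congrFun e2
  obtain rfl : c = d := by simpa [LinearMap.transvection.apply, hf, hg, k2] using e2 e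
  obtain rfl : l = m := Subtype.ext (LinearMap.ext fun v => by
    simpa [LinearMap.transvection.apply, hf, hg, k3, l.2.1, m.2.1] using e1 v)
  rcases eq_zero_or_of_mul (f := g - f) (g := c • (g - f) + l.1) fun v => by
    have := e2 v
    simp only [LinearMap.comp_apply, LinearMap.transvection.apply, map_add, map_smul, h.add',
      h.smul', k2, h.comm (k c l v), k3, smul_eq_mul, LinearMap.smul_apply] at this
    simp only [LinearMap.sub_apply, LinearMap.add_apply, LinearMap.smul_apply, smul_eq_mul]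
    linear_combination -this + (c * f v * f v - c * f v * g v) * h2 with e3 | e3
  · exact ⟨false, rfl, rfl, by simpa [sub_eq_zero] using e3⟩
  · have hc : c ≠ 0 := fun e => l.2.2 (by simpa [e] using e3)
    refine ⟨true, rfl, rfl, LinearMap.ext fun v => ?_⟩
    have := LinearMap.congr_fun e3 v
    simp only [LinearMap.sub_apply, LinearMap.add_apply, LinearMap.smul_apply, smul_eq_mul,
      LinearMap.zero_apply, cond_true] at this ⊢
    field_simp
    linear_combination this - l.1 v * h2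

theorem orb_herm {q : ℕ} (hq : QConj σ q) (h : IsHerm B)
    (hD : (∀ d ≠ 0, d ∈ D) ∨ 2 ≤ finrank F U) {x : U} (hx : B x x ≠ 0) :
    (q ^ 2) ^ finrank F U - 1 ≤ (q + 1) * Nat.card (formOrb D B fun x => B x x) := by
  classical
  by_cases hr : ∀ y, B x y = 0 → B y y = 0
  · obtain ⟨i, h3, h4⟩ := orb_rank_one h.form hD hx hr
    rw [hq.card, show Nat.card (Isom (pull B i) fun t => B (i t) (i t)) = _ from
      (h.pull i).card_uisom hq h3 (n := 1) (by simp)] at h4
    simpa [uOrd] using h4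
  push Not at hr
  obtain ⟨y, h3, h4⟩ := hr
  have : Finite U := Module.finite_of_finite F
  obtain ⟨a, ha⟩ := h.exists_norm (a := -B x x / B y y) (by simp [h.symm])
  obtain ⟨z, hz, w, hw⟩ : ∃ z, B z z = 0 ∧ ∃ w, B z w = 1 :=
    ⟨x + a • y, by
      simp only [map_add, map_smulₛₗ, LinearMap.add_apply, LinearMap.smul_apply, h3, h.refl h3,
        RingHom.id_apply, smul_eq_mul]
      field_simp at ha
      linear_combination ha, (B x x)⁻¹ • x, by simp [h.refl h3, hx]⟩
  have h0 : z ≠ 0 := fun e => by simp [e] at hw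
  have h5 := orb_ne (D := D) (B := B) (Q := fun x => B x x) h0 (C := {c | σ c = c} \ {0}) (by simp)
    fun c hc => by
      obtain ⟨b, hb⟩ := h.exists_norm (a := c / B x x) (by simp [h.symm, show σ c = c from hc.1])
      have e' : B (b • x) (b • x) = c := by
        simp only [map_smulₛₗ, LinearMap.smul_apply, RingHom.id_apply, smul_eq_mul]
        field_simp at hb
        linear_combination hb
      obtain ⟨g, g1, g2⟩ := exists_move hD h0 (y := b • x) fun e => hc.2 (by simp [← e', e])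
      exact ⟨g, g1, by rw [g2, e']⟩
  have h6 := card_le_mul_of_fiber (γ := (trHom σ).ker)
    (β := {p : formOrb D B fun x => B x x // ¬p.1.1 z z ≠ 0}) (fun a : {f : Dual F U // f z = 0} =>
      ⟨⟨_, LinearMap.transvection a.1 z, by simpa [a.2] using D.one_mem, rfl⟩, by
        simp [LinearMap.transvection.apply, hz]⟩) (fun c a b => b.1 = a.1 + c.1 • B z)
    (fun w a b c hb hc => Subtype.ext (hb.trans hc.symm)) fun f g e => by
      have e1 := fun v => congrArg (fun p => p.1.1.1 w v) e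
      simp only [LinearMap.transvection.apply, map_add, map_smulₛₗ, LinearMap.add_apply, hz,
        LinearMap.smul_apply, RingHom.id_apply, smul_eq_mul, h.flip_one hw] at e1
      refine ⟨⟨σ (f.1 w - g.1 w), ?_⟩, LinearMap.ext fun v => ?_⟩
      · have := e1 w
        rw [hw] at this
        rw [AddMonoidHom.mem_ker, trHom_apply, h.invol, map_sub]
        linear_combination this
      · simp only [LinearMap.add_apply, LinearMap.smul_apply, smul_eq_mul, map_sub]
        linear_combination -e1 v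
  obtain ⟨n, hn⟩ := Nat.exists_eq_add_one_of_ne_zero
    (finrank_pos_iff_exists_ne_zero.mpr ⟨z, h0⟩ : 0 < finrank F U).ne'
  rw [show Nat.card ({c | σ c = c} \ {0} : Set F) = q - 1 from hq.card_fixed ▸
    Set.ncard_sdiff_singleton_of_mem (s := {c | σ c = c}) (map_zero σ)] at h5
  rw [card_dual_zero h0, hq.card_ker_tr] at h6
  rw [← Nat.card_congr (Equiv.sumCompl fun p : formOrb D B fun x => B x x => p.1.1 z z ≠ 0),
    Nat.card_sum]
  rw [hn, hq.card, Nat.add_sub_cancel] at h5 h6
  rw [hn]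
  obtain ⟨r, rfl⟩ := Nat.exists_eq_add_of_le' hq.two_le
  rw [pow_succ]
  simp only [show r + 2 - 1 = r + 1 from rfl] at h5
  nlinarith [Nat.sub_le (((r + 2) ^ 2) ^ n * (r + 2) ^ 2) 1, Nat.mul_le_mul_left (r + 3) h5]

end Cfsg.Agent.H11
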