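import Mathlib
import Cfsg.Agent.H11.LS2
import Cfsg.Agent.H11.UBridge
import Cfsg.Agent.H10.SpTv

/-!
# The Landazuri–Seitz bounds for symplectic and unitary groups
-/

set_option autoImplicit false

namespace Cfsg.Agent.H11

open Module Matrix

section weights

variable {k : Type*} [Field k] {M : Type*} [AddCommGroup M] [Module k M] {κ : Type*}
  {G : Type*} [Group G] {ρ : Representation k G M} {u : κ → G} {χ : κ → k}

theorem wt_mul (h : wtSp ρ u χ ≠ ⊥) {a b c : κ} (e : u c = u a * u b) : χ c = χ a * χ b := by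
  obtain ⟨v, hv, h0⟩ := (Submodule.ne_bot_iff _).mp h
  rw [mem_wtSp] at hv
  refine smul_left_injective k h0 ?_
  simp only [← hv, e, map_mul, End.mul_apply]
  rw [hv b, map_smul, hv a, smul_smul, mul_comm]

theorem wt_one (h : wtSp ρ u χ ≠ ⊥) {c : κ} (e : u c = 1) : χ c = 1 := by
  obtain ⟨v, hv, h0⟩ := (Submodule.ne_bot_iff _).mp h
  rw [mem_wtSp] at hv
  refine smul_left_injective k h0 ?_
  simp [← hv, e]

theorem wt_eq (h : wtSp ρ u χ ≠ ⊥) {a b : κ} (e : u a = u b) : χ a = χ b := by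
  obtain ⟨v, hv, h0⟩ := (Submodule.ne_bot_iff _).mp h
  rw [mem_wtSp] at hv
  refine smul_left_injective k h0 ?_
  simp [← hv, e]

theorem card_le_finrank_wtSp_sq [FiniteDimensional k M] (h : wtSp ρ u χ ≠ ⊥) {A : Type*}
    (T : A → G) (hT : ∀ a b, Commute (T a) (u b)) (z : A → A → κ)
    (hz : ∀ a b, T b * T a * (T b)⁻¹ = u (z a b) * T a)
    (hi : Function.Injective fun a b => χ (z a b)) :
    Nat.card A ≤ finrank k (wtSp ρ u χ) ^ 2 := by
  have hm : ∀ g, (∀ b, Commute g (u b)) → ∀ v ∈ wtSp ρ u χ, ρ g v ∈ wtSp ρ u χ := fun g hg v hv =>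
    mem_wtSp.mpr fun b => by
      rw [← End.mul_apply, ← map_mul, ← (hg b).eq, map_mul, End.mul_apply, mem_wtSp.mp hv, map_smul]
  let r : A → End k (wtSp ρ u χ) := fun a => (ρ (T a)).restrict (hm _ (hT a))
  let s : A → End k (wtSp ρ u χ) := fun a => (ρ (T a)⁻¹).restrict (hm _ fun b => (hT a b).inv_left)
  have := card_mul_le_finrank (fun b => LinearMap.mulLeft k (r b) ∘ₗ LinearMap.mulRight k (s b)) hi
    (fun a (_ : Unit) => r a) (fun a => linearIndependent_unique_iff.mpr fun e => by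
      obtain ⟨v, hv, h0⟩ := (Submodule.ne_bot_iff _).mp h
      exact h0 ((ρ.apply_bijective (T a)).1 ((congrArg Subtype.val
        (LinearMap.congr_fun e ⟨v, hv⟩)).trans (map_zero _).symm))) fun a _ b =>
    LinearMap.ext fun v => Subtype.ext (by
      change ρ (T b) (ρ (T a) (ρ (T b)⁻¹ v)) = χ (z a b) • ρ (T a) v
      rw [← End.mul_apply, ← End.mul_apply, ← map_mul, ← map_mul, hz, map_mul, End.mul_apply,
        mem_wtSp.mp (hm _ (hT a) _ v.2)])
  rwa [Nat.card_unique (α := Unit), mul_one, finrank_linearMap, ← pow_two] at this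

theorem apply_ne_one_of_irreducible {n : ℕ} {ρ : Representation k G (Fin n → k)}
    (hρ : ρ.IsIrreducible) (hn : 2 ≤ n)
    (hG : ∀ N : Subgroup G, N.Normal → N ≤ Subgroup.center G ∨ N = ⊤) {g : G}
    (hg : g ∉ Subgroup.center G) : ρ g ≠ 1 := fun e =>
  (hG ρ.ker inferInstance).elim (fun h => hg (h e)) (ker_ne_top_of_irreducible hρ hn)

end weights

variable {F : Type*} [Field F] [Finite F] {M : Type*} [AddCommGroup M] [Module ℂ M]
  [FiniteDimensional ℂ M]

section symplectic

variable {l : Type*} [Fintype l] [DecidableEq l]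

/-- The standard totally isotropic subspace of a symplectic space. -/
def spInl (l : Type*) (F : Type*) [Field F] : (l → F) →ₗ[F] (l ⊕ l → F) where
  toFun x := Sum.elim x 0
  map_add' x y := by ext (i | i) <;> simp
  map_smul' c x := by ext (i | i) <;> simp

omit [Finite F] in
theorem spBilin_spInl (x y : l → F) : H10.spBilin l F (spInl l F x) (spInl l F y) = 0 := by
  simp [H10.spBilin_apply_sum, spInl]

omit [Finite F] [Fintype l] [DecidableEq l] in
theorem spInl_injective : Function.Injective (spInl l F) := fun _ _ e =>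
  funext fun i => congrFun e (Sum.inl i)

/-- The elements of the unipotent radical of the Siegel parabolic subgroup. -/
noncomputable def spU (b : (l → F) × (l → F) × F) : symplecticGroup l F :=
  H10.spq (spInl l F b.1) (spInl l F b.2.1) b.2.2 (spBilin_spInl _ _)

omit [Finite F] in
theorem spU_mulVec (b : (l → F) × (l → F) × F) (v : l ⊕ l → F) : (spU b).1 *ᵥ v =
    v + H10.spBilin l F v (spInl l F b.2.1) • spInl l F b.1 + (H10.spBilin l F v (spInl l F b.1) +
      b.2.2 * H10.spBilin l F v (spInl l F b.2.1)) • spInl l F b.2.1 := H10.spq_mulVec ..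

theorem sp_weight (ρ : Representation ℂ (symplecticGroup l F) M) {b : (l → F) × (l → F) × F}
    (hb : ρ (spU b) ≠ 1) : ∃ (B : (l → F) →ₗ[F] (l → F) →ₗ[F] F) (Q : (l → F) → F), IsQuad B Q ∧
      B b.1 b.2.1 + Q b.2.1 * b.2.2 ≠ 0 ∧
        Nat.card (formOrb (nonZeroDivisors F) B Q) ≤ finrank ℂ M := by
  have : Finite (symplecticGroup l F) := inferInstance
  obtain ⟨χ, h1, h⟩ := exists_wtSp ρ spU (fun a b => H10.sp_ext fun v => by
    simp only [H10.sp_mul_mulVec, spU_mulVec, map_add, map_smul, LinearMap.add_apply,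
      LinearMap.smul_apply, spBilin_spInl]
    module) hb
  obtain ⟨ψ, hψ⟩ := exists_addChar_ne_one F
  have m : ∀ {a b c}, (∀ v, (spU c).1 *ᵥ v = (spU a).1 *ᵥ ((spU b).1 *ᵥ v)) → χ c = χ a * χ b :=
    fun e => wt_mul h (H10.sp_ext fun v => by rw [e, H10.sp_mul_mulVec])
  choose β hβ using fun x y : l → F => exists_eq_addChar hψ (fun a => χ (a • x, y, 0))
    (wt_one h (H10.sp_ext fun v => by simp [spU_mulVec])) fun a b => m fun v => by
      simp only [spU_mulVec, map_add, map_smul, LinearMap.add_apply, LinearMap.smul_apply,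
        spBilin_spInl]
      module
  choose Q hQ using fun y : l → F => exists_eq_addChar hψ (fun c => χ (0, y, c))
    (wt_one h (H10.sp_ext fun v => by simp [spU_mulVec])) fun a b => m fun v => by
      simp only [spU_mulVec, map_add, map_smul, LinearMap.add_apply, LinearMap.smul_apply,
        spBilin_spInl, map_zero, LinearMap.zero_apply]
      module
  have b1 : ∀ x x' y, β (x + x') y = β x y + β x' y := fun x x' y => eq_of_addChar hψ fun a => by
    rw [add_mul, AddChar.map_add_eq_mul, ← hβ, ← hβ, ← hβ]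
    refine m fun v => ?_
    simp only [spU_mulVec, map_add, map_smul, LinearMap.add_apply, LinearMap.smul_apply,
      spBilin_spInl]
    module
  have b2 : ∀ (c : F) x y, β (c • x) y = c • β x y := fun c x y => eq_of_addChar hψ fun a => by
    rw [← hβ, smul_smul, hβ, smul_eq_mul]; congr 1; ring
  have b3 : ∀ x y, β x y = β y x := fun x y => eq_of_addChar hψ fun a => by
    rw [← hβ, ← hβ]
    refine wt_eq h (H10.sp_ext fun v => ?_)
    simp only [spU_mulVec, map_smul]
    module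
  let B := LinearMap.mk₂ F β b1 b2 (fun x y z => by rw [b3, b1, b3 y, b3 z]) fun c x y => by
    rw [b3, b2, b3]
  have hχ : ∀ x y c, χ (x, y, c) = ψ (B x y + Q y * c) := fun x y c => by
    rw [AddChar.map_add_eq_mul, ← hQ, LinearMap.mk₂_apply, ← mul_one (β x y), ← hβ]
    refine m fun v => ?_
    simp only [spU_mulVec, map_add, map_smul, LinearMap.add_apply, LinearMap.smul_apply,
      spBilin_spInl, map_zero, LinearMap.zero_apply]
    module
  have hq : IsQuad B Q := IsQuad.of_add_smul (fun x y => eq_of_addChar hψ fun c => by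
    rw [← hQ, show (Q x + Q y + B x y) * c = B (c • x) y + Q y * c + Q x * c by simp; ring,
      AddChar.map_add_eq_mul, ← hχ, ← hQ]
    refine m fun v => ?_
    simp only [spU_mulVec, map_add, map_smul, LinearMap.add_apply, LinearMap.smul_apply,
      spBilin_spInl, map_zero, LinearMap.zero_apply]
    module) fun c x => eq_of_addChar hψ fun a => by
      rw [← hQ, show c * c * Q x * a = Q x * (c * c * a) by ring, ← hQ]
      refine wt_eq h (H10.sp_ext fun v => ?_)
      simp only [spU_mulVec, map_smul, map_zero]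
      module
  refine ⟨B, Q, hq, fun e => h1 (by rw [hχ, e, AddChar.map_zero_eq_one]), le_trans
    (Nat.le_mul_of_pos_right _ (Submodule.one_le_finrank_iff.mpr h)) (card_mul_finrank_wtSp_le ρ spU
      χ (ψ := fun p b => ψ (p.1.1 b.1 b.2.1 + p.1.2 b.2.1 * b.2.2)) ?_ ?_)⟩
  · rintro ⟨_, g, hg, rfl⟩ ⟨_, g', hg', rfl⟩ e
    refine Subtype.ext (Prod.ext (funext₂ fun x y => eq_of_addChar hψ fun a => ?_)
      (funext fun y => eq_of_addChar hψ fun a => ?_))
    · simpa [mul_comm] using congrFun e (a • x, y, 0)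
    · simpa using congrFun e (0, y, a)
  · rintro ⟨_, g, hg, rfl⟩
    obtain ⟨s, h1, h2⟩ := (isForm_alt H10.spBilin_isAlt).witt_maps H10.spBilin_nondegenerate.1
      (spInl l F) (spInl l F ∘ₗ g) spInl_injective (spInl_injective.comp
        (LinearMap.equivOfDetNeZero g (by simpa using hg)).injective)
      (by simp [spBilin_spInl]) fun _ => rfl
    refine ⟨H10.spEquiv.symm ⟨s, h1.1⟩, fun b => (g b.1, g b.2.1, b.2.2), fun b => ?_,
      funext fun b => (hχ ..).symm⟩
    simp only [spU, H10.spq_conj, H10.spEquiv_symm_mulVec, h2, LinearMap.comp_apply]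

end symplectic

theorem sp_apply_ne_one {F : Type*} [Field F] [Fintype F] {n : ℕ} (hn : 2 ≤ n)
    (hex : (n, Fintype.card F) ≠ (2, 2)) {k : ℕ}
    {ρ : Representation ℂ (symplecticGroup (Fin n) F) (Fin k → ℂ)} (hρ : ρ.IsIrreducible)
    (hk : 2 ≤ k) {g : symplecticGroup (Fin n) F} {v w : Fin n ⊕ Fin n → F} (hv : v ≠ 0)
    (h1 : g.1 *ᵥ v = v) (h2 : g.1 *ᵥ w ≠ w) : ρ g ≠ 1 := by
  refine apply_ne_one_of_irreducible hρ hk (fun N hN => (H10.normal_sp_le_center_or N).imp_right
    fun h => top_le_iff.mp ((H10.commutator_sp_eq_top ?_).ge.trans h)) fun hg => ?_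
  · have := Fintype.one_lt_card (α := F)
    simp only [ne_eq, Prod.mk.injEq, Fintype.card_fin] at hex ⊢
    omega
  · rcases (H10.mem_center_sp_iff g).mp hg with e | e
    · simp [e] at h2
    · rw [e, neg_mulVec, one_mulVec] at h1 h2
      obtain ⟨i, hi⟩ := Function.ne_iff.mp hv
      have : (2 : F) = 0 := (mul_eq_zero.mp (by
        have := congrFun h1 i
        rw [Pi.neg_apply] at this
        linear_combination -this)).resolve_right hi
      exact h2 (funext fun j => by rw [Pi.neg_apply]; linear_combination -w j * this)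

theorem sp_bound_odd {F : Type*} [Field F] [Fintype F] {n : ℕ} (hn : 2 ≤ n) (h2 : (2 : F) ≠ 0)
    {k : ℕ} {ρ : Representation ℂ (symplecticGroup (Fin n) F) (Fin k → ℂ)} (hρ : ρ.IsIrreducible)
    (hk : 2 ≤ k) : Fintype.card F ^ n - 1 ≤ 2 * k := by
  let i : Fin n := ⟨0, by omega⟩
  obtain ⟨B, Q, h, h1, h3⟩ := sp_weight ρ (b := (0, Pi.single i 1, 1)) (sp_apply_ne_one hn
    (fun e => h2 (H10.two_eq_zero_iff_even_card.mpr
      (by rw [show Fintype.card F = 2 from (Prod.ext_iff.mp e).2]))) hρ hk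
    (v := spInl _ F (Pi.single i 1)) (w := Pi.single (.inr i) 1)
    (by simp [map_eq_zero_iff _ spInl_injective]) (by simp [spU_mulVec, spBilin_spInl]) fun e => by
      rw [spU_mulVec] at e
      simpa [H10.spBilin_apply_sum, spInl, Pi.single_apply] using congrFun e (.inl i))
  have := (orb_odd h h2 (x := Pi.single i 1) (by simpa using h1)).trans (Nat.mul_le_mul_left _ h3)
  simpa using this

theorem sp_bound_even {F : Type*} [Field F] [Fintype F] {n : ℕ} (hn : 2 ≤ n) (h2 : (2 : F) = 0)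
    (hex : (n, Fintype.card F) ≠ (2, 2)) {k : ℕ}
    {ρ : Representation ℂ (symplecticGroup (Fin n) F) (Fin k → ℂ)} (hρ : ρ.IsIrreducible)
    (hk : 2 ≤ k) : (Fintype.card F ^ n - 1) * (Fintype.card F ^ n - Fintype.card F) ≤
      2 * (Fintype.card F + 1) * k := by
  let i : Fin n := ⟨0, by omega⟩
  let j : Fin n := ⟨1, by omega⟩
  have hij : i ≠ j := by simp [i, j]
  obtain ⟨B, Q, h, h1, h3⟩ := sp_weight ρ (b := (Pi.single j 1, Pi.single i 1, 0))
    (sp_apply_ne_one hn hex hρ hk (v := spInl _ F (Pi.single i 1)) (w := Pi.single (.inr i) 1)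
    (by simp [map_eq_zero_iff _ spInl_injective]) (by simp [spU_mulVec, spBilin_spInl]) fun e => by
      rw [spU_mulVec] at e
      simpa [H10.spBilin_apply_sum, spInl, Pi.single_apply, hij, hij.symm] using
        congrFun e (.inl j))
  rw [mul_zero, add_zero] at h1
  have := (orb_even h h2 (x := Pi.single j 1) (y := (B (Pi.single j 1) (Pi.single i 1))⁻¹ •
    Pi.single i 1) (by simpa using inv_mul_cancel₀ h1)).trans (Nat.mul_le_mul_left _ h3)
  simpa using this

section unitary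

variable {V : Type*} [AddCommGroup V] [Module F V] [FiniteDimensional F V] {σ : F →+* F}
  {B : V →ₛₗ[σ] V →ₗ[F] F} {U : Type*} [AddCommGroup U] [Module F U] {i : U →ₗ[F] V}

theorem exists_addChar_skew (hσ : σ ≠ RingHom.id F) (hσ2 : ∀ a, σ (σ a) = a) :
    ∃ ψ : AddChar F ℂ, ψ ≠ 1 ∧ ∀ t, ψ (σ t) = ψ (-t) := by
  obtain ⟨ψ, hψ⟩ := exists_addChar_ne_one F
  obtain ⟨s, hs⟩ := DFunLike.ne_iff.mp hψ
  obtain ⟨t, ht⟩ := exists_ne_conj hσ
  refine ⟨ψ.compAddMonoidHom ((AddMonoidHom.mulLeft (s / (σ t - t))).comp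
    (σ.toAddMonoidHom - AddMonoidHom.id F)), DFunLike.ne_iff.mpr ⟨t, ?_⟩, fun a => ?_⟩
  · simpa [← mul_sub, sub_ne_zero.mpr ht] using hs
  · simp [hσ2, sub_eq_neg_add, add_comm]

namespace IsHerm

/-- The central elements of the unipotent radical of the stabiliser of an isotropic subspace. -/
noncomputable def suU (h : IsHerm B) (hi : ∀ x y, B (i x) (i y) = 0) (b : U × U) : SIsom B :=
  ⟨h.eich (u := i b.1) (w := i b.2) (c := 0) (hi _ _) (hi _ _) (by simp [hi]), h.eich_mem_sisom ..⟩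

omit [Finite F] in
theorem suU_apply (h : IsHerm B) (hi : ∀ x y, B (i x) (i y) = 0) (b : U × U) (v : V) :
    (h.suU hi b).1.1 v = v + B (i b.2) v • i b.1 - B (i b.1) v • i b.2 := by
  simp [suU, eich_apply]

omit [Finite F] in
theorem conj_suU (h : IsHerm B) (hi : ∀ x y, B (i x) (i y) = 0) (s : SIsom B) {g : U → U}
    (hs : ∀ x, s.1.1 (i x) = i (g x)) (b : U × U) :
    s * h.suU hi b * s⁻¹ = h.suU hi (g b.1, g b.2) := by
  rw [mul_inv_eq_iff_eq_mul]
  refine Subtype.ext (Subtype.ext (LinearEquiv.ext fun v => ?_))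
  simp only [Subgroup.coe_mul, LinearEquiv.mul_apply, suU_apply, map_sub, map_add, map_smul, ← hs,
    s.1.2.1]

theorem su_weight [FiniteDimensional F U] (h : IsHerm B) (hi : ∀ x y, B (i x) (i y) = 0)
    (ρ : Representation ℂ (SIsom B) M) {D : Submonoid F}
    (hD : ∀ g : U →ₗ[F] U, LinearMap.det g ∈ D → ∃ s : SIsom B, ∀ x, s.1.1 (i x) = i (g x))
    {b : U × U} (hb : ρ (h.suU hi b) ≠ 1) :
    ∃ (ψ : AddChar F ℂ) (β : U →ₛₗ[σ] U →ₗ[F] F), ψ ≠ 1 ∧ IsHerm β ∧ β b.1 b.2 ≠ 0 ∧
      wtSp ρ (h.suU hi) (fun b => ψ (β b.1 b.2)) ≠ ⊥ ∧ Nat.card (formOrb D β fun x => β x x) *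
        finrank ℂ (wtSp ρ (h.suU hi) fun b => ψ (β b.1 b.2)) ≤ finrank ℂ M := by
  have : Finite V := Module.finite_of_finite F
  have : Finite (V ≃ₗ[F] V) := Finite.of_injective _ DFunLike.coe_injective
  have ext : ∀ {a b : SIsom B}, (∀ v, a.1.1 v = b.1.1 v) → a = b := fun e =>
    Subtype.ext (Subtype.ext (LinearEquiv.ext e))
  obtain ⟨χ, h1, h0⟩ := exists_wtSp ρ (h.suU hi) (fun a b => (mul_inv_eq_iff_eq_mul).mp
    (h.conj_suU hi _ (g := id) (fun x => by simp [suU_apply, hi]) b)) hb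
  obtain ⟨ψ, hψ, hψ2⟩ := exists_addChar_skew h.ne h.invol
  have m : ∀ x y z, χ (x, y + z) = χ (x, y) * χ (x, z) := fun x y z => wt_mul h0 (ext fun v => by
    simp only [Subgroup.coe_mul, LinearEquiv.mul_apply, suU_apply, map_add, map_sub, map_smul, hi,
      LinearMap.add_apply]
    module)
  choose β hβ using fun x y : U => exists_eq_addChar hψ (fun a => χ (x, a • y))
    (wt_one h0 (ext fun v => by simp [suU_apply])) fun a b => by rw [add_smul, m]
  have b0 : ∀ (a : F) x y, χ (a • x, y) = χ (x, σ a • y) := fun a x y => wt_eq h0 (ext fun v => by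
    simp only [suU_apply, map_smulₛₗ, LinearMap.smul_apply, RingHom.id_apply, h.invol]
    module)
  let β' : U →ₛₗ[σ] U →ₗ[F] F := LinearMap.mk₂'ₛₗ σ (RingHom.id F) β
    (fun x y z => eq_of_addChar hψ fun a => by
      rw [add_mul, AddChar.map_add_eq_mul, ← hβ, ← hβ, ← hβ]
      refine wt_mul h0 (ext fun v => ?_)
      simp only [Subgroup.coe_mul, LinearEquiv.mul_apply, suU_apply, map_add, map_sub, map_smul, hi,
        LinearMap.add_apply, map_smulₛₗ, LinearMap.smul_apply]
      module)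
    (fun c x y => eq_of_addChar hψ fun a => by
      rw [← hβ, b0, smul_smul, hβ, smul_eq_mul]; congr 1; ring)
    (fun x y z => eq_of_addChar hψ fun a => by
      rw [add_mul, AddChar.map_add_eq_mul, ← hβ, ← hβ, ← hβ, smul_add, m])
    fun c x y => eq_of_addChar hψ fun a => by
      rw [← hβ, smul_smul, hβ, smul_eq_mul, RingHom.id_apply]; congr 1; ring
  have hχ : χ = fun b => ψ (β' b.1 b.2) := funext fun b => by simpa [β'] using hβ b.1 b.2 1
  rw [hχ] at h0 h1
  refine ⟨ψ, β', hψ, ⟨h.ne, h.invol, fun x y => eq_of_addChar hψ fun a => ?_⟩,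
    fun e => h1 (by simp only [e, AddChar.map_zero_eq_one]), h0,
    card_mul_finrank_wtSp_le ρ _ _ (ψ := fun p b => ψ (p.1.1 b.1 b.2)) ?_ ?_⟩
  · have := wt_eq h0 (a := (y, a • x)) (b := (a • x, -y)) (ext fun v => by
      simp only [suU_apply, map_neg, LinearMap.neg_apply]
      module)
    simp only [map_smulₛₗ, map_neg, LinearMap.smul_apply, RingHom.id_apply, smul_eq_mul] at this
    rw [mul_comm (β' y x), this, ← hψ2, map_mul σ, h.invol, mul_comm]
  · rintro ⟨_, g, hg, rfl⟩ ⟨_, g', hg', rfl⟩ e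
    have : ∀ x y, β' (g x) (g y) = β' (g' x) (g' y) := fun x y => eq_of_addChar hψ fun a => by
      simpa [mul_comm] using congrFun e (x, a • y)
    exact Subtype.ext (by simp only [this])
  · rintro ⟨_, g, hg, rfl⟩
    obtain ⟨s, hs⟩ := hD g hg
    exact ⟨s, fun b => (g b.1, g b.2), h.conj_suU hi s hs, rfl⟩

theorem exists_hypSys_half (h : IsHerm B) (hB : B.SeparatingLeft) {m : ℕ}
    (hm : finrank F V / 2 = m) : ∃ e f : Fin m → V, HypSys B (fun x => B x x) e f := by
  obtain ⟨ν, hν⟩ := h.form.exists_wittIdx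
  obtain ⟨e, f, hs, ha⟩ := h.form.exists_witt_decomp hB hν
  have h1 := hs.finrank_perp h.form hB
  obtain rfl : ν = m := by
    by_contra H
    obtain ⟨u, h2, h3⟩ := (h.pull _).exists_isotropic (nondegOn_iff.mp (h.form.nondegOn_perp hB
      (hs.nondegOn h.form))) (by rw [Fintype.card_fin] at h1; omega)
    exact h2 (Subtype.ext (ha _ (HypSys.mem_perp_iff.mp u.2).1 (HypSys.mem_perp_iff.mp u.2).2 h3))
  exact ⟨e, f, hs⟩

omit [Finite F] in
theorem exists_ext_even (h : IsHerm B) (hB : B.SeparatingLeft) {m : ℕ} [NeZero m]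
    (hm : finrank F V = 2 * m) {e f : Fin m → V} (hs : HypSys B (fun x => B x x) e f)
    (g : (Fin m → F) →ₗ[F] Fin m → F) (hg : LinearMap.det g = 1) : ∃ s : SIsom B,
      ∀ x, s.1.1 (Fintype.linearCombination F e x) = Fintype.linearCombination F e (g x) := by
  let b := basisOfLinearIndependentOfCardEqFinrank (hs.linearIndependent h.form)
    (by simp [hm, two_mul])
  have hb : ∀ j, b j = Sum.elim e f j := by simp [b]
  obtain ⟨A, rfl⟩ := Matrix.toLin'.surjective g
  rw [LinearMap.det_toLin'] at hg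
  let L := Matrix.toLin b b (fromBlocks A 0 0 (A⁻¹ᵀ.map σ))
  have h1 : ∀ j, L (e j) = ∑ k, A k j • e k := fun j => by
    simpa [hb] using Matrix.toLin_self b b (fromBlocks A 0 0 (A⁻¹ᵀ.map σ)) (.inl j)
  have h2 : ∀ j, L (f j) = ∑ k, σ (A⁻¹ j k) • f k := fun j => by
    simpa [hb] using Matrix.toLin_self b b (fromBlocks A 0 0 (A⁻¹ᵀ.map σ)) (.inr j)
  have h3 : ∀ j k, B (L (e j)) (L (f k)) = B (e j) (f k) := fun j k => by
    have := congrArg σ (congrFun₂ (A.nonsing_inv_mul (by simp [hg])) k j)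
    simpa [h1, h2, hs.ef, Matrix.mul_apply, Matrix.one_apply, apply_ite σ, eq_comm] using this
  have h4 : H11.pull B L = B := b.ext fun j => b.ext fun k => by
    rw [pull_apply, hb, hb]
    rcases j with j | j <;> rcases k with k | k
    · simp [h1, hs.ee]
    · exact h3 j k
    · rw [← h.symm, ← h.symm (Sum.elim e f _)]
      exact congrArg σ (h3 k j)
    · simp [h2, hs.ff]
  obtain ⟨s, s1, s2⟩ := IsForm.exists_isom_of_linear hB (Q := fun x => B x x) L
    (fun x y => by rw [← pull_apply, h4]) fun x => by rw [← pull_apply, h4]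
  refine ⟨⟨⟨s, s1⟩, mem_sisom.mpr ?_⟩, fun x => ?_⟩
  · rw [show (s : V →ₗ[F] V) = L from LinearMap.ext s2, LinearMap.det_toLin, det_fromBlocks_zero₂₁,
      ← RingHom.mapMatrix_apply, ← RingHom.map_det]
    simp [hg]
  · simp only [s2, Fintype.linearCombination_apply, map_sum, map_smul, h1, toLin'_apply, mulVec,
      dotProduct, Finset.sum_smul, Finset.smul_sum, smul_smul]
    rw [Finset.sum_comm]
    simp only [mul_comm]

theorem exists_ext_odd (h : IsHerm B) (hB : B.SeparatingLeft) (hi : ∀ x y, B (i x) (i y) = 0)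
    [FiniteDimensional F U] (h1 : Function.Injective i) {w : V} (hw : B w w ≠ 0)
    (h2 : ∀ x, B w (i x) = 0) (g : U →ₗ[F] U) (hg : LinearMap.det g ≠ 0) :
    ∃ s : SIsom B, ∀ x, s.1.1 (i x) = i (g x) := by
  obtain ⟨s, s1, s2⟩ := h.form.witt_maps hB i (i ∘ₗ g) h1
    (h1.comp (LinearMap.equivOfDetNeZero g hg).injective) (by simp [hi]) (by simp [hi])
  have := (h.range_detI hB (finrank_pos_iff_exists_ne_zero.mpr ⟨w, fun e => hw (by simp [e])⟩)).le
    ⟨⟨s, s1⟩⁻¹, rfl⟩
  refine ⟨⟨⟨s, s1⟩ * h.qref hw (mem_normOne.mp this), ?_⟩, fun x => ?_⟩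
  · rw [MonoidHom.mem_ker, map_mul, Units.ext_iff, Units.val_mul, detI_coe (h.qref ..), h.det_qref]
    simp
  · simp [h.qref_of_perp hw _ (h2 x), s2]

theorem suU_ne_one (h : IsHerm B) (hB : B.SeparatingLeft) (hi : ∀ x y, B (i x) (i y) = 0)
    (hn : 4 ≤ finrank F V ∨ (3 ≤ finrank F V ∧ ∃ a : F, a ≠ 0 ∧ a ^ 3 ≠ 1)) {k : ℕ}
    {ρ : Representation ℂ (SIsom B) (Fin k → ℂ)} (hρ : ρ.IsIrreducible) (hk : 2 ≤ k) {x : U}
    (hx : i x ≠ 0) : ∃ a : F, ρ (h.suU hi (x, a • x)) ≠ 1 := by
  obtain ⟨a, ha⟩ := exists_ne_conj h.ne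
  refine ⟨a, apply_ne_one_of_irreducible hρ hk (h.normal_sisom_cases hB hn) fun hc => ?_⟩
  obtain ⟨c, hc⟩ := (h.mem_center_sisom hB (by omega) _).mp hc
  refine h.trv_notMem_center hB (hi x x) hx (d := a - σ a) (by simp [h.invol])
    (sub_ne_zero.mpr ha.symm) c (Eq.trans (Subtype.ext (LinearEquiv.ext fun v => ?_)) hc)
  simp only [trv_apply, suU_apply, map_smulₛₗ, LinearMap.smul_apply, RingHom.id_apply]
  module

theorem su_bound_even {q : ℕ} (hq : QConj σ q) (h : IsHerm B) (hB : B.SeparatingLeft) {m : ℕ}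
    (hm : finrank F V = 2 * m) (h2 : 2 ≤ m) {k : ℕ} {ρ : Representation ℂ (SIsom B) (Fin k → ℂ)}
    (hρ : ρ.IsIrreducible) (hk : 2 ≤ k) : q ^ (2 * m) - 1 ≤ (q + 1) * k := by
  have : NeZero m := ⟨by omega⟩
  obtain ⟨e, f, hs⟩ := h.exists_hypSys_half hB (m := m) (by omega)
  have hi : ∀ x y, B (Fintype.linearCombination F e x) (Fintype.linearCombination F e y) = 0 := by
    simp [Fintype.linearCombination_apply, hs.ee]
  obtain ⟨a, ha⟩ := h.suU_ne_one hB hi (by omega) hρ hk (x := Pi.single 0 1)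
    (by simpa using (hs.linearIndependent_e h.form).ne_zero 0)
  obtain ⟨ψ, β, -, h3, h4, h5, h6⟩ := h.su_weight hi ρ (D := ⊥) (h.exists_ext_even hB hm hs) ha
  have := (orb_herm hq h3 (D := ⊥) (.inr (by simpa)) (x := Pi.single 0 1) fun e => h4 (by
    simp only [map_smul, e, smul_zero])).trans (Nat.mul_le_mul_left _
      ((Nat.le_mul_of_pos_right _ (Submodule.one_le_finrank_iff.mpr h5)).trans h6))
  simpa [pow_mul] using this

theorem su_bound_odd {q : ℕ} (hq : QConj σ q) (h : IsHerm B) (hB : B.SeparatingLeft) {m : ℕ}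
    (hm : finrank F V = 2 * m + 1)
    (hn : 4 ≤ finrank F V ∨ (3 ≤ finrank F V ∧ ∃ a : F, a ≠ 0 ∧ a ^ 3 ≠ 1)) {k : ℕ}
    {ρ : Representation ℂ (SIsom B) (Fin k → ℂ)} (hρ : ρ.IsIrreducible) (hk : 2 ≤ k) :
    (q ^ (2 * m) - 1) * q ≤ (q + 1) * k := by
  have : NeZero m := ⟨by omega⟩
  obtain ⟨e, f, hs⟩ := h.exists_hypSys_half hB (m := m) (by omega)
  have hi : ∀ x y, B (Fintype.linearCombination F e x) (Fintype.linearCombination F e y) = 0 := by
    simp [Fintype.linearCombination_apply, hs.ee]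
  obtain ⟨⟨w, hw0⟩, hw⟩ := (h.pull _).exists_self_eq (nondegOn_iff.mp (h.form.nondegOn_perp hB
    (hs.nondegOn h.form))) (by have := hs.finrank_perp h.form hB; simp at this; omega) (map_one σ)
  replace hw : B w w = 1 := hw
  have h1 : ∀ x, B (Fintype.linearCombination F e x) w = 0 := by
    simp [Fintype.linearCombination_apply, (HypSys.mem_perp_iff.mp hw0).1]
  obtain ⟨a, ha⟩ := h.suU_ne_one hB hi hn hρ hk (x := Pi.single 0 1)
    (by simpa using (hs.linearIndependent_e h.form).ne_zero 0)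
  obtain ⟨ψ, β, h2, h3, h4, h5, h6⟩ := h.su_weight hi ρ (D := nonZeroDivisors F) (fun g hg =>
    h.exists_ext_odd hB hi (hs.linearIndependent_e h.form).fintypeLinearCombination_injective
      (by simp [hw]) (fun x => h.refl (h1 x)) g (by simpa using hg)) ha
  generalize (Pi.single 0 1 : Fin m → F) = x at h4
  replace h4 : β x x ≠ 0 := fun e => h4 (by simp only [map_smul, e, smul_zero])
  generalize Fintype.linearCombination F e = i at *
  choose c hc using fun a : F => exists_trace_eq h.ne h.invol (h.symm (a • w) (a • w))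
  have h7 := card_le_finrank_wtSp_sq h5 (fun a : F => ⟨h.eich (hi x x) (w := a • w)
    (by simp [h1]) (hc a), h.eich_mem_sisom ..⟩) (fun a b => (mul_inv_eq_iff_eq_mul).mp
      (h.conj_suU hi _ (g := id) (fun y => by simp [eich_apply, hi, h.refl (h1 y)]) b))
    (fun a b => (x, (σ b * a) • x)) (fun a b => by
      rw [mul_inv_eq_iff_eq_mul]
      refine Subtype.ext (Subtype.ext (LinearEquiv.ext fun v => ?_))
      simp only [Subgroup.coe_mul, LinearEquiv.mul_apply, suU_apply, eich_apply, map_add, map_sub,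
        map_smulₛₗ, LinearMap.smul_apply, RingHom.id_apply, hi, h1, h.refl (h1 _), hw, map_mul,
        h.invol, smul_eq_mul]
      module) fun a a' e => mul_left_cancel₀ h4 (eq_of_addChar h2 fun b => by
        simpa [h.invol, mul_comm, mul_left_comm, mul_assoc] using congrFun e (σ b))
  rw [hq.card, Nat.pow_le_pow_iff_left two_ne_zero] at h7
  have := Nat.mul_le_mul (orb_herm hq h3 (D := nonZeroDivisors F) (.inl (by simp)) h4) h7
  rw [mul_assoc] at this
  simpa [pow_mul] using this.trans (Nat.mul_le_mul_left _ h6)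

end IsHerm

theorem isIrreducible_comp {k G H W : Type*} [Field k] [Group G] [Group H] [AddCommGroup W]
    [Module k W] {ρ : Representation k G W} (hρ : ρ.IsIrreducible) (e : H ≃* G) :
    Representation.IsIrreducible (ρ.comp e.toMonoidHom) := by
  let o : Subrepresentation (ρ.comp e.toMonoidHom) ≃o Subrepresentation ρ :=
    ⟨⟨fun S => ⟨S.1, fun g v hv => by simpa using S.2 (e.symm g) hv⟩,
      fun S => ⟨S.1, fun g v hv => S.2 (e g) hv⟩, fun _ => rfl, fun _ => rfl⟩, Iff.rfl⟩
  exact o.isSimpleOrder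

end unitary

end Cfsg.Agent.H11
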