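import Mathlib
import Cfsg.Agent.H11.LS3
import Cfsg.Agent.H10.Transv
import Cfsg.Agent.L0.Zsig

/-!
# Lower bounds for representations of linear and symplectic groups in cross characteristic
-/

set_option autoImplicit false

namespace Cfsg.Agent.H11

open Module Matrix

variable {k : Type*} [Field k] {M : Type*} [AddCommGroup M] [Module k M] {κ : Type*}
  {G : Type*} [Group G]

theorem exists_wtSp' [IsAlgClosed k] [FiniteDimensional k M] (ρ : Representation k G M) (u : κ → G)
    {p : ℕ} (hp : (p : k) ≠ 0) (hu' : ∀ b, u b ^ p = 1) (hu : ∀ a b, Commute (u a) (u b)) {b : κ}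
    (hb : ρ (u b) ≠ 1) : ∃ χ, χ b ≠ 1 ∧ wtSp ρ u χ ≠ ⊥ := by
  have hs : ∀ b, End.IsSemisimple (ρ (u b)) := fun g =>
    End.isSemisimple_of_squarefree_aeval_eq_zero (Polynomial.separable_X_pow_sub_C (n := p)
      1 hp one_ne_zero).squarefree (by
        rw [map_sub, map_pow, Polynomial.aeval_X, ← map_pow, hu']; simp)
  have h0 := End.iSup_iInf_maxGenEigenspace_eq_top_of_iSup_maxGenEigenspace_eq_top_of_commute
    (fun b => ρ (u b)) (fun a b _ => (hu a b).map ρ) fun _ => End.iSup_maxGenEigenspace_eq_top _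
  simp only [(hs _).isFinitelySemisimple.maxGenEigenspace_eq_eigenspace] at h0
  by_contra H
  push Not at H
  refine hb (LinearMap.ext fun v => ?_)
  have : ⨆ χ, wtSp ρ u χ ≤ End.eigenspace (ρ (u b)) 1 := iSup_le fun χ => by
    by_cases h : χ b = 1
    · exact h ▸ iInf_le _ b
    · simp [H χ h]
  simpa using this (h0.ge Submodule.mem_top : v ∈ _)

variable {F : Type*} [Field F] [Finite F] {ψ : AddChar F k}

theorem exists_eq_addChar' (hψ : ψ ≠ 1) (χ : F → k) (h0 : χ 0 = 1)
    (h : ∀ a b, χ (a + b) = χ a * χ b) : ∃ c, ∀ a, χ a = ψ (c * a) := by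
  have := Fintype.ofFinite F
  have hl : LinearIndependent k fun χ : AddChar F k => (χ : F → k) :=
    (linearIndependent_monoidHom (Multiplicative F) k).comp AddChar.toMonoidHomEquiv
      AddChar.toMonoidHomEquiv.injective
  have := hl.finite
  have := Fintype.ofFinite (AddChar F k)
  have hi := AddChar.to_mulShift_inj_of_isPrimitive (AddChar.IsPrimitive.of_ne_one hψ)
  obtain ⟨c, hc⟩ := ((Fintype.bijective_iff_injective_and_card _).mpr ⟨hi,
    (Fintype.card_le_of_injective _ hi).antisymm (by simpa using hl.fintype_card_le_finrank)⟩).2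
    ⟨χ, h0, h⟩
  exact ⟨c, fun a => (DFunLike.congr_fun hc a).symm⟩

omit [Finite F] in
theorem eq_of_addChar' (hψ : ψ ≠ 1) {c d : F} (h : ∀ a, ψ (c * a) = ψ (d * a)) : c = d :=
  AddChar.to_mulShift_inj_of_isPrimitive (AddChar.IsPrimitive.of_ne_one hψ) (DFunLike.ext _ _ h)

theorem cast_ringChar_ne_zero (hk : ringChar k ≠ ringChar F) : (ringChar F : k) ≠ 0 := fun e => by
  have hp := CharP.char_is_prime F (ringChar F)
  rcases (Nat.dvd_prime hp).mp ((ringChar.spec k _).mp e) with h | h
  · exact CharP.ringChar_ne_one h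
  · exact hk h

theorem exists_addChar_ne_one' [IsAlgClosed k] (hk : ringChar k ≠ ringChar F) :
    ∃ ψ : AddChar F k, ψ ≠ 1 := by
  obtain ⟨n, ψ, hψ⟩ := AddChar.FiniteField.primitiveChar F k hk
  have : FiniteDimensional k (CyclotomicField n k) :=
    inferInstanceAs (FiniteDimensional k (Polynomial.cyclotomic n k).SplittingField)
  let j : CyclotomicField n k →ₐ[k] k := IsAlgClosed.lift
  refine ⟨j.toMonoidHom.compAddChar ψ, fun e => hψ one_ne_zero (DFunLike.ext _ _ fun a => ?_)⟩
  exact j.injective (by simpa using DFunLike.congr_fun e a)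

/-- Extension of scalars to the algebraic closure. -/
noncomputable def closRep {K : Type*} [Field K] {d : ℕ} (ρ : G →* GL (Fin d) K) :
    Representation (AlgebraicClosure K) G (Fin d → AlgebraicClosure K) :=
  Matrix.toLinAlgEquiv'.toMonoidHom.comp ((algebraMap K _).mapMatrix.toMonoidHom.comp
    ((Units.coeHom _).comp ρ))

theorem closRep_ne_one {K : Type*} [Field K] {d : ℕ} {ρ : G →* GL (Fin d) K}
    (h : ρ.ker ≤ Subgroup.center G) {g : G} (hg : g ∉ Subgroup.center G) : closRep ρ g ≠ 1 :=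
  fun e => hg (h (Units.ext (Matrix.map_injective (algebraMap K (AlgebraicClosure K)).injective
    (Matrix.toLinAlgEquiv'.injective (e.trans (by simp))))))

variable {l : Type*} [Fintype l] [DecidableEq l]

omit [Finite F] in
theorem spU_pow (b : (l → F) × (l → F) × F) : spU b ^ ringChar F = 1 := by
  have : ∀ n : ℕ, spU b ^ n = spU ((n : F) • b.1, b.2.1, n * b.2.2) := fun n => by
    induction n with
    | zero => exact H10.sp_ext fun v => by simp [spU_mulVec]
    | succ n ih =>
      rw [pow_succ, ih]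
      refine H10.sp_ext fun v => ?_
      simp only [H10.sp_mul_mulVec, spU_mulVec, map_add, map_smul, LinearMap.add_apply,
        LinearMap.smul_apply, spBilin_spInl, Nat.cast_succ]
      module
  rw [this]
  exact H10.sp_ext fun v => by simp [spU_mulVec]

variable [IsAlgClosed k] [FiniteDimensional k M]

theorem sp_weight' (hk : ringChar k ≠ ringChar F)
    (ρ : Representation k (symplecticGroup l F) M) {b : (l → F) × (l → F) × F}
    (hb : ρ (spU b) ≠ 1) : ∃ (B : (l → F) →ₗ[F] (l → F) →ₗ[F] F) (Q : (l → F) → F), IsQuad B Q ∧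
      B b.1 b.2.1 + Q b.2.1 * b.2.2 ≠ 0 ∧
        Nat.card (formOrb (nonZeroDivisors F) B Q) ≤ finrank k M := by
  obtain ⟨χ, h1, h⟩ := exists_wtSp' ρ spU (cast_ringChar_ne_zero hk) spU_pow (fun a b => H10.sp_ext fun v => by
    simp only [H10.sp_mul_mulVec, spU_mulVec, map_add, map_smul, LinearMap.add_apply,
      LinearMap.smul_apply, spBilin_spInl]
    module) hb
  obtain ⟨ψ, hψ⟩ := exists_addChar_ne_one' hk
  have m : ∀ {a b c}, (∀ v, (spU c).1 *ᵥ v = (spU a).1 *ᵥ ((spU b).1 *ᵥ v)) → χ c = χ a * χ b :=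
    fun e => wt_mul h (H10.sp_ext fun v => by rw [e, H10.sp_mul_mulVec])
  choose β hβ using fun x y : l → F => exists_eq_addChar' hψ (fun a => χ (a • x, y, 0))
    (wt_one h (H10.sp_ext fun v => by simp [spU_mulVec])) fun a b => m fun v => by
      simp only [spU_mulVec, map_add, map_smul, LinearMap.add_apply, LinearMap.smul_apply,
        spBilin_spInl]
      module
  choose Q hQ using fun y : l → F => exists_eq_addChar' hψ (fun c => χ (0, y, c))
    (wt_one h (H10.sp_ext fun v => by simp [spU_mulVec])) fun a b => m fun v => by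
      simp only [spU_mulVec, map_add, map_smul, LinearMap.add_apply, LinearMap.smul_apply,
        spBilin_spInl, map_zero, LinearMap.zero_apply]
      module
  have b1 : ∀ x x' y, β (x + x') y = β x y + β x' y := fun x x' y => eq_of_addChar' hψ fun a => by
    rw [add_mul, AddChar.map_add_eq_mul, ← hβ, ← hβ, ← hβ]
    refine m fun v => ?_
    simp only [spU_mulVec, map_add, map_smul, LinearMap.add_apply, LinearMap.smul_apply,
      spBilin_spInl]
    module
  have b2 : ∀ (c : F) x y, β (c • x) y = c • β x y := fun c x y => eq_of_addChar' hψ fun a => by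
    rw [← hβ, smul_smul, hβ, smul_eq_mul]; congr 1; ring
  have b3 : ∀ x y, β x y = β y x := fun x y => eq_of_addChar' hψ fun a => by
    rw [← hβ, ← hβ]
    refine wt_eq h (H10.sp_ext fun v => ?_)
    simp only [spU_mulVec, map_smul]
    module
  let B := LinearMap.mk₂ F β b1 b2 (fun x y z => by rw [b3, b1, b3 y, b3 z]) fun c x y => by
    rw [b3, b2, b3]
  have hχ : ∀ x y c, χ (x, y, c) = ψ (B x y + Q y * c) := fun x y c => by
    rw [AddChar.map_add_eq_mul, ← hQ, LinearMap.mk₂_apply, ← mul_one (β x y), ← hβ]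
    refine m fun v => ?_
    simp only [spU_mulVec, map_add, map_smul, LinearMap.add_apply, LinearMap.smul_apply,
      spBilin_spInl, map_zero, LinearMap.zero_apply]
    module
  have hq : IsQuad B Q := IsQuad.of_add_smul (fun x y => eq_of_addChar' hψ fun c => by
    rw [← hQ, show (Q x + Q y + B x y) * c = B (c • x) y + Q y * c + Q x * c by simp; ring,
      AddChar.map_add_eq_mul, ← hχ, ← hQ]
    refine m fun v => ?_
    simp only [spU_mulVec, map_add, map_smul, LinearMap.add_apply, LinearMap.smul_apply,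
      spBilin_spInl, map_zero, LinearMap.zero_apply]
    module) fun c x => eq_of_addChar' hψ fun a => by
      rw [← hQ, show c * c * Q x * a = Q x * (c * c * a) by ring, ← hQ]
      refine wt_eq h (H10.sp_ext fun v => ?_)
      simp only [spU_mulVec, map_smul, map_zero]
      module
  refine ⟨B, Q, hq, fun e => h1 (by rw [hχ, e, AddChar.map_zero_eq_one]), le_trans
    (Nat.le_mul_of_pos_right _ (Submodule.one_le_finrank_iff.mpr h)) (card_mul_finrank_wtSp_le ρ spU
      χ (ψ := fun p b => ψ (p.1.1 b.1 b.2.1 + p.1.2 b.2.1 * b.2.2)) ?_ ?_)⟩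
  · rintro ⟨_, g, hg, rfl⟩ ⟨_, g', hg', rfl⟩ e
    refine Subtype.ext (Prod.ext (funext₂ fun x y => eq_of_addChar' hψ fun a => ?_)
      (funext fun y => eq_of_addChar' hψ fun a => ?_))
    · simpa [mul_comm] using congrFun e (a • x, y, 0)
    · simpa using congrFun e (0, y, a)
  · rintro ⟨_, g, hg, rfl⟩
    obtain ⟨s, h1, h2⟩ := (isForm_alt H10.spBilin_isAlt).witt_maps H10.spBilin_nondegenerate.1
      (spInl l F) (spInl l F ∘ₗ g) spInl_injective (spInl_injective.comp
        (LinearMap.equivOfDetNeZero g (by simpa using hg)).injective)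
      (by simp [spBilin_spInl]) fun _ => rfl
    refine ⟨H10.spEquiv.symm ⟨s, h1.1⟩, fun b => (g b.1, g b.2.1, b.2.2), fun b => ?_,
      funext fun b => (hχ ..).symm⟩
    simp only [spU, H10.spq_conj, H10.spEquiv_symm_mulVec, h2, LinearMap.comp_apply]

omit [Finite F] in
theorem exists_sl_fam {J : Type*} [Fintype J] (hJ : Fintype.card J < Fintype.card l)
    {v w : J → l → F} (hv : LinearIndependent F v) (hw : LinearIndependent F w) :
    ∃ g : SpecialLinearGroup l F, ∀ j, g.1 *ᵥ v j = w j := by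
  obtain ⟨g, hg⟩ := Submodule.exists_linearEquiv_restrict_eq
    (hv.linearCombinationEquiv.symm.trans hw.linearCombinationEquiv)
  have h1 : ∀ j, g (v j) = w j := fun j => by
    have := hg (hv.linearCombinationEquiv (Finsupp.single j 1))
    rw [LinearEquiv.trans_apply, LinearEquiv.symm_apply_apply] at this
    simpa using this.symm
  obtain ⟨f, f1, f2⟩ := Submodule.exists_dual_map_eq_bot_of_lt_top
    (Submodule.lt_top_of_finrank_lt_finrank (s := Submodule.span F (Set.range v))
      (by rwa [finrank_span_eq_card hv, finrank_fintype_fun_eq_card])) inferInstance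
  obtain ⟨z, hz⟩ := DFunLike.ne_iff.mp f1
  have h2 : ∀ j, f (v j) = 0 := fun j => f2.le ⟨_, Submodule.subset_span ⟨j, rfl⟩, rfl⟩
  refine ⟨⟨LinearMap.toMatrix' (g.toLinearMap ∘ₗ LinearMap.transvection f
    (((LinearMap.det g.toLinearMap)⁻¹ - 1) • (f z)⁻¹ • z)), ?_⟩, fun j => by
      simp [← toLin'_apply, LinearMap.transvection.apply, h1, h2]⟩
  rw [LinearMap.det_toMatrix', LinearMap.det_comp, exists_det_eq (by
    simpa using inv_mul_cancel₀ hz), mul_inv_cancel₀ g.isUnit_det'.ne_zero]

/-- The annihilator of a vector. -/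
def ann (x : l → F) : Submodule F (l → F) := LinearMap.ker (dotProductEquiv F l x)

omit [Finite F] in
theorem mem_ann {x f : l → F} : f ∈ ann x ↔ f ⬝ᵥ x = 0 := by simp [ann, dotProduct_comm]

omit [Finite F] in
theorem finrank_ann {x : l → F} (hx : x ≠ 0) : finrank F (ann x) + 1 = Fintype.card l := by
  rw [ann, Dual.finrank_ker_add_one_of_ne_zero (by simpa), finrank_fintype_fun_eq_card]

omit [Finite F] in
theorem pair_of_ann {x y f : l → F} (hx : x ≠ 0) (h1 : f ⬝ᵥ x = 0) (h2 : f ⬝ᵥ y ≠ 0) :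
    LinearIndependent F ![x, y] := by
  rw [LinearIndependent.pair_symm_iff, LinearIndependent.pair_iff' (by rintro rfl; simp at h2)]
  rintro a rfl
  simp [h2, hx.symm] at h1 hx
  simp [h1] at hx

theorem sl_bound (hk : ringChar k ≠ ringChar F) (h3 : 3 ≤ Fintype.card l)
    (ρ : Representation k (SpecialLinearGroup l F) M) {x f : l → F} (h : f ⬝ᵥ x = 0)
    (hρ : ρ (H10.trv x f h) ≠ 1) : Nat.card F ^ (Fintype.card l - 1) - 1 ≤ finrank k M := by
  have hx : x ≠ 0 := fun e => hρ (by rw [(H10.trv_eq_one_iff h).mpr (.inl e), map_one])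
  have m : ∀ a b : ann x, H10.trv x (a + b).1 (mem_ann.mp (a + b).2) =
      H10.trv x a.1 (mem_ann.mp a.2) * H10.trv x b.1 (mem_ann.mp b.2) := fun a b => by
    rw [H10.slv_ext_iff, H10.trv_mul_val, H10.trv_val, mem_ann.mp a.2]
    simp [vecMulVec_add]
  obtain ⟨χ, h1, h0⟩ := exists_wtSp' ρ (fun a : ann x => H10.trv x a.1 (mem_ann.mp a.2))
    (cast_ringChar_ne_zero hk) (fun a => by rw [H10.slv_ext_iff, H10.trv_pow_val]; simp)
    (fun a b => by rw [Commute, SemiconjBy, ← m, ← m, add_comm]) (b := ⟨f, mem_ann.mpr h⟩) hρ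
  obtain ⟨ψ, hψ⟩ := exists_addChar_ne_one' hk
  choose c hc using fun a : ann x => exists_eq_addChar' hψ (fun t => χ (t • a))
    (wt_one h0 (by simp [H10.trv_eq_one_iff])) fun s t => wt_mul h0 (by rw [add_smul, m])
  have key : ∀ c : Dual F (ann x), ∃ y, ∀ a : ann x, c a = a.1 ⬝ᵥ y := fun c => by
    obtain ⟨c', rfl⟩ := c.exists_extend
    obtain ⟨y, rfl⟩ := (dotProductEquiv F l).surjective c'
    exact ⟨y, fun a => by simp [dotProduct_comm]⟩
  obtain ⟨y, hy⟩ := key ⟨⟨c, fun a b => eq_of_addChar' hψ fun t => by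
    rw [add_mul, AddChar.map_add_eq_mul, ← hc, ← hc, ← hc, smul_add]
    exact wt_mul h0 (m ..)⟩, fun s a => eq_of_addChar' hψ fun t => by
      rw [← hc, smul_smul, hc, RingHom.id_apply, smul_eq_mul]; congr 1; ring⟩
  have hχ : ∀ a : ann x, χ a = ψ (a.1 ⬝ᵥ y) := fun a => by simpa [← hy] using hc a 1
  have h2 := card_mul_finrank_wtSp_le ρ (fun a : ann x => H10.trv x a.1 (mem_ann.mp a.2)) χ
    (ψ := fun (c : {c : Dual F (ann x) // c ≠ 0}) a => ψ (c.1 a)) (fun c c' e => Subtype.ext (LinearMap.ext fun a => eq_of_addChar' hψ fun t => by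
      simpa [mul_comm] using congrFun e (t • a))) fun c => by
    obtain ⟨y', hy'⟩ := key c.1
    obtain ⟨a, ha⟩ := DFunLike.ne_iff.mp c.2
    obtain ⟨g, hg⟩ := exists_sl_fam (by simpa)
      (pair_of_ann hx h fun e => h1 (by rw [hχ, e, AddChar.map_zero_eq_one]))
      (pair_of_ann hx (mem_ann.mp a.2) (by simpa [hy'] using ha))
    have g0 : g.1 *ᵥ x = x := hg 0
    have g1 : g.1 *ᵥ y = y' := hg 1
    refine ⟨g⁻¹, fun a => ⟨a.1 ᵥ* g.1, mem_ann.mpr (by
      rw [← dotProduct_mulVec, g0, mem_ann.mp a.2])⟩, fun a => ?_, funext fun a => by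
        simp [hχ, hy', ← dotProduct_mulVec, g1]⟩
    have : (g⁻¹).1 *ᵥ x = x := by
      conv_lhs => rw [← g0, mulVec_mulVec, H10.sl_inv_mul_val, one_mulVec]
    rw [H10.conj_trv, H10.slv_ext_iff, H10.trv_val, H10.trv_val, this, inv_inv]
  have : Finite (Dual F (ann x)) := Module.finite_of_finite F
  have h4 := Set.ncard_add_ncard_compl ({0} : Set (Dual F (ann x)))
  rw [Module.natCard_eq_pow_finrank (K := F), Subspace.dual_finrank_eq, Set.ncard_singleton] at h4
  rw [← finrank_ann hx, Nat.add_sub_cancel, ← h4, Nat.add_sub_cancel_left]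
  exact (Nat.le_mul_of_pos_right _ (Submodule.one_le_finrank_iff.mpr h0)).trans h2

end Cfsg.Agent.H11
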