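import Mathlib
import Cfsg.Agent.H11.LS4
import Cfsg.Agent.H10.SL
import Cfsg.Agent.H6.Central

/-!
# Projections onto weight spaces of transvection groups
-/

set_option autoImplicit false

namespace Cfsg.Agent.H11

open Module Matrix
open scoped commutatorElement

variable {M : Type*} [AddCommGroup M] [Module ℂ M]

section contr

variable {G : Type*} [Group G] [Fintype G] {ρ : Representation ℂ G M} {S T : End ℂ M}

/-- Operators that do not increase the invariant seminorms. -/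
def Contr (ρ : Representation ℂ G M) (T : End ℂ M) : Prop :=
  ∀ (φ : Dual ℂ M) v, ∑ g, ‖φ (ρ g (T v))‖ ≤ ∑ g, ‖φ (ρ g v)‖

theorem Contr.mul (h : Contr ρ S) (h' : Contr ρ T) : Contr ρ (S * T) :=
  fun φ v => (h φ _).trans (h' φ v)

theorem contr_avg {A : Type*} [Fintype A] [Nonempty A] (u : A → G) :
    Contr ρ ((Fintype.card A : ℂ)⁻¹ • ∑ a, ρ (u a)) := fun φ v => by
  have h1 : ∀ a, ∑ g, ‖φ (ρ g (ρ (u a) v))‖ = ∑ g, ‖φ (ρ g v)‖ := fun a =>
    Fintype.sum_equiv (Equiv.mulRight (u a)) _ _ fun g => by simp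
  simp only [LinearMap.smul_apply, LinearMap.sum_apply, map_smul, map_sum, norm_smul, norm_inv,
    Complex.norm_natCast, ← Finset.mul_sum]
  rw [inv_mul_le_iff₀ (by simpa using Fintype.card_pos)]
  refine (Finset.sum_le_sum fun g _ => norm_sum_le _ _).trans ?_
  rw [Finset.sum_comm]
  simp [h1]

theorem Contr.norm_trace_le [FiniteDimensional ℂ M] (h : Contr ρ T) {W : Submodule ℂ M}
    (hW : ∀ v, T v ∈ W) : ‖LinearMap.trace ℂ M T‖ ≤ finrank ℂ W := by
  rw [← LinearMap.trace_restrict_eq_of_forall_mem W T hW,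
    End.trace_eq_sum_roots_charpoly_of_splits (IsAlgClosed.splits _), ← LinearMap.charpoly_natDegree
      (T.restrict fun x _ => hW x), ← IsAlgClosed.card_roots_eq_natDegree]
  refine (norm_multiset_sum_le _).trans (((Multiset.sum_le_card_nsmul _ 1 fun x hx => ?_)).trans
    (by simp))
  obtain ⟨μ, hμ, rfl⟩ := Multiset.mem_map.mp hx
  obtain ⟨w, hw⟩ := ((End.hasEigenvalue_iff_isRoot_charpoly _ _).mpr
    (Polynomial.isRoot_of_mem_roots hμ)).exists_hasEigenvector
  obtain ⟨φ, hφ⟩ := Projective.exists_dual_ne_zero ℂ (Subtype.coe_injective.ne hw.2)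
  have h1 := h φ w
  rw [show T w = μ • w.1 from congrArg Subtype.val hw.apply_eq_smul] at h1
  simp only [map_smul, norm_smul, ← Finset.mul_sum] at h1
  exact (mul_le_iff_le_one_left (Finset.sum_pos' (fun _ _ => norm_nonneg _)
    ⟨1, Finset.mem_univ _, by simpa using hφ⟩)).mp h1

theorem isIntegral_of_sum_rep [Nontrivial M] {A : Type*} [Fintype A] (u : A → G) {c : ℂ}
    (h : ∑ a, ρ (u a) = c • 1) : IsIntegral ℤ c := by
  have := (Algebra.IsIntegral.isIntegral (R := ℤ) (∑ a, MonoidAlgebra.of ℤ G (u a))).map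
    (MonoidAlgebra.lift ℤ (End ℂ M) G ρ)
  simp only [map_sum, MonoidAlgebra.lift_of, h, ← Algebra.algebraMap_eq_smul_one] at this
  exact (isIntegral_algebraMap_iff (algebraMap ℂ _).injective).mp this

omit [Fintype G] in
theorem commutator_mul_of_finrank_one {E : End ℂ M} (h : finrank ℂ (LinearMap.range E) = 1)
    {a b : G} (ha : ρ a * E = E * ρ a) (hb : ρ b * E = E * ρ b) : ρ ⁅a, b⁆ * E = E := by
  obtain ⟨v, -, hv⟩ := finrank_eq_one_iff'.mp h
  have key : ∀ g, ρ g * E = E * ρ g → ∃ c : ℂ, ρ g * E = c • E := fun g hg => by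
    obtain ⟨_, u, rfl⟩ := v
    obtain ⟨c, hc⟩ := hv ⟨_, ρ g u, rfl⟩
    refine ⟨c, LinearMap.ext fun x => ?_⟩
    obtain ⟨d, hd⟩ := hv ⟨_, x, rfl⟩
    rw [LinearMap.smul_apply, End.mul_apply, ← show d • E u = E x from congrArg Subtype.val hd,
      map_smul, ← End.mul_apply, hg, End.mul_apply,
      ← show c • E u = E (ρ g u) from congrArg Subtype.val hc, smul_comm]
  obtain ⟨c, hc⟩ := key a ha
  obtain ⟨d, hd⟩ := key b hb
  have h1 : ρ (a * b) * E = ρ (b * a) * E := by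
    simp only [map_mul, mul_assoc, hc, hd, mul_smul_comm, smul_comm c d]
  have h2 : ρ (b * a) * E = E * ρ (b * a) := by
    rw [map_mul, mul_assoc, ha, ← mul_assoc, hb, mul_assoc]
  refine ((End.isUnit_iff _).mpr (ρ.apply_bijective (b * a))).mul_right_cancel ?_
  rw [mul_assoc, ← h2, ← mul_assoc, ← map_mul, ← h1]
  congr 2
  group

end contr

variable {F : Type*} [Field F] {l : Type*} [Fintype l] [DecidableEq l]

omit [DecidableEq l] in
theorem exists_dot_eq_one {W : Submodule F (l → F)} {y : l → F} (hy : y ∉ W) :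
    ∃ a : l → F, (∀ w ∈ W, a ⬝ᵥ w = 0) ∧ a ⬝ᵥ y = 1 := by
  classical
  obtain ⟨f, f1, f2⟩ := Submodule.exists_dual_map_eq_bot_of_notMem hy inferInstance
  obtain ⟨a, rfl⟩ := (dotProductEquiv F l).surjective f
  exact ⟨(a ⬝ᵥ y)⁻¹ • a, fun w hw => by simp [show a ⬝ᵥ w = 0 from f2.le ⟨w, hw, rfl⟩],
    by simpa using inv_mul_cancel₀ f1⟩

theorem sl_ext {A B : SpecialLinearGroup l F} (h : ∀ v, A.1 *ᵥ v = B.1 *ᵥ v) : A = B :=
  Subtype.ext (Matrix.toLin'.injective (LinearMap.ext h))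

theorem commutator_trv {h : SpecialLinearGroup l F} {z g : l → F} (hz : g ⬝ᵥ z = 0) {β γ : F}
    (h1 : h.1 *ᵥ z = β • z) (h2 : ∀ v, g ⬝ᵥ (h.1 *ᵥ v) = γ * g ⬝ᵥ v) (h3 : β ≠ γ) :
    ⁅h, H10.trv z ((γ / (β - γ)) • g) (by simp [hz])⁆ = H10.trv z g hz := by
  rw [commutatorElement_def, mul_inv_eq_iff_eq_mul, mul_inv_eq_iff_eq_mul]
  refine sl_ext fun v => ?_
  have := sub_ne_zero.mpr h3
  simp only [H10.slv_mul, ← mulVec_mulVec, H10.trv_mulVec, mulVec_add, mulVec_smul, h1, h2,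
    smul_dotProduct, dotProduct_add, dotProduct_smul, hz]
  match_scalars
  · ring
  · simp only [smul_eq_mul]
    field_simp
    ring

/-- The cases in which the stabilisers of weights are large enough. -/
def SlCond (l F : Type*) [Fintype l] [Field F] : Prop := 5 ≤ Fintype.card l ∨
  (Fintype.card l = 4 ∧ ∃ b : F, b ≠ 0 ∧ b ^ 2 ≠ 1) ∨ Fintype.card l = 3 ∧ ∃ a : F, a ≠ 0 ∧ a ^ 3 ≠ 1

theorem SlCond.exists_comm (hc : SlCond l F) {x y z g : l → F} (hx : g ⬝ᵥ x = 0) (hy : g ⬝ᵥ y = 0)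
    (hz : g ⬝ᵥ z = 0) (hg : g ≠ 0) : ∃ a b : SpecialLinearGroup l F,
      (∃ c : F, c ≠ 0 ∧ a.1 *ᵥ x = c • x ∧ a.1 *ᵥ y = c • y) ∧ (b.1 *ᵥ x = x ∧ b.1 *ᵥ y = y) ∧
        ⁅a, b⁆ = H10.trv z g hz := by
  have hA : ∀ s : Finset (l → F), x ∈ s → y ∈ s → z ∈ Submodule.span F (s : Set (l → F)) →
      s.card + 1 < Fintype.card l → ∃ a b : SpecialLinearGroup l F,
      (∃ c : F, c ≠ 0 ∧ a.1 *ᵥ x = c • x ∧ a.1 *ᵥ y = c • y) ∧ (b.1 *ᵥ x = x ∧ b.1 *ᵥ y = y) ∧
        ⁅a, b⁆ = H10.trv z g hz := fun s h1 h2 h3 h4 => by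
    obtain ⟨w, w1, w2⟩ : ∃ w ∈ ann g, w ∉ Submodule.span F (s : Set (l → F)) := by
      by_contra! H
      have := (Submodule.finrank_mono H).trans (finrank_span_finset_le_card s)
      have := finrank_ann hg
      omega
    rw [mem_ann, dotProduct_comm] at w1
    obtain ⟨f, f1, f2⟩ := exists_dot_eq_one w2
    refine ⟨H10.trv z f (f1 _ h3), H10.trv w g w1, ⟨1, one_ne_zero, ?_⟩, ?_, ?_⟩
    · simp [H10.trv_mulVec, f1 _ (Submodule.subset_span h1), f1 _ (Submodule.subset_span h2)]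
    · simp [H10.trv_mulVec, hx, hy]
    · rw [commutatorElement_def, mul_inv_eq_iff_eq_mul, mul_inv_eq_iff_eq_mul]
      refine sl_ext fun v => ?_
      simp only [H10.slv_mul, ← mulVec_mulVec, H10.trv_mulVec, dotProduct_add, dotProduct_smul, hz,
        w1, f2]
      module
  obtain ⟨w, -, hw⟩ := exists_dot_eq_one (W := ⊥) hg
  rw [dotProduct_comm] at hw
  classical
  rcases hc with h | ⟨h, b, b0, b1⟩ | ⟨h, a, a0, a1⟩
  · exact hA {x, y, z} (by simp) (by simp) (Submodule.subset_span (by simp))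
      (by have := Finset.card_le_three (a := x) (b := y) (c := z); omega)
  · by_cases h1 : z ∈ Submodule.span F (({x, y} : Finset (l → F)) : Set (l → F))
    · exact hA {x, y} (by simp) (by simp) h1
        (by have := Finset.card_le_two (a := x) (b := y); omega)
    obtain ⟨f, f1, f2⟩ := exists_dot_eq_one h1
    have f3 := f1 x (Submodule.subset_span (by simp))
    have f4 := f1 y (Submodule.subset_span (by simp))
    refine ⟨⟨(1 + vecMulVec ((b - 1) • z) f) * (1 + vecMulVec ((b⁻¹ - 1) • w) g), by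
      rw [det_mul, H10.det_one_add_vecMulVec, H10.det_one_add_vecMulVec]
      simp [f2, hw, b0]⟩, _, ⟨1, one_ne_zero, ?_⟩, ?_,
      commutator_trv hz (β := b) (γ := b⁻¹) ?_ (fun v => ?_) fun e => b1 ?_⟩
    · simp [← mulVec_mulVec, add_mulVec, smul_mulVec, H10.vecMulVec_mulVec', hx, hy, f3, f4]
    · simp [H10.trv_mulVec, hx, hy]
    · simp [← mulVec_mulVec, add_mulVec, H10.vecMulVec_mulVec', hz, f2, sub_smul]
    · simp only [← mulVec_mulVec, add_mulVec, H10.vecMulVec_mulVec', one_mulVec, dotProduct_add,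
        dotProduct_smul, hz, hw, smul_eq_mul]
      ring
    · field_simp at e
      exact e
  · refine ⟨⟨a • (1 + vecMulVec (((a ^ 3)⁻¹ - 1) • w) g), by
      rw [det_smul, H10.det_one_add_vecMulVec]
      simp [hw, a0, h]⟩, _, ⟨a, a0, ?_⟩, ?_,
      commutator_trv hz (β := a) (γ := (a ^ 2)⁻¹) ?_ (fun v => ?_) fun e => a1 ?_⟩
    · simp [smul_mulVec, add_mulVec, H10.vecMulVec_mulVec', hx, hy]
    · simp [H10.trv_mulVec, hx, hy]
    · simp [smul_mulVec, add_mulVec, H10.vecMulVec_mulVec', hz]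
    · simp only [smul_mulVec, add_mulVec, H10.vecMulVec_mulVec', one_mulVec, dotProduct_add,
        dotProduct_smul, hw, smul_eq_mul]
      field_simp
      ring
    · field_simp at e
      exact e

/-- Transvections with a given centre. -/
def tq {x : l → F} (a : ann x) : SpecialLinearGroup l F := H10.trv x a.1 (mem_ann.mp a.2)

theorem tq_mulVec {x : l → F} (a : ann x) (v : l → F) : (tq a).1 *ᵥ v = v + (a.1 ⬝ᵥ v) • x :=
  H10.trv_mulVec ..

theorem tq_add {x : l → F} (a b : ann x) : tq (a + b) = tq a * tq b := sl_ext fun v => by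
  simp only [H10.slv_mul, ← mulVec_mulVec, tq_mulVec, Submodule.coe_add, add_dotProduct,
    dotProduct_add, dotProduct_smul, mem_ann.mp a.2]
  module

theorem tq_zero {x : l → F} : tq (0 : ann x) = 1 := sl_ext fun v => by simp [tq_mulVec]

variable [Fintype F] [DecidableEq F]

noncomputable instance fintypeAnn (x : l → F) : Fintype (ann x) := Fintype.ofFinite _

theorem card_ann {x : l → F} (hx : x ≠ 0) :
    Fintype.card (ann x) = Fintype.card F ^ (Fintype.card l - 1) := by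
  rw [Module.card_eq_pow_finrank (K := F), ← finrank_ann hx, Nat.add_sub_cancel]

variable {ψ : AddChar F ℂ} {ρ : Representation ℂ (SpecialLinearGroup l F) M}

theorem sum_addChar_eq_zero (hψ : ψ ≠ 1) {W : Type*} [AddCommGroup W] [Module F W] [Fintype W]
    (f : W →ₗ[F] F) {w : W} (hw : f w ≠ 0) : ∑ w, ψ (f w) = 0 := by
  obtain ⟨s, hs⟩ := DFunLike.ne_iff.mp hψ
  exact (ψ.compAddMonoidHom f.toAddMonoidHom).sum_eq_zero_iff_ne_zero.mpr
    (DFunLike.ne_iff.mpr ⟨(s / f w) • w, by simpa [hw] using hs⟩)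

variable (ψ ρ) in
/-- The projection onto a weight space of the group of transvections with centre `x`. -/
noncomputable def prj (x y : l → F) : End ℂ M :=
  (Fintype.card (ann x) : ℂ)⁻¹ • ∑ a : ann x, ψ (-(a.1 ⬝ᵥ y)) • ρ (tq a)

theorem tq_mul_prj {x : l → F} (b : ann x) (y : l → F) :
    ρ (tq b) * prj ψ ρ x y = ψ (b.1 ⬝ᵥ y) • prj ψ ρ x y := by
  rw [prj, mul_smul_comm, smul_comm (ψ _), Finset.mul_sum]
  congr 1
  rw [Finset.smul_sum]
  refine Fintype.sum_equiv (Equiv.addLeft b) _ _ fun a => ?_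
  rw [mul_smul_comm, ← map_mul, ← tq_add, smul_smul, ← AddChar.map_add_eq_mul]
  simp

theorem conj_prj (s : SpecialLinearGroup l F) (x y : l → F) :
    ρ s * prj ψ ρ x y = prj ψ ρ (s.1 *ᵥ x) (s.1 *ᵥ y) * ρ s := by
  let e : ann (s.1 *ᵥ x) ≃ ann x := ⟨fun a => ⟨a.1 ᵥ* s.1, mem_ann.mpr (by
      rw [← dotProduct_mulVec, mem_ann.mp a.2])⟩, fun a => ⟨a.1 ᵥ* (s⁻¹).1, mem_ann.mpr (by
      rw [H10.vecMul_dot_mulVec _ _ (H10.sl_inv_mul_val s), mem_ann.mp a.2])⟩,
    fun a => Subtype.ext (by simp only [vecMul_vecMul, H10.sl_mul_inv_val, vecMul_one]),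
    fun a => Subtype.ext (by simp only [vecMul_vecMul, H10.sl_inv_mul_val, vecMul_one])⟩
  rw [prj, prj, mul_smul_comm, smul_mul_assoc, Fintype.card_congr e, Finset.mul_sum, Finset.sum_mul]
  congr 1
  refine (Fintype.sum_equiv e _ _ fun a => ?_).symm
  rw [mul_smul_comm, smul_mul_assoc, ← map_mul, ← map_mul, dotProduct_mulVec]
  congr 2
  exact sl_ext fun v => by
    simp [H10.slv_mul, ← mulVec_mulVec, tq_mulVec, e, mulVec_add, mulVec_smul, dotProduct_mulVec]

theorem prj_smul {c : F} (hc : c ≠ 0) (x y : l → F) : prj ψ ρ (c • x) (c • y) = prj ψ ρ x y := by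
  let e : ann (c • x) ≃ ann x := ⟨fun a => ⟨c • a.1, mem_ann.mpr (by
      simpa using mem_ann.mp a.2)⟩, fun a => ⟨c⁻¹ • a.1, mem_ann.mpr (by
      simp [mem_ann.mp a.2])⟩, fun a => Subtype.ext (by simp [hc]), fun a => Subtype.ext (by simp [hc])⟩
  rw [prj, prj, Fintype.card_congr e]
  congr 1
  refine Fintype.sum_equiv e _ _ fun a => ?_
  congr 2
  · simp [e]
  · exact sl_ext fun v => by simp [tq_mulVec, e, smul_smul, mul_comm]

theorem prj_of_mem {x y : l → F} (h : y ∈ F ∙ x) : prj ψ ρ x y = prj ψ ρ x 0 := by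
  obtain ⟨c, rfl⟩ := Submodule.mem_span_singleton.mp h
  simp [prj, fun a : ann x => mem_ann.mp a.2]

theorem prj_mul_prj (x y z : l → F) : prj ψ ρ x y * prj ψ ρ x z =
    ((Fintype.card (ann x) : ℂ)⁻¹ * ∑ a : ann x, ψ (a.1 ⬝ᵥ (z - y))) • prj ψ ρ x z := by
  conv_lhs => rw [prj]
  simp only [smul_mul_assoc, Finset.sum_mul, tq_mul_prj, smul_smul, ← AddChar.map_add_eq_mul,
    ← Finset.sum_smul, dotProduct_sub, neg_add_eq_sub]

theorem prj_mul_self (x y : l → F) : prj ψ ρ x y * prj ψ ρ x y = prj ψ ρ x y := by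
  simp [prj_mul_prj]

theorem prj_mul_eq_zero (hψ : ψ ≠ 1) {x y z : l → F} (h : z - y ∉ F ∙ x) :
    prj ψ ρ x y * prj ψ ρ x z = 0 := by
  obtain ⟨a, a1, a2⟩ := exists_dot_eq_one h
  have := sum_addChar_eq_zero hψ ((dotProductEquiv F l (z - y)) ∘ₗ (ann x).subtype)
    (w := ⟨a, mem_ann.mpr (a1 _ (Submodule.mem_span_singleton_self x))⟩)
    (((dotProduct_comm _ a).trans a2).trans_ne one_ne_zero)
  simp only [LinearMap.comp_apply, dotProductEquiv_apply_apply, dotProduct_comm (z - y),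
    Submodule.subtype_apply] at this
  rw [prj_mul_prj, this, mul_zero, zero_smul]

theorem sum_addChar_dot (hψ : ψ ≠ 1) {a : l → F} (ha : a ≠ 0) : ∑ y, ψ (a ⬝ᵥ y) = 0 := by
  obtain ⟨w, -, hw⟩ := exists_dot_eq_one (W := ⊥) ha
  exact sum_addChar_eq_zero hψ (dotProductEquiv F l a) (w := w) (by simp [dotProduct_comm a, hw])

theorem sum_prj (hψ : ψ ≠ 1) {x : l → F} (hx : x ≠ 0) :
    ∑ y, prj ψ ρ x y = (Fintype.card F : ℂ) • 1 := by
  simp only [prj, ← Finset.smul_sum]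
  rw [Finset.sum_comm, Finset.sum_eq_single 0 (fun a _ ha => ?_) (by simp), card_ann hx,
    ← finrank_ann hx]
  · simp [tq_zero, ← Nat.cast_smul_eq_nsmul ℂ, smul_smul, ← finrank_ann hx, pow_succ]
  · rw [← Finset.sum_smul]
    simp only [← neg_dotProduct]
    rw [sum_addChar_dot hψ (by simpa using ha), zero_smul]

theorem sum_split {x : l → F} (hx : x ≠ 0) {f β : (l → F) → ℂ} {a b : ℂ}
    (h1 : ∀ y ∈ F ∙ x, f y = a) (h2 : ∀ y ∈ F ∙ x, β y = b) (h3 : ∀ y ∉ F ∙ x, f y = β y) :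
    ∑ y, f y = ∑ y, β y + Fintype.card F * (a - b) := by
  classical
  have : ∀ y, f y = β y + if y ∈ F ∙ x then a - b else 0 := fun y => by
    split_ifs with h
    · rw [h1 y h, h2 y h, add_sub_cancel]
    · rw [h3 y h, add_zero]
  simp only [this, Finset.sum_add_distrib, ← Finset.sum_filter, Finset.sum_const, nsmul_eq_mul]
  rw [← Fintype.card_subtype,
    ← Fintype.card_congr (LinearEquiv.toSpanNonzeroSingleton F _ x hx).toEquiv]

end Cfsg.Agent.H11
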