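import Mathlib
import Cfsg.Agent.H11.LS5
import Cfsg.Agent.H6.Galois

/-!
# The smallest degree of a complex representation of a special linear group
-/

set_option autoImplicit false

namespace Cfsg.Agent.H11

open Module Matrix

theorem sl_arith {q Q N d0 d1 d2 : ℤ} {r : ℕ} (hq : 2 ≤ q) (hr : Q = q ^ r)
    (hN : (q - 1) * N = q * Q - 1) (hQ : q ≤ Q) (h8 : q = 2 → 8 ≤ Q) (h0 : d0 = d1 + (q * Q - 1))
    (h2 : d2 + Q = d1 + 1) (hd : d0 ∣ q * Q * ((q * q * Q - 1) * d1))
    (hi : (q * q * Q - 1) * d1 ^ 2 ≤ ((q - 1) * d1 + (q * q * Q - q) * d2) * d0) : q * N ≤ d0 := by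
  by_contra! H
  have hN1 : q + 1 ≤ N := le_of_mul_le_mul_left (a := q - 1) (by nlinarith) (by omega)
  obtain ⟨j, rfl⟩ : ∃ j, d1 = N - j := ⟨N - d1, by ring⟩
  obtain rfl : d2 = N - j + 1 - Q := by omega
  have e1 : q * q * Q - 1 = (q - 1) * (q * N + 1) := by linear_combination -q * hN
  have e0 : d0 = q * N - j := by linear_combination h0 - hN
  have h3 : j * (q * Q + 1) ≤ (q + 1) * N := by
    refine le_of_mul_le_mul_left (a := (q - 1) * (q - 1) * N) ?_ (by
      have : 0 < q - 1 := by omega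
      have : 0 < N := by omega
      positivity)
    rw [e1, e0, show q * q * Q - q = (q - 1) * (q * N) by linear_combination -q * hN] at hi
    have : (q - 1) * (q - 1) * N * ((q + 1) * N - j * (q * Q + 1)) =
        ((q - 1) * (N - j) + (q - 1) * (q * N) * (N - j + 1 - Q)) * (q * N - j) -
          (q - 1) * (q * N + 1) * (N - j) ^ 2 := by
      linear_combination (-(q - 1) * q * N * (N - j)) * hN
    linarith
  have h4 : j * (q - 1) < q + 1 := by
    refine lt_of_mul_lt_mul_right (a := q * Q + 1) ?_ (by nlinarith)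
    nlinarith
  rw [e1] at hd
  by_cases hj : j = 1
  · subst hj
    have hc : IsCoprime d0 q := ⟨-1, N, by linear_combination -e0⟩
    obtain ⟨k, hk⟩ := (hc.mul_right (hr ▸ hc.pow_right)).dvd_of_dvd_mul_left hd
    have h5 : 2 * (q - 1) ^ 2 = d0 * ((q - 1) * (d0 + 3 - q) - q * k) := by
      rw [e0] at hk ⊢
      linear_combination -q * hk
    generalize (q - 1) * (d0 + 3 - q) - q * k = m at h5
    have h9 : (q - 1) ^ 2 < d0 := by nlinarith [mul_le_mul_of_nonneg_left hN1 (by omega : 0 ≤ q)]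
    have h10 : 0 < (q - 1) ^ 2 := pow_pos (by omega) _
    have h6 : 0 < m := by
      by_contra! h
      nlinarith
    have h7 : m < 2 := by
      by_contra! h
      nlinarith
    obtain rfl : m = 1 := by omega
    have h8 : q ≤ 3 := Int.le_of_dvd (by norm_num) ⟨N - 2 * q + 4, by linear_combination h5 + e0⟩
    interval_cases q <;> omega
  · obtain rfl : q = 2 := by nlinarith [show 2 ≤ j by omega]
    obtain rfl : j = 2 := by omega
    obtain rfl : N = 2 * Q - 1 := by omega
    obtain ⟨k, hk⟩ := hd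
    have := Int.le_of_dvd (a := Q - 1) (b := 6) (by norm_num)
      ⟨16 * Q ^ 2 - 12 * Q - 6 - 4 * k, by rw [e0] at hk; linear_combination -hk⟩
    omega

variable {M : Type*} [AddCommGroup M] [Module ℂ M] [FiniteDimensional ℂ M] {F : Type*} [Field F]
  {l : Type*} [Fintype l] [DecidableEq l] [Fintype F] [DecidableEq F] {ψ : AddChar F ℂ}
  {ρ : Representation ℂ (SpecialLinearGroup l F) M}

local notation "tr" => LinearMap.trace ℂ M

theorem trace_eq_of_conj {G : Type*} [Group G] (ρ : Representation ℂ G M) (s : G) {A B : End ℂ M}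
    (h : ρ s * A = B * ρ s) : tr A = tr B := by
  rw [← mul_one B, ← map_one ρ, ← mul_inv_cancel s, map_mul ρ, ← mul_assoc, ← h,
    LinearMap.trace_mul_comm, ← mul_assoc, ← map_mul ρ, inv_mul_cancel, map_one, one_mul]

theorem trace_prj (x y : l → F) :
    tr (prj ψ ρ x y) = finrank ℂ (LinearMap.range (prj ψ ρ x y)) :=
  (LinearMap.IsIdempotentElem.isProj_range _ (prj_mul_self x y)).trace

theorem trace_prj_eq (h3 : 3 ≤ Fintype.card l) {x y y' : l → F} (hx : x ≠ 0) (hy : y ∉ F ∙ x)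
    (hy' : y' ∉ F ∙ x) : tr (prj ψ ρ x y) = tr (prj ψ ρ x y') := by
  obtain ⟨s, hs⟩ := exists_sl_fam (by simpa)
    ((LinearIndependent.pair_iff' hx).mpr fun a e => hy (Submodule.mem_span_singleton.mpr ⟨a, e⟩))
    ((LinearIndependent.pair_iff' hx).mpr fun a e => hy' (Submodule.mem_span_singleton.mpr ⟨a, e⟩))
  refine trace_eq_of_conj ρ s ?_
  rw [conj_prj, show s.1 *ᵥ x = x from hs 0, show s.1 *ᵥ y = y' from hs 1]

theorem sum_trace_mul_prj (hψ : ψ ≠ 1) {x : l → F} (hx : x ≠ 0) (T : End ℂ M) :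
    ∑ y, tr (T * prj ψ ρ x y) = Fintype.card F * tr T := by
  rw [← map_sum, ← Finset.mul_sum, sum_prj hψ hx, mul_smul_comm, mul_one, map_smul, smul_eq_mul]

theorem trace_tq (hψ : ψ ≠ 1) {x : l → F} (hx : x ≠ 0) {m : ℂ}
    (hm : ∀ y ∉ F ∙ x, tr (prj ψ ρ x y) = m) {a : ann x} (ha : a ≠ 0) :
    tr (ρ (tq a)) = tr (prj ψ ρ x 0) - m := by
  have h0 : ∀ y ∈ F ∙ x, ψ (a.1 ⬝ᵥ y) = 1 := fun y hy => by
    obtain ⟨c, rfl⟩ := Submodule.mem_span_singleton.mp hy
    simp [mem_ann.mp a.2]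
  have := sum_trace_mul_prj (ρ := ρ) hψ hx (ρ (tq a))
  rw [sum_split hx (β := fun y => ψ (a.1 ⬝ᵥ y) * m) (a := tr (prj ψ ρ x 0)) (b := m)
    (fun y hy => by rw [tq_mul_prj, h0 y hy, one_smul, prj_of_mem hy])
    (fun y hy => by rw [h0 y hy, one_mul])
    (fun y hy => by rw [tq_mul_prj, map_smul, hm y hy, smul_eq_mul]), ← Finset.sum_mul,
    sum_addChar_dot hψ (by simpa using ha), zero_mul, zero_add] at this
  exact (mul_left_cancel₀ (by simp) this).symm

theorem SlCond.three_le (h : SlCond l F) : 3 ≤ Fintype.card l := by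
  rcases h with h | h | h <;> omega

theorem trace_tq_mul_prj (hc : SlCond l F) (hψ : ψ ≠ 1) {x z : l → F} (hx : x ≠ 0)
    (hm : ∀ y ∉ F ∙ x, tr (prj ψ ρ x y) = 1) (hz : z ∉ F ∙ x) {a : ann z} (ha : a ≠ 0)
    (h0 : a.1 ⬝ᵥ x = 0) : tr (ρ (tq a) * prj ψ ρ x 0) =
      tr (prj ψ ρ x 0) - Fintype.card F ^ (Fintype.card l - 2) := by
  classical
  have ha' : a.1 ≠ 0 := by simpa using ha
  have h1 : (tq a).1 *ᵥ x = x := by simp [tq_mulVec, h0]
  obtain ⟨s, hs⟩ := H10.exists_conj_trv hc.three_le (A := tq a)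
    (B := tq (⟨a.1, mem_ann.mpr h0⟩ : ann x)) ⟨_, _, _, rfl⟩ ⟨_, _, _, rfl⟩
    ((H10.trv_eq_one_iff _).not.mpr (not_or.mpr ⟨fun e => hz (by simp [e]), ha'⟩))
    ((H10.trv_eq_one_iff _).not.mpr (not_or.mpr ⟨hx, ha'⟩))
  have := sum_trace_mul_prj (ρ := ρ) hψ hx (ρ (tq a))
  rw [sum_split hx (β := fun y => if y ∈ ann a.1 then 1 else 0)
    (a := tr (ρ (tq a) * prj ψ ρ x 0)) (b := 1) (fun y hy => by rw [prj_of_mem hy])
    (fun y hy => ?_) (fun y hy => ?_), trace_eq_of_conj ρ s (A := ρ (tq a))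
      (B := ρ (tq ⟨a.1, mem_ann.mpr h0⟩)) (by rw [← map_mul, ← map_mul, ← hs, inv_mul_cancel_right]),
    trace_tq hψ hx hm (fun e => ha' (congrArg Subtype.val e)), Finset.sum_boole,
    ← Fintype.card_subtype, Fintype.card_congr' rfl, card_ann ha'] at this
  · refine mul_left_cancel₀ (by simp : (Fintype.card F : ℂ) ≠ 0) ?_
    rw [show Fintype.card l - 1 = Fintype.card l - 2 + 1 by have := hc.three_le; omega] at this
    push_cast at this
    linear_combination this
  · obtain ⟨c, rfl⟩ := Submodule.mem_span_singleton.mp hy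
    simp [mem_ann, dotProduct_comm x, h0]
  · split_ifs with h
    · rw [mem_ann, dotProduct_comm] at h
      obtain ⟨b, b', ⟨c, c0, c1, c2⟩, ⟨c3, c4⟩, e⟩ := hc.exists_comm h0 h (mem_ann.mp a.2) ha'
      rw [tq, ← e, commutator_mul_of_finrank_one (by exact_mod_cast (trace_prj x y).symm.trans (hm y hy))
        (by rw [conj_prj, c1, c2, prj_smul c0]) (by rw [conj_prj, c3, c4]), hm y hy]
    · rw [mem_ann, dotProduct_comm] at h
      rw [← prj_mul_self, ← mul_assoc, conj_prj, h1, LinearMap.trace_mul_comm, ← mul_assoc,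
        prj_mul_eq_zero hψ, zero_mul, map_zero]
      rwa [tq_mulVec, add_sub_cancel_left, Submodule.smul_mem_iff _ h]

theorem norm_trace_prj_mul_le (hc : SlCond l F) (hψ : ψ ≠ 1) {x z : l → F} (hx : x ≠ 0)
    (hm : ∀ y ∉ F ∙ x, tr (prj ψ ρ x y) = 1) (hz : z ∉ F ∙ x) : ∃ d : ℕ,
      (d : ℂ) + Fintype.card F ^ (Fintype.card l - 2) = tr (prj ψ ρ x 0) + 1 ∧
        ‖tr (prj ψ ρ x 0 * prj ψ ρ z 0)‖ ≤ d := by
  classical
  let J := LinearMap.ker (dotProductEquiv F l x ∘ₗ (ann z).subtype)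
  have hJ : ∀ a : J, a.1.1 ⬝ᵥ x = 0 := fun a => (dotProduct_comm _ _).trans a.2
  have hz0 : z ≠ 0 := fun e => hz (by simp [e])
  have h1 : Fintype.card J = Fintype.card F ^ (Fintype.card l - 2) := by
    obtain ⟨a, a1, a2⟩ := exists_dot_eq_one (W := F ∙ z) (y := x) fun h => by
      obtain ⟨c, rfl⟩ := Submodule.mem_span_singleton.mp h
      exact hz (Submodule.mem_span_singleton.mpr ⟨c⁻¹, by
        rw [smul_smul, inv_mul_cancel₀ (left_ne_zero_of_smul hx), one_smul]⟩)
    have := Dual.finrank_ker_add_one_of_ne_zero (f := dotProductEquiv F l x ∘ₗ (ann z).subtype)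
      (DFunLike.ne_iff.mpr ⟨⟨a, mem_ann.mpr (a1 _ (Submodule.mem_span_singleton_self z))⟩,
        ((dotProduct_comm _ a).trans a2).trans_ne one_ne_zero⟩)
    have h3 := finrank_ann hz0
    rw [Module.card_eq_pow_finrank (K := F), ← h3, ← this]
    rfl
  have h2 : ∀ a : J, ρ (tq a.1) * prj ψ ρ x 0 = prj ψ ρ x 0 * ρ (tq a.1) := fun a => by
    simp [conj_prj, tq_mulVec, hJ]
  let R : End ℂ M := (Fintype.card J : ℂ)⁻¹ • ∑ a : J, ρ (tq a.1)
  have h3 : ∀ a : J, ρ (tq a.1) * R = R := fun a => by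
    rw [mul_smul_comm, Finset.mul_sum]
    exact congrArg _ (Fintype.sum_equiv (Equiv.addLeft a) _ _ fun b => by
      simp [← map_mul, ← tq_add])
  have h4 : ∀ T : End ℂ M, (∀ a : J, ρ (tq a.1) * T = T) → R * T = T := fun T hT => by
    simp [R, Finset.sum_mul, hT, ← Nat.cast_smul_eq_nsmul ℂ, smul_smul]
  have h5 : IsIdempotentElem (prj ψ ρ x 0 * R) := by
    rw [IsIdempotentElem, mul_assoc, h4 _ fun a => by rw [← mul_assoc, h2, mul_assoc, h3],
      ← mul_assoc, prj_mul_self]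
  refine ⟨finrank ℂ (LinearMap.range (prj ψ ρ x 0 * R)), ?_, Contr.norm_trace_le (ρ := ρ)
    (Contr.mul ?_ ?_) fun v => ⟨prj ψ ρ z 0 v, ?_⟩⟩
  · rw [← (LinearMap.IsIdempotentElem.isProj_range _ h5).trace, mul_smul_comm, Finset.mul_sum,
      map_smul, map_sum, ← Finset.add_sum_erase _ _ (Finset.mem_univ 0),
      Finset.sum_congr rfl fun a ha => by
        rw [← h2, trace_tq_mul_prj hc hψ hx hm hz (by simpa using ha) (hJ a)]]
    simp only [ZeroMemClass.coe_zero, tq_zero, map_one, mul_one, Finset.sum_const, smul_eq_mul,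
      Finset.card_erase_of_mem (Finset.mem_univ _), Finset.card_univ, nsmul_eq_mul]
    rw [Nat.cast_sub Fintype.card_pos, h1]
    push_cast
    field_simp
    ring
  · simpa [prj] using contr_avg (ρ := ρ) (tq (x := x))
  · simpa [prj] using contr_avg (ρ := ρ) (tq (x := z))
  · rw [← End.mul_apply, mul_assoc, h4 _ fun a => by simp [tq_mul_prj]]

theorem sl_lower (hc : SlCond l F) [ρ.IsIrreducible] (hρ : ρ.ker ≠ ⊤) :
    Fintype.card F ^ Fintype.card l - Fintype.card F ≤ (Fintype.card F - 1) * finrank ℂ M := by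
  classical
  obtain ⟨ψ, hψ⟩ := exists_addChar_ne_one F
  have h3 := hc.three_le
  obtain ⟨i, j, hij⟩ := Fintype.exists_pair_of_one_lt_card (by omega : 1 < Fintype.card l)
  have hx : (Pi.single i 1 : l → F) ≠ 0 := by simp
  have hy : (Pi.single j 1 : l → F) ∉ F ∙ Pi.single i 1 := fun h => by
    obtain ⟨c, hc⟩ := Submodule.mem_span_singleton.mp h
    simpa [hij.symm] using congrFun hc j
  have ha : (Pi.single j 1 : l → F) ∈ ann (Pi.single i 1) := by simp [mem_ann, hij.symm]
  have h1 : ρ (tq ⟨_, ha⟩) ≠ 1 := fun e => (H10.normal_SL_le_center_or ρ.ker).elim (fun h => by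
    obtain ⟨r, -, hr⟩ := Matrix.SpecialLinearGroup.mem_center_iff.mp (h e)
    simpa [tq, H10.trv_val, vecMulVec_apply, hij] using congrFun₂ hr i j) fun h =>
      hρ (top_le_iff.mp ((H10.commutator_SL_eq_top h3).ge.trans h))
  generalize (Pi.single i 1 : l → F) = x at *
  generalize (Pi.single j 1 : l → F) = y at *
  obtain ⟨m, hm⟩ : ∃ m : ℕ, ∀ z ∉ F ∙ x, tr (prj ψ ρ x z) = m :=
    ⟨_, fun z hz => (trace_prj_eq h3 hx hz hy).trans (trace_prj ..)⟩
  obtain ⟨d, hd⟩ : ∃ d : ℕ, ∀ z ≠ 0, tr (prj ψ ρ z 0) = d := ⟨_, fun z hz => by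
    obtain ⟨s, rfl⟩ := H10.exists_sl_mulVec (by omega) hx hz
    exact (trace_eq_of_conj ρ s (by rw [conj_prj, mulVec_zero])).symm.trans (trace_prj x 0)⟩
  obtain ⟨r, hr⟩ := Nat.exists_eq_add_of_le' (show 2 ≤ Fintype.card l by omega)
  have hq := Fintype.one_lt_card (α := F)
  have hq0 : (Fintype.card F : ℂ) ≠ 0 := by simp
  have h4 : finrank ℂ M + m = d + Fintype.card F ^ (r + 1) * m := by
    have := sum_trace_mul_prj (ρ := ρ) hψ hx 1
    rw [sum_split hx (β := fun _ => m) (a := d) (b := m) (fun y hy => by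
      rw [one_mul, prj_of_mem hy, hd x hx]) (fun _ _ => rfl) fun y hy => by rw [one_mul, hm y hy]]
      at this
    simp only [Finset.sum_const, Finset.card_univ, Fintype.card_fun, hr, LinearMap.trace_one,
      nsmul_eq_mul] at this
    refine Nat.cast_injective (R := ℂ) (mul_left_cancel₀ hq0 ?_)
    push_cast at this ⊢
    linear_combination -this
  have h5 : m ≠ 0 := by
    rintro rfl
    have h6 : prj ψ ρ x 0 = 1 := by
      refine LinearMap.ext fun v => (LinearMap.IsIdempotentElem.isProj_range _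
        (prj_mul_self x 0)).map_id v ((Submodule.eq_top_of_finrank_eq ?_).ge trivial)
      rw [show finrank ℂ M = d by simpa using h4]
      exact_mod_cast (trace_prj x 0).symm.trans (hd x hx)
    simpa [h6, h1] using tq_mul_prj (ψ := ψ) (ρ := ρ) ⟨y, ha⟩ 0
  obtain ⟨N, hN⟩ : ∃ N, Fintype.card F ^ (r + 1) = (Fintype.card F - 1) * N + 1 :=
    (Nat.sub_one_dvd_pow_sub_one _ (r + 1)).imp fun _ h =>
      (Nat.sub_eq_iff_eq_add (Nat.one_le_pow _ _ (by omega))).mp h
  suffices Fintype.card F * N ≤ finrank ℂ M by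
    rw [hr, pow_succ _ (r + 1), hN, add_mul, one_mul, Nat.add_sub_cancel, mul_assoc, mul_comm N]
    exact Nat.mul_le_mul_left _ this
  by_cases h6 : 2 ≤ m
  · obtain ⟨p, hp⟩ := Nat.exists_eq_add_of_le' hq
    rw [hN, hp, show p + 2 - 1 = p + 1 from rfl] at h4
    rw [hp]
    nlinarith [Nat.mul_le_mul_left ((p + 1) * N) h6, Nat.zero_le (p * N)]
  obtain rfl : m = 1 := by omega
  rw [Nat.cast_one] at hm
  have := H6.nontrivial_of_isIrreducible ρ
  have h7 : (finrank ℂ M : ℂ) ≠ 0 := Nat.cast_ne_zero.mpr finrank_pos.ne'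
  obtain ⟨c, hc'⟩ := H6.exists_scalar_of_comm ρ (∑ z, prj ψ ρ z 0) fun s => by
    simp only [Finset.sum_mul, Finset.mul_sum, conj_prj, mulVec_zero]
    exact ((SpecialLinearGroup.toLin' s).toEquiv.sum_comp fun z => prj ψ ρ z 0 * ρ s).symm
  have h8 : prj ψ ρ (0 : l → F) 0 = 1 := by
    have : ∀ a : ann (0 : l → F), tq a = 1 := fun a => sl_ext fun v => by simp [tq_mulVec]
    simp [prj, this, ← Nat.cast_smul_eq_nsmul ℂ, smul_smul]
  have h9 : c - 1 = ((Fintype.card F ^ (r + 2) - 1) * d : ℕ) / finrank ℂ M := by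
    have := congrArg tr hc'
    rw [map_sum, ← Finset.add_sum_erase _ _ (Finset.mem_univ 0),
      Finset.sum_congr rfl fun z hz => hd z (by simpa using hz), h8] at this
    simp only [Finset.sum_const, Finset.card_erase_of_mem (Finset.mem_univ _), Finset.card_univ,
      Fintype.card_fun, hr, LinearMap.trace_one, nsmul_eq_mul, map_smul, LinearMap.trace_id,
      smul_eq_mul] at this
    rw [eq_div_iff h7, Nat.cast_mul]
    linear_combination -this
  have h10 := isIntegral_of_sum_rep (ρ := ρ) (fun p : Σ z : {z : l → F // z ≠ 0}, ann z.1 => tq p.2)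
    (c := (Fintype.card F ^ (r + 1) : ℕ) * (c - 1)) (by
      rw [← Finset.add_sum_erase _ _ (Finset.mem_univ 0), h8, Finset.sum_subtype (p := (· ≠ 0)) _
        (by simp), ← eq_sub_iff_add_eq'] at hc'
      rw [Fintype.sum_sigma, mul_smul, sub_smul, one_smul, ← show _ = c • (1 : End ℂ M) - 1 from hc',
        Finset.smul_sum]
      refine Finset.sum_congr rfl fun z _ => ?_
      simp [prj, card_ann z.2, hr, smul_smul])
  rw [h9, ← mul_div_assoc, ← Nat.cast_mul] at h10
  obtain ⟨d2, h11, -⟩ := norm_trace_prj_mul_le hc hψ hx hm hy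
  have h12 : ‖(c - Fintype.card F) * d‖ ≤ (Fintype.card F ^ (r + 2) - Fintype.card F : ℕ) * d2 := by
    have := congrArg (fun T => tr (prj ψ ρ x 0 * T)) hc'
    simp only [Finset.mul_sum, map_sum, mul_smul_comm, map_smul, ← End.one_eq_id, mul_one, hd x hx,
      smul_eq_mul] at this
    rw [sum_split hx (β := fun z => if z ∈ F ∙ x then 0 else tr (prj ψ ρ x 0 * prj ψ ρ z 0))
      (a := d) (b := 0) (fun z hz => ?_) (fun z hz => if_pos hz) fun z hz => (if_neg hz).symm,
      sub_zero, ← eq_sub_iff_add_eq, ← sub_mul] at this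
    · rw [← this, Finset.sum_ite, Finset.sum_const_zero, zero_add]
      refine (norm_sum_le _ _).trans ((Finset.sum_le_card_nsmul _ _ (d2 : ℝ) fun z hz => ?_).trans ?_)
      · obtain ⟨d3, h13, h14⟩ := norm_trace_prj_mul_le hc hψ hx hm (Finset.mem_filter.mp hz).2
        rwa [show d2 = d3 by exact_mod_cast add_right_cancel (h11.trans h13.symm)]
      · rw [← Fintype.card_subtype, Fintype.card_subtype_compl, Fintype.card_fun, hr,
          ← Fintype.card_congr (LinearEquiv.toSpanNonzeroSingleton F _ x hx).toEquiv, nsmul_eq_mul]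
    · obtain ⟨c, rfl⟩ := Submodule.mem_span_singleton.mp hz
      by_cases h0 : c = 0
      · rw [h0, zero_smul, h8, mul_one, hd x hx]
      · rw [← prj_smul h0 x, smul_zero, prj_mul_self, hd _ (smul_ne_zero h0 hx)]
  have h13 : Fintype.card F ≤ Fintype.card F ^ (r + 2) := Nat.le_self_pow (by omega) _
  rw [← sub_add_cancel c 1, h9] at h12
  rw [hd x hx, hr, Nat.add_sub_cancel] at h11
  have h14 : (0 : ℝ) < finrank ℂ M := Nat.cast_pos.mpr finrank_pos
  have h15 : ((Fintype.card F : ℝ) ^ (r + 2) - 1) * d ^ 2 ≤ ((Fintype.card F - 1) * d +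
      (Fintype.card F ^ (r + 2) - Fintype.card F) * d2) * finrank ℂ M := by
    rw [← Complex.ofReal_natCast, ← Complex.ofReal_natCast (finrank ℂ M),
      ← Complex.ofReal_natCast d, ← Complex.ofReal_natCast (Fintype.card F), ← Complex.ofReal_div,
      ← Complex.ofReal_one, ← Complex.ofReal_add, ← Complex.ofReal_sub, ← Complex.ofReal_mul,
      Complex.norm_real] at h12
    replace h12 := (Real.le_norm_self _).trans h12
    push_cast [h13, h13.trans' hq.le] at h12
    field_simp at h12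
    linarith
  zify
  refine sl_arith (r := r) (d1 := d) (d2 := d2) (by omega) rfl ?_ ?_ (fun e => ?_) ?_
    (by exact_mod_cast h11) ?_ ?_
  · zify [hq.le] at hN
    linear_combination -hN
  · exact_mod_cast Nat.le_self_pow (by omega) _
  · have e' : Fintype.card F = 2 := by exact_mod_cast e
    have : 3 ≤ r := by
      rcases hc with h | ⟨-, b, b0, b1⟩ | ⟨-, b, b0, b1⟩
      · omega
      all_goals
        have := FiniteField.pow_card_sub_one_eq_one b b0
        rw [e'] at this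
        simp_all
    rw [e]
    exact pow_le_pow_right₀ (a := (2 : ℤ)) one_le_two this
  · zify at h4
    linear_combination h4
  · have := Int.natCast_dvd_natCast.mpr (H6.nat_dvd_of_isIntegral_div finrank_pos.ne' h10)
    push_cast [h13.trans' hq.le] at this
    convert this using 2 <;> ring
  · have : ((Fintype.card F : ℤ) ^ (r + 2) - 1) * d ^ 2 ≤ ((Fintype.card F - 1) * d +
      (Fintype.card F ^ (r + 2) - Fintype.card F) * d2) * finrank ℂ M := by exact_mod_cast h15
    convert this using 2 <;> ring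

end Cfsg.Agent.H11
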