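import Mathlib
import Cfsg.Agent.H11.LS4
import Cfsg.Agent.H6.Square

/-!
# Decomposition of permutation characters
-/

set_option autoImplicit false

namespace Cfsg.Agent.H11

open H6

variable {G : Type*} [Group G] [Fintype G]

theorem irr_of_norm_le {ι : Type*} [Fintype ι] {φ : ι → G → ℂ} (h : ∀ i, IsCharacter G (φ i))
    (h0 : ∀ i, φ i ≠ 0) {n : ℕ} (h1 : classInner (∑ i, φ i) (∑ i, φ i) = n)
    (h2 : n ≤ Fintype.card ι) : (∀ i, IsIrrCharacter G (φ i)) ∧ Function.Injective φ := by
  classical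
  choose m hm using fun i j => classInner_nat (h i) (h j)
  simp only [classInner_sum_left, classInner_sum_right, hm] at h1
  have h3 : ∀ i, 1 ≤ m i i := fun i => Nat.pos_of_ne_zero fun e => h0 i
    (classInner_self_eq_zero.mp (by rw [hm, e, Nat.cast_zero]))
  have h4 := (Finset.sum_eq_sum_iff_of_le (s := Finset.univ) (f := fun _ => 1)
    (g := fun i => ∑ j, m j i) fun i _ => (h3 i).trans (Finset.single_le_sum
      (f := fun j => m j i) (fun _ _ => Nat.zero_le _) (Finset.mem_univ i))).mp
    (le_antisymm (Finset.sum_le_sum fun i _ => (h3 i).trans (Finset.single_le_sum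
      (f := fun j => m j i) (fun _ _ => Nat.zero_le _) (Finset.mem_univ i)))
      ((show _ = n by exact_mod_cast h1).trans_le (by simpa using h2)))
  have h5 : ∀ i j, m i i + (if j = i then 0 else m j i) ≤ 1 := fun i j => by
    rw [h4 i (Finset.mem_univ i), ← Finset.add_sum_erase _ _ (Finset.mem_univ i)]
    split_ifs with e
    · omega
    · exact Nat.add_le_add_left (Finset.single_le_sum (f := fun j => m j i)
        (fun _ _ => Nat.zero_le _) (by simpa)) _
  refine ⟨fun i => isIrr_of_norm_one (h i) ?_, fun j i e => by_contra fun hne => ?_⟩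
  · have := h5 i i
    rw [hm, show m i i = 1 by have := h3 i; omega, Nat.cast_one]
  · have h6 := h5 i j
    have h7 : m j i = m i i := Nat.cast_injective (R := ℂ) (by rw [← hm, ← hm, e])
    have := h3 i
    rw [if_neg hne] at h6
    omega

theorem indFun_one_eq_sum {A : Type*} [CommGroup A] [Finite A] [Fintype (A →* ℂˣ)]
    {P S : Subgroup G} (l : P →* A) (hl : Function.Surjective l) (hS : S ≤ P)
    (h : ∀ x : P, x ∈ l.ker ↔ x.1 ∈ S) :
    indFun S (fun _ => 1) = ∑ θ : A →* ℂˣ, indFun P fun x => θ (l x) := by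
  classical
  have := Fintype.ofFinite A
  rw [← indFun_indFun P l.ker S h hS (fun _ => 1) _ fun _ => rfl, ← indFun_sum]
  congr 1
  funext x
  rw [indFun_comp_of_surjective l.ker l hl ⊥ (fun _ => Iff.rfl) (fun _ => 1), indFun_bot,
    Finset.sum_apply]
  by_cases h1 : l x = 1
  · rw [h1, regChar_one, ← CommGroup.card_monoidHom_of_hasEnoughRootsOfUnity A ℂ]
    simp
  · obtain ⟨θ, hθ⟩ := CommGroup.exists_apply_ne_one_of_hasEnoughRootsOfUnity A ℂ h1
    rw [regChar_of_ne h1]
    refine (eq_zero_of_mul_eq_self_left (Units.val_eq_one.not.mpr hθ) ?_).symm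
    rw [Finset.mul_sum]
    exact Fintype.sum_equiv (Equiv.mulLeft θ) _ _ fun _ => by simp

theorem exists_irr_decomp {A : Type*} [CommGroup A] [Finite A] {P S : Subgroup G} (l : P →* A)
    (hl : Function.Surjective l) (hS : S ≤ P) (h : ∀ x : P, x ∈ l.ker ↔ x.1 ∈ S) (hP : P ≠ ⊤)
    {n : ℕ} (h1 : classInner (indFun S fun _ => 1) (indFun S fun _ => 1) = n)
    (h2 : n ≤ Nat.card A + 1) : ∃ χ : Fin (Nat.card A) → G → ℂ, (∀ i, IsIrrCharacter G (χ i)) ∧
      Function.Injective χ ∧ ∀ g, indFun S (fun _ => 1) g = 1 + ∑ i, χ i g := by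
  classical
  have hc := CommGroup.card_monoidHom_of_hasEnoughRootsOfUnity A ℂ
  have : Finite (A →* ℂˣ) := Nat.finite_of_card_ne_zero (hc ▸ Nat.card_pos.ne')
  have := Fintype.ofFinite (A →* ℂˣ)
  let φ : Option (A →* ℂˣ) → G → ℂ := fun o => o.elim (fun _ => 1) fun θ =>
    (indFun P fun x => θ (l x)) - if θ = 1 then (fun _ => 1 : G → ℂ) else 0
  have h3 : indFun S (fun _ => 1) = ∑ o, φ o := by
    simp [φ, indFun_one_eq_sum l hl hS h]
  have := irr_of_norm_le (φ := φ) ?_ ?_ (h3 ▸ h1)
    (by simpa [← Nat.card_eq_fintype_card, hc] using h2)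
  · obtain ⟨h4, h5⟩ := this
    let e := Finite.equivFinOfCardEq hc
    refine ⟨fun i => φ (some (e.symm i)), fun _ => h4 _, fun i j h => by simpa using h5 h,
      fun g => ?_⟩
    rw [h3, Fintype.sum_option, Pi.add_apply, Finset.sum_apply]
    exact congrArg _ (e.symm.sum_comp fun θ => φ (some θ) g).symm
  · rintro (_ | θ)
    · exact isCharacter_one
    have := isCharacter_indFun P (isCharacter_linear (θ.comp l))
    by_cases h0 : θ = 1
    · simp only [φ, Option.elim, if_pos h0]
      refine isCharacter_sub_irr this isIrr_one ?_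
      rw [classInner_indFun_left P _ (isClassFunction_const 1)]
      simp [h0, classInner_one_one]
    · simpa [φ, h0] using this
  · rintro (_ | θ) e <;> replace e := congrFun e 1
    · simp [φ] at e
    · by_cases h0 : θ = 1 <;> simp [φ, h0, indFun_one, sub_eq_zero, hP,
        Subgroup.FiniteIndex.index_ne_zero] at e

end Cfsg.Agent.H11
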