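import Mathlib
import Cfsg.Agent.H26.Lf1
import Cfsg.Agent.H4.Transfer2

namespace Cfsg.Agent.H26.Lf
open Subgroup
universe u
variable {G : Type u} [Group G] [Finite G] {S A B : Subgroup G}

omit [Finite G] in
theorem mid_two {H K : Subgroup G} (h : H.relIndex K = 2) {x y : G} (hx : x ∈ K) (hy : y ∈ K)
    (hxH : x ∉ H) (hyH : y ∉ H) : x * y ∈ H := by
  have := (mul_mem_iff_of_index_two (H := H.subgroupOf K) h (a := ⟨x, hx⟩) (b := ⟨y, hy⟩)).2
    (by simp [mem_subgroupOf, hxH, hyH])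
  exact this

theorem mid_dvd (S N : Subgroup G) [N.Normal] : S.relIndex N ∣ S.index := by
  have e1 : S.relIndex N * N.index = (S ⊓ N).index := by
    rw [← inf_relIndex_right S N]; exact relIndex_mul_index inf_le_right
  have e2 : N.relIndex S * S.index = (S ⊓ N).index := by
    rw [← inf_relIndex_left S N]; exact relIndex_mul_index inf_le_left
  have e3 : N.relIndex (S ⊔ N) * (S ⊔ N).index = N.index := relIndex_mul_index le_sup_right
  have e4 : N.relIndex (S ⊔ N) = N.relIndex S := relIndex_sup_right S N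
  have e5 : N.relIndex S ≠ 0 := index_ne_zero_of_finite
  refine ⟨(S ⊔ N).index, ?_⟩
  apply Nat.eq_of_mul_eq_mul_left (Nat.pos_of_ne_zero e5)
  rw [e2, ← e1, ← e3, e4]; ring

omit [Finite G] in
theorem mid_perf (N : Subgroup G) (hp : ⁅N, N⁆ = N) {C : Type*} [CommGroup C] (φ : N →* C)
    (x : N) : φ x = 1 := by
  have h1 : N ≤ φ.ker.map N.subtype := by
    conv_lhs => rw [← hp]
    rw [commutator_le]
    intro a ha b hb
    refine ⟨(⟨a, ha⟩ : N) * (⟨b, hb⟩ : N) * (⟨a, ha⟩ : N)⁻¹ * (⟨b, hb⟩ : N)⁻¹, ?_, rfl⟩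
    simp only [SetLike.mem_coe, MonoidHom.mem_ker, map_mul, map_inv]
    rw [mul_comm (φ _) (φ ⟨b, hb⟩)]; group
  obtain ⟨y, hy, e⟩ := h1 x.2
  have : y = x := Subtype.ext e
  rw [← this]; exact hy

theorem mid (h : St S A B) (N : Subgroup G) [N.Normal] (hp : ⁅N, N⁆ = N) (hZ : A ⊓ B ≤ N) :
    A ⊓ N ≤ B ∨ A ≤ N := by
  by_contra hc
  push Not at hc
  obtain ⟨h1, h2⟩ := hc
  obtain ⟨a, ⟨ha, haN⟩, haB⟩ := SetLike.not_le_iff_exists.1 h1
  obtain ⟨a', ha', ha'N⟩ := SetLike.not_le_iff_exists.1 h2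
  have hN : N.Normal := inferInstance
  have r4 : (A ⊓ B).relIndex A = 4 := by
    have := ((A ⊓ B).subgroupOf A).card_mul_index
    rw [Nat.card_congr (subgroupOfEquivOfLe inf_le_left).toEquiv, h.cZ, h.cA] at this
    show ((A ⊓ B).subgroupOf A).index = 4
    omega
  have rm := relIndex_mul_relIndex (A ⊓ B) (A ⊓ N) A (le_inf inf_le_left hZ) inf_le_left
  have n1 : (A ⊓ B).relIndex (A ⊓ N) ≠ 1 := fun e =>
    haB (relIndex_eq_one.1 e (show a ∈ A ⊓ N from ⟨ha, haN⟩)).2
  have n2 : (A ⊓ N).relIndex A ≠ 1 := fun e => ha'N (relIndex_eq_one.1 e ha').2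
  rw [r4] at rm
  have r2 : (A ⊓ B).relIndex (A ⊓ N) = 2 ∧ (A ⊓ N).relIndex A = 2 := by
    have : (A ⊓ B).relIndex (A ⊓ N) ∣ 4 := ⟨_, rm.symm⟩
    have hle := Nat.le_of_dvd (by norm_num) this
    interval_cases hh : (A ⊓ B).relIndex (A ⊓ N) <;> omega
  have a1 : a ≠ 1 := fun e => haB (e ▸ B.one_mem)
  -- `a` is not fused into `Z`
  have c1 : ∀ z ∈ A ⊓ B, ¬ IsConj a z := by
    intro z hz hc
    obtain ⟨g, hg, e⟩ := h.fusA ha hz.1 hc
    have key : ∀ w ∈ A ⊓ B, w ≠ 1 → g * w * g⁻¹ ∉ A ⊓ B := by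
      intro w hw hw1 hgw
      have hgZ := h.ti hg hw hw1 hgw
      have := (mem_normalizer_iff.1 hgZ a).2 (e ▸ hz)
      exact haB this.2
    obtain ⟨z1, hz1, hz11⟩ := h.exZ
    have : ∃ z2 ∈ A ⊓ B, z2 ≠ 1 ∧ z2 ≠ z1 := by
      by_contra hcc
      push Not at hcc
      have hsub : ((A ⊓ B : Subgroup G) : Set G) ⊆ {1, z1} := by
        intro x hx
        by_cases e1 : x = 1
        · exact Or.inl e1
        · exact Or.inr (hcc x hx e1)
      have h3 := Set.ncard_le_ncard hsub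
      have h4 : ((A ⊓ B : Subgroup G) : Set G).ncard = 4 := h.cZ
      have h5 : ({1, z1} : Set G).ncard ≤ 2 := by
        have := Set.ncard_insert_le (1 : G) {z1}
        rwa [Set.ncard_singleton] at this
      omega
    obtain ⟨z2, hz2, hz21, hz22⟩ := this
    have m : ∀ w ∈ A ⊓ B, g * w * g⁻¹ ∈ A ⊓ N := fun w hw =>
      ⟨(mem_normalizer_iff.1 hg w).1 hw.1, hN.conj_mem _ (hZ hw) g⟩
    have := mid_two r2.1 (m z1 hz1) (m z2 hz2) (key z1 hz1 hz11) (key z2 hz2 hz21)
    refine key (z1 * z2) ((A ⊓ B).mul_mem hz1 hz2) ?_ (by simpa [mul_assoc] using this)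
    intro e1
    apply hz22
    rw [← h.invA hz1.1]
    exact (inv_eq_of_mul_eq_one_right e1).symm
  have c2 : ∀ b ∈ B, ¬ IsConj a b := fun b hb hc => by
    obtain ⟨z, hz, hc'⟩ := h.notfus ha hb hc
    exact c1 z hz hc'
  -- the maximal subgroup `M0 = B⟨a'⟩`
  let M0 : Subgroup G :=
    { carrier := {s | s ∈ B ∨ a' * s ∈ B}
      one_mem' := Or.inl B.one_mem
      mul_mem' := by
        rintro s t (hs | hs) (ht | ht)
        · exact Or.inl (B.mul_mem hs ht)
        · right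
          have := B.mul_mem (h.conjB (h.leA ha') hs) ht
          simpa [mul_assoc] using this
        · right
          have := B.mul_mem hs ht
          simpa [mul_assoc] using this
        · left
          have := B.mul_mem (h.conjB (h.leA (A.inv_mem ha')) hs) ht
          have e : a'⁻¹ * (a' * s) * a'⁻¹⁻¹ * (a' * t) = s * (a' * a') * t := by group
          rw [e, h.sqA a' ha', mul_one] at this
          exact this
      inv_mem' := by
        rintro s (hs | hs)
        · exact Or.inl (B.inv_mem hs)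
        · right
          have := h.conjB (h.leA ha') (B.inv_mem hs)
          have e : a' * (a' * s)⁻¹ * a'⁻¹ = a' * s⁻¹ * (a' * a')⁻¹ := by group
          rw [e, h.sqA a' ha', inv_one, mul_one] at this
          exact this }
  have hBM : ∀ s ∈ B, s ∈ M0 := fun s hs => Or.inl hs
  have ha'M : a' ∈ M0 := Or.inr (by rw [h.sqA a' ha']; exact B.one_mem)
  have mA : ∀ x ∈ A, x ∈ N → x ∈ M0 → x ∈ B := by
    rintro x hx hxN (hx' | hx')
    · exact hx'
    · exfalso
      have : a' * x ∈ N := hZ ⟨A.mul_mem ha' hx, hx'⟩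
      exact ha'N ((N.mul_mem_cancel_right hxN).1 this)
  have haM : a ∉ M0 := fun e => haB (mA a ha haN e)
  have dec : ∀ s ∈ S, a * s ∈ M0 ∨ s ∈ M0 := by
    intro s hs
    obtain ⟨x, hx, b, hb, rfl⟩ := h.mem_iff.1 hs
    have d0 : ∀ y ∈ A ⊓ N, a * y ∈ M0 ∨ y ∈ M0 := fun y hy => by
      by_cases e : y ∈ A ⊓ B
      · exact Or.inr (hBM y e.2)
      · exact Or.inl (hBM _ (mid_two r2.1 (show a ∈ A ⊓ N from ⟨ha, haN⟩) hy
          (fun e => haB e.2) e).2)
    have d1 : a * x ∈ M0 ∨ x ∈ M0 := by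
      by_cases e : x ∈ A ⊓ N
      · exact d0 x e
      · have := mid_two r2.2 hx ha' e (fun e => ha'N e.2)
        rcases d0 _ this with h3 | h3
        · left
          rw [← mul_assoc] at h3
          exact (M0.mul_mem_cancel_right ha'M).1 h3
        · right
          exact (M0.mul_mem_cancel_right ha'M).1 h3
    rcases d1 with h3 | h3
    · left
      rw [← mul_assoc]; exact M0.mul_mem h3 (hBM b hb)
    · exact Or.inr (M0.mul_mem h3 (hBM b hb))
  have hodd : Odd (S.subgroupOf N).index := by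
    rw [← Nat.not_even_iff_odd, even_iff_two_dvd]
    exact fun e => h.odd (e.trans (mid_dvd S N))
  have hQ : ((M0 ⊓ S).subgroupOf N).relIndex (S.subgroupOf N) = 2 := by
    rw [relIndex_eq_two_iff_exists_notMem_and']
    refine ⟨⟨a, haN⟩, h.leA ha, fun e => haM e.1, fun s hs => ?_⟩
    rcases dec s hs with h3 | h3
    · exact Or.inl ⟨h3, S.mul_mem (h.leA ha) hs⟩
    · exact Or.inr ⟨h3, hs⟩
  obtain ⟨M, hM, hMi, haM'⟩ := H4.thompson_transfer hodd hQ (u := ⟨a, haN⟩)
    (by ext; simpa [pow_two] using h.sqA a ha) (by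
      intro g hg
      have hg' : (g : G) * a * (g : G)⁻¹ ∈ M0 ⊓ S := hg
      have hcj : IsConj a ((g : G) * a * (g : G)⁻¹) := isConj_iff.2 ⟨g, rfl⟩
      have hsq : ((g : G) * a * (g : G)⁻¹) * ((g : G) * a * (g : G)⁻¹) = 1 := by
        have e : ((g : G) * a * (g : G)⁻¹) * ((g : G) * a * (g : G)⁻¹) = g * (a * a) * (g : G)⁻¹ := by
          group
        rw [e, h.sqA a ha]; group
      rcases h.invol hg'.2 hsq with h3 | h3
      · exact c2 _ (mA _ h3 (hN.conj_mem _ haN g) hg'.1) hcj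
      · exact c2 _ h3 hcj)
  have hcomm : ∀ x y : N ⧸ M, x * y = y * x := by
    have hc : Nat.card (N ⧸ M) = 2 := hMi
    haveI : Fact (Nat.Prime 2) := ⟨Nat.prime_two⟩
    haveI := isCyclic_of_prime_card hc
    exact fun x y => (IsCyclic.commGroup (α := N ⧸ M)).mul_comm x y
  letI : CommGroup (N ⧸ M) := { (inferInstance : Group (N ⧸ M)) with mul_comm := hcomm }
  have := mid_perf N hp (QuotientGroup.mk' M) ⟨a, haN⟩
  exact haM' ((QuotientGroup.eq_one_iff _).1 this)

end Cfsg.Agent.H26.Lf
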