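import Mathlib
import Cfsg.Agent.H11.Lfmid
import Cfsg.Agent.H2.Cores
import Cfsg.Agent.S0215

namespace Cfsg.Agent.H26.Lf
open Subgroup
universe u
variable {G : Type u} [Group G] [Finite G] {S A B : Subgroup G}

omit [Finite G] in
theorem notOm_odd_mem {S N : Subgroup G} [N.Normal]
    (hS : IsPGroup 2 S) (hK : N ⊔ S = ⊤) {ρ : G} (ho : Odd (orderOf ρ)) : ρ ∈ N := by
  have hρ : ρ ∈ N ⊔ S := hK ▸ mem_top ρ
  obtain ⟨n, hn, s, hs, rfl⟩ := mem_sup_of_normal_left.1 hρ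
  obtain ⟨k, hk⟩ := hS ⟨s, hs⟩
  have hk' : s ^ 2 ^ k = 1 := by simpa using congrArg Subtype.val hk
  have h1 : (QuotientGroup.mk (n * s) : G ⧸ N) = QuotientGroup.mk s := by
    rw [QuotientGroup.mk_mul, (QuotientGroup.eq_one_iff n).2 hn, one_mul]
  have h2 : orderOf (QuotientGroup.mk (n * s) : G ⧸ N) ∣ 2 ^ k := by
    rw [h1, orderOf_dvd_iff_pow_eq_one, ← QuotientGroup.mk_pow, hk', QuotientGroup.mk_one]
  have h3 : orderOf (QuotientGroup.mk (n * s) : G ⧸ N) ∣ orderOf (n * s) :=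
    orderOf_map_dvd (QuotientGroup.mk' N) (n * s)
  have h4 : Nat.Coprime (2 ^ k) (orderOf (n * s)) :=
    Nat.Coprime.pow_left _ (Nat.coprime_two_left.2 ho)
  have h5 := Nat.eq_one_of_dvd_coprimes h4 h2 h3
  exact (QuotientGroup.eq_one_iff _).1 (orderOf_eq_one_iff.1 h5)

theorem notOm_core (h : St S A B) (N : Subgroup G) [hN : N.Normal] (hK : N ⊔ S = ⊤)
    (hO : ∀ K : Subgroup G, K.Normal → Odd (Nat.card K) → K ≤ N → K = ⊥)
    (hZ : A ⊓ B ≤ N) (hA : A ⊓ N ≤ B) (hB : B ⊓ N ≤ A) :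
    (∀ z ∈ A ⊓ B, ∀ g : G, g * z = z * g) ∧
      ∀ g ∈ normalizer ((S ⊓ N : Subgroup G) : Set G), ∀ r ∈ S, r ∈ N →
        g * r * g⁻¹ * r⁻¹ ∈ A ⊓ B := by
  haveI : Fact (Nat.Prime 2) := ⟨Nat.prime_two⟩
  -- `N(S) = S C(S)`
  have nS : ∀ n ∈ normalizer (S : Set G), ∃ ρ : G, ∃ s ∈ S, (∀ t ∈ S, ρ * t = t * ρ) ∧ n = ρ * s := by
    intro n hn
    obtain ⟨ρ, hρ, s, hs, ho, e⟩ := h.oddpart hn
    have hρN : ρ ∈ N := notOm_odd_mem h.pS hK ho
    have hρS : ρ ∈ normalizer (S : Set G) := (zpowers_le.2 hn) hρ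
    have key : ∀ t : G, ρ * t * ρ⁻¹ * t⁻¹ ∈ N := fun t => by
      have := mul_mem hρN (hN.conj_mem _ (inv_mem hρN) t)
      simpa [mul_assoc] using this
    refine ⟨ρ, s, hs, h.triAB hρS ho (fun a ha => hA ⟨?_, key a⟩) (fun b hb => hB ⟨?_, key b⟩), e⟩
    · exact A.mul_mem ((mem_normalizer_iff.1 (h.nA hρS) a).1 ha) (A.inv_mem ha)
    · exact B.mul_mem ((mem_normalizer_iff.1 (h.nB hρS) b).1 hb) (B.inv_mem hb)
  have cen : ∀ z ∈ A ⊓ B, ∀ g : G, g * z = z * g := by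
    intro z hz g
    by_cases hz1 : z = 1
    · simp [hz1]
    have hz2 : orderOf z = 2 := orderOf_eq_prime (by rw [pow_two]; exact h.sqA z hz.1) hz1
    obtain ⟨K, hKn, hKo, hKc⟩ := Cfsg.Agent.S0215.result h.syl z hz2 (h.leZ hz) (by
      intro g hg
      have hg' : g * z * g⁻¹ ∈ S := hg
      have hgN : g * z * g⁻¹ ∈ N := hN.conj_mem _ (hZ hz) g
      have hsq : (g * z * g⁻¹) * (g * z * g⁻¹) = 1 := by
        have e : (g * z * g⁻¹) * (g * z * g⁻¹) = g * (z * z) * g⁻¹ := by group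
        rw [e, h.sqA z hz.1]; group
      have hgZ : g * z * g⁻¹ ∈ A ⊓ B := by
        rcases h.invol hg' hsq with h3 | h3
        · exact ⟨h3, hA ⟨h3, hgN⟩⟩
        · exact ⟨hB ⟨h3, hgN⟩, h3⟩
      obtain ⟨n, hn, e⟩ := h.syl.conj_eq_normalizer_conj_of_mem_centralizer z g⁻¹
        (fun s hs => h.cenZ hs hz) (fun s hs => by
          rw [inv_inv]; exact h.cenZ hs hgZ)
      rw [inv_inv] at e
      obtain ⟨ρ, s, hs, hρ, rfl⟩ := nS n hn
      rw [e]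
      have e1 : z * (ρ * s) = (ρ * s) * z := by
        rw [← mul_assoc, ← hρ z (h.leZ hz), mul_assoc, ← h.cenZ hs hz, mul_assoc]
      rw [mul_assoc, e1]; group)
    have hKN : K ≤ N := fun k hk =>
      notOm_odd_mem h.pS hK (hKo.of_dvd_nat (K.orderOf_dvd_natCard hk))
    have := hKc g
    rw [hO K hKn hKo hKN, mem_bot] at this
    calc g * z = (z * g * z⁻¹ * g⁻¹) * (g * z) := by rw [this, one_mul]
      _ = z * g := by group
  refine ⟨cen, fun g hg r hr hrN => ?_⟩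
  have hgZ : g ∈ normalizer ((A ⊓ B : Subgroup G) : Set G) := by
    rw [mem_normalizer_iff]
    intro x
    constructor
    · intro hx
      rw [cen x hx g]; simpa using hx
    · intro hx
      have := cen _ hx g
      have e : x = g * x * g⁻¹ := by
        calc x = g⁻¹ * (g * x * g⁻¹ * g) := by group
          _ = g * x * g⁻¹ := by rw [← this]; group
      rw [e]; exact hx
  obtain ⟨n, hn, c, hc, rfl⟩ := h.chain (R := S ⊓ N) (le_inf h.leZ hZ) inf_le_left hg hgZ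
  obtain ⟨ρ, s, hs, hρ, rfl⟩ := nS n hn
  have e1 : r * c = c * r := hc r ⟨hr, hrN⟩
  have e2 := hρ _ (S.mul_mem (S.mul_mem hs hr) (S.inv_mem hs))
  have e : ρ * s * c * r * (ρ * s * c)⁻¹ * r⁻¹ = s * r * s⁻¹ * r⁻¹ := by
    calc ρ * s * c * r * (ρ * s * c)⁻¹ * r⁻¹ = ρ * s * (c * r) * c⁻¹ * s⁻¹ * ρ⁻¹ * r⁻¹ := by group
      _ = (ρ * (s * r * s⁻¹)) * ρ⁻¹ * r⁻¹ := by rw [← e1]; group
      _ = _ := by rw [e2]; group
  rw [e]
  exact h.comS hs hr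

theorem notOm (h : St S A B) (hO : ∀ K : Subgroup G, K.Normal → Odd (Nat.card K) → K = ⊥)
    (N : Subgroup G) [N.Normal] (hp : ⁅N, N⁆ = N) (hZ : A ⊓ B ≤ N)
    (hA : A ⊓ N ≤ B) (hB : B ⊓ N ≤ A) : S ⊓ N ≤ A ⊓ B := by
  haveI : Fact (Nat.Prime 2) := ⟨Nat.prime_two⟩
  have hN : N.Normal := inferInstance
  have hK : S ≤ N ⊔ S := le_sup_right
  have hKN : N ≤ N ⊔ S := le_sup_left
  have h' := h.sub (N ⊔ S) hK
  have hO2 : (Cfsg.pPrimeCore 2 N).map N.subtype = ⊥ := by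
    refine hO _ (H2.pPrimeCore_map_subtype_normal N) ?_
    rw [card_map_of_injective N.subtype_injective]
    exact Nat.coprime_two_right.1 H2.pPrimeCore_coprime
  obtain ⟨c1, c2⟩ := notOm_core h' (N.subgroupOf (N ⊔ S)) (by
      rw [← subgroupOf_sup le_sup_left le_sup_right, subgroupOf_self]) (by
      intro K hKn hKo hle
      have hle' : K.map (N ⊔ S).subtype ≤ N := by
        rintro _ ⟨x, hx, rfl⟩; exact hle hx
      have hn : ((K.map (N ⊔ S).subtype).subgroupOf N).Normal := by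
        refine ⟨fun x hx g => ?_⟩
        obtain ⟨y, hy, e⟩ := hx
        refine ⟨_, hKn.conj_mem y hy ⟨g, hKN g.2⟩, ?_⟩
        have e' : (y : G) = x := e
        show (g : G) * y * (g : G)⁻¹ = g * x * (g : G)⁻¹
        rw [e']
      have hc : (Nat.card ((K.map (N ⊔ S).subtype).subgroupOf N)).Coprime 2 := by
        rw [Nat.card_congr (subgroupOfEquivOfLe hle').toEquiv,
          card_map_of_injective (N ⊔ S).subtype_injective]
        exact Nat.coprime_two_right.2 hKo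
      have h3 := H2.le_pPrimeCore hc
      rw [eq_bot_iff]
      intro x hx
      have h4 : (x : G) ∈ (Cfsg.pPrimeCore 2 N).map N.subtype :=
        ⟨⟨x, hle hx⟩, h3 ⟨x, hx, rfl⟩, rfl⟩
      rw [hO2, mem_bot] at h4
      exact mem_bot.2 (Subtype.ext h4))
    (fun x hx => hZ (show (x : G) ∈ A ⊓ B from hx)) (fun x hx => hA ⟨hx.1, hx.2⟩)
    (fun x hx => hB ⟨hx.1, hx.2⟩)
  have F1 : ∀ z ∈ A ⊓ B, ∀ g ∈ N, g * z = z * g := fun z hz g hg =>
    congrArg Subtype.val (c1 ⟨z, hK (h.leZ hz)⟩ hz ⟨g, hKN hg⟩)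
  have F2 : ∀ g ∈ N, (∀ r ∈ S, r ∈ N → g * r * g⁻¹ ∈ S) → ∀ r ∈ S, r ∈ N →
      g * r * g⁻¹ * r⁻¹ ∈ A ⊓ B := fun g hg hgn r hr hrN =>
    c2 ⟨g, hKN hg⟩ (nm_of fun x hx => ⟨hgn x hx.1 hx.2, hN.conj_mem _ hx.2 g⟩) ⟨r, hK hr⟩ hr hrN
  let Z' : Subgroup N := (A ⊓ B).subgroupOf N
  haveI hZ' : Z'.Normal := ⟨fun x hx g => by
    have : (g : G) * x * (g : G)⁻¹ = x := by rw [F1 x hx g g.2]; group
    show (g : G) * x * (g : G)⁻¹ ∈ A ⊓ B
    rw [this]; exact hx⟩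
  have hodd : ¬ 2 ∣ (S.subgroupOf N).index := fun e => h.odd (e.trans (mid_dvd S N))
  have hpS : IsPGroup 2 (S.subgroupOf N) := h.pS.comap_subtype
  let f := QuotientGroup.mk' Z'
  have hf : Function.Surjective f := QuotientGroup.mk'_surjective Z'
  let P : Sylow 2 (N ⧸ Z') := (hpS.map f).toSylow
    (fun e => hodd (e.trans (index_map_dvd _ hf)))
  have hPm : ∀ x : N, f x ∈ (P : Subgroup (N ⧸ Z')) → (x : G) ∈ S := by
    rintro x ⟨y, hy, e⟩
    have e1 : y⁻¹ * x ∈ Z' := QuotientGroup.eq.1 e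
    have e2 : (y : G)⁻¹ * x ∈ S := h.leZ e1
    exact (S.mul_mem_cancel_left (S.inv_mem hy)).1 e2
  have hP : normalizer ((P : Subgroup (N ⧸ Z')) : Set (N ⧸ Z')) ≤
      centralizer ((P : Subgroup (N ⧸ Z')) : Set (N ⧸ Z')) := by
    intro q hq
    obtain ⟨g, rfl⟩ := hf q
    rintro _ ⟨r, hr, rfl⟩
    have := F2 g g.2 (fun t ht htN => by
      have h3 : f ⟨t, htN⟩ ∈ (P : Subgroup (N ⧸ Z')) := ⟨⟨t, htN⟩, ht, rfl⟩
      have h4 := (mem_normalizer_iff.1 hq _).1 h3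
      rw [← map_inv, ← map_mul, ← map_mul] at h4
      exact hPm _ h4) r hr r.2
    have h5 : f (g * r * g⁻¹ * r⁻¹) = 1 := (QuotientGroup.eq_one_iff _).2 this
    rw [map_mul, map_mul, map_mul, map_inv, map_inv] at h5
    calc f r * f g = (f g * f r * (f g)⁻¹ * (f r)⁻¹) * (f r * f g) := by rw [h5, one_mul]
      _ = f g * f r := by group
  have hc := MonoidHom.ker_transferSylow_isComplement' P hP
  letI : CommGroup (P : Subgroup (N ⧸ Z')) :=
    { (inferInstance : Group (P : Subgroup (N ⧸ Z'))) with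
      mul_comm := fun a b => Subtype.ext (hP (le_normalizer b.2) a a.2) }
  intro r hr
  have h6 := mid_perf N hp ((MonoidHom.transferSylow P hP).comp f) ⟨r, hr.2⟩
  have h7 : f ⟨r, hr.2⟩ ∈ (MonoidHom.transferSylow P hP).ker ⊓ (P : Subgroup (N ⧸ Z')) :=
    ⟨h6, ⟨r, hr.2⟩, hr.1, rfl⟩
  rw [disjoint_iff.1 hc.disjoint, mem_bot] at h7
  exact (QuotientGroup.eq_one_iff (N := Z') (⟨r, hr.2⟩ : N)).1 h7

end Cfsg.Agent.H26.Lf
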