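import Cfsg.Agent.L1.Se0

set_option autoImplicit false
set_option linter.unusedVariables false
set_option linter.unusedSectionVars false

namespace Cfsg.Agent.L1Se

open Subgroup Equiv

universe u

variable {G : Type u} [Group G] [Finite G] {f : Perm (Fin 8) →* G}

theorem pA5_ct {p : Perm (Fin 8)} (h1 : p * p = 1) (h2 : p ≠ 1) :
    ∃ n, p.cycleType = Multiset.replicate (n + 1) 2 ∧ p.support.card = 2 * (n + 1) := by
  have ho : orderOf p = 2 := orderOf_eq_prime (by rw [pow_two, h1]) h2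
  obtain ⟨n, hn⟩ := Perm.cycleType_prime_order (σ := p) (by rw [ho]; exact Nat.prime_two)
  rw [ho] at hn
  refine ⟨n, hn, ?_⟩
  rw [← Perm.sum_cycleType, hn, Multiset.sum_replicate, smul_eq_mul, mul_comm]

theorem pA5_cj {p q : Perm (Fin 8)} (h1 : p * p = 1) (h2 : p ≠ 1) (k1 : q * q = 1) (k2 : q ≠ 1)
    (e : p.support.card = q.support.card) : ∃ c, c * q * c⁻¹ = p := by
  obtain ⟨n, a, b⟩ := pA5_ct h1 h2
  obtain ⟨m, a', b'⟩ := pA5_ct k1 k2
  have : n = m := by omega
  subst this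
  exact isConj_iff.1 (Perm.isConj_iff_cycleType_eq.2 (a'.trans a.symm))

theorem pA5_cls {p : Perm (Fin 8)} (h1 : p * p = 1) (h2 : p ≠ 1) :
    (∃ c, c * swap 6 7 * c⁻¹ = p) ∨ (∃ c, c * (swap 0 1 * swap 2 3) * c⁻¹ = p) ∨
    (∃ c, c * (swap 0 1 * swap 2 3 * swap 4 5) * c⁻¹ = p) ∨
    (∃ c, c * (swap 0 1 * swap 2 3 * swap 4 5 * swap 6 7) * c⁻¹ = p) := by
  obtain ⟨n, -, b⟩ := pA5_ct h1 h2
  have hle : p.support.card ≤ 8 := by simpa using Finset.card_le_univ p.support
  have hn : n = 0 ∨ n = 1 ∨ n = 2 ∨ n = 3 := by omega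
  rcases hn with rfl | rfl | rfl | rfl
  · exact .inl (pA5_cj h1 h2 (by decide) (by decide) (by rw [b]; decide))
  · exact .inr (.inl (pA5_cj h1 h2 (by decide) (by decide) (by rw [b]; decide)))
  · exact .inr (.inr (.inl (pA5_cj h1 h2 (by decide) (by decide) (by rw [b]; decide))))
  · exact .inr (.inr (.inr (pA5_cj h1 h2 (by decide) (by decide) (by rw [b]; decide))))

theorem pA5_root (x : Perm (Fin 8)) : x ^ 4 ≠ swap 0 1 * swap 2 3 := fun e => by
  set d : Perm (Fin 8) := swap 0 1 * swap 2 3 with hd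
  have hc : ∀ a, d (x a) = x (d a) := fun a => by
    rw [← e, ← Perm.mul_apply, ← Perm.mul_apply, ← pow_succ, ← pow_succ']
  have h4 : x (x (x (x 0))) = 1 := by
    have : (x ^ 4) 0 = 1 := by rw [e, hd]; decide
    simpa [pow_succ] using this
  have d0 : d 0 = 1 := by rw [hd]; decide
  have d1 : d 1 = 0 := by rw [hd]; decide
  have key : ∀ a b : Fin 8, d a ≠ a → d b ≠ b → a ≠ 0 → b ≠ 0 → a ≠ 1 → b ≠ a → b ≠ d a → b = 1 := by
    rw [hd]; decide
  have n1 : d (x 0) ≠ x 0 := by rw [hc, d0]; exact fun e => by simpa using x.injective e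
  have n2 : d (x (x 0)) ≠ x (x 0) := by rw [hc]; exact fun e => n1 (x.injective e)
  have n4 : x (x 0) ≠ 0 := fun e => by rw [e, e] at h4; exact absurd h4 (by decide)
  have n3 : x 0 ≠ 0 := fun e => n4 (by rw [e, e])
  have n5 : x 0 ≠ 1 := fun e => n4 (by rw [e, ← d0, ← hc, e, d1])
  have n6 : x (x 0) ≠ x 0 := fun e => n3 (x.injective e)
  have n7 : x (x 0) ≠ d (x 0) := fun e => n5 (x.injective (by rw [e, hc, d0]))
  have e2 := key _ _ n1 n2 n3 n4 n5 n6 n7
  rw [e2, ← d0, ← hc, ← hc, e2, d1, d0] at h4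
  exact absurd h4 (by decide)

theorem pA5_tr {c p q : Perm (Fin 8)} (e : c * q * c⁻¹ = p) (hq : ∀ g, Commute g (f q) → g ∈ f.range)
    {s : G} (hs : Commute s (f p)) : s ∈ f.range := by
  have h1 : (f c)⁻¹ * s * f c ∈ f.range := hq _ (by
    rw [← e, map_mul, map_mul, map_inv] at hs
    have := hs.eq
    show (f c)⁻¹ * s * f c * f q = f q * ((f c)⁻¹ * s * f c)
    calc (f c)⁻¹ * s * f c * f q = (f c)⁻¹ * (s * (f c * f q * (f c)⁻¹)) * f c := by group
      _ = _ := by rw [this]; group)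
  have h2 := mul_mem (mul_mem (f.mem_range.2 ⟨c, rfl⟩) h1) (inv_mem (f.mem_range.2 ⟨c, rfl⟩))
  simpa [mul_assoc] using h2

theorem pA5_mem (h : SH f) (hf : FU f) (hd : CD f) (hn : CN f) (g : G) :
    g * f (swap 6 7) * g⁻¹ ∈ f.range := by
  set s := g * f (swap 6 7) * g⁻¹ with hs
  set d := f (swap 0 1 * swap 2 3) with hdd
  have ss : s * s = 1 := by
    rw [hs, conj_mul, ← map_mul, swap_mul_self, map_one]; group
  have dd : d * d = 1 := by
    rw [hdd, ← map_mul, show (swap 0 1 * swap 2 3 * (swap 0 1 * swap 2 3) : Perm (Fin 8)) = 1 by decide,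
      map_one]
  set r := s * d with hr
  have si : s⁻¹ = s := inv_eq_of_mul_eq_one_right ss
  have di : d⁻¹ = d := inv_eq_of_mul_eq_one_right dd
  have h0 : SemiconjBy s r⁻¹ r := by
    show s * r⁻¹ = r * s
    rw [hr, mul_inv_rev, si, di]
    exact (mul_assoc _ _ _).symm
  have h1 : ∀ j : ℕ, s * (r ^ j)⁻¹ = r ^ j * s := fun j => by
    rw [← inv_pow]; exact h0.pow_right j
  have key : ∀ j : ℕ, (r ^ j * g) * f (swap 6 7) * (r ^ j * g)⁻¹ = r ^ (2 * j) * s := fun j => by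
    calc (r ^ j * g) * f (swap 6 7) * (r ^ j * g)⁻¹ = r ^ j * (s * (r ^ j)⁻¹) := by rw [hs]; group
      _ = _ := by rw [h1, ← mul_assoc, ← pow_add, two_mul]
  have dsr : d = r⁻¹ * s := by rw [hr, mul_inv_rev, si, di, mul_assoc, ss, mul_one]
  have dsr' : d = s * r := by rw [hr, ← mul_assoc, ss, one_mul]
  rcases Nat.even_or_odd' (orderOf r) with ⟨m, hm | hm⟩
  swap
  · exfalso
    have e1 : r ^ (2 * m) = r⁻¹ := by
      rw [eq_inv_iff_mul_eq_one, ← pow_succ, ← hm, pow_orderOf_eq_one]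
    have := hf _ _ ((key m).trans (by rw [e1, ← dsr]))
    exact absurd this.sign_eq (by decide)
  have hpos : 0 < orderOf r := orderOf_pos r
  have ww : r ^ m * r ^ m = 1 := by rw [← pow_add, ← two_mul, ← hm, pow_orderOf_eq_one]
  have w1 : r ^ m ≠ 1 := pow_ne_one_of_lt_orderOf (by omega) (by omega)
  have ws : Commute s (r ^ m) := by
    have := h1 m
    rwa [inv_eq_of_mul_eq_one_right ww] at this
  have wd : Commute (r ^ m) d := by
    rw [dsr']; exact ws.symm.mul_right (Commute.pow_self r m)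
  obtain ⟨p, hp⟩ := hd _ wd
  have pp : p * p = 1 := h.inj (by rw [map_mul, hp, ww, map_one])
  have p1 : p ≠ 1 := fun e => w1 (by rw [← hp, e, map_one])
  rw [← hp] at ws
  rcases pA5_cls pp p1 with ⟨c, e⟩ | ⟨c, e⟩ | ⟨c, e⟩ | ⟨c, e⟩
  · exact pA5_tr e h.cT ws
  · exact pA5_tr e hd ws
  · exact pA5_tr e hn ws
  exfalso
  have sp : Perm.sign p = 1 := by
    rw [← e, map_mul, map_mul, map_inv, mul_inv_cancel_comm]; decide
  rcases Nat.even_or_odd' m with ⟨j, hj | hj⟩
  · -- `w s` is conjugate to `s`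
    have c1 : Commute (g⁻¹ * f p * g) (f (swap 6 7)) := by
      have := ws.eq
      show g⁻¹ * f p * g * f (swap 6 7) = f (swap 6 7) * (g⁻¹ * f p * g)
      calc g⁻¹ * f p * g * f (swap 6 7) = g⁻¹ * (f p * s) * g := by rw [hs]; group
        _ = _ := by rw [← this, hs]; group
    obtain ⟨q, hq⟩ := h.cT _ c1
    have c2 : (g⁻¹ * (r ^ j * g)) * f (swap 6 7) * (g⁻¹ * (r ^ j * g))⁻¹ = f (q * swap 6 7) := by
      calc (g⁻¹ * (r ^ j * g)) * f (swap 6 7) * (g⁻¹ * (r ^ j * g))⁻¹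
          = g⁻¹ * ((r ^ j * g) * f (swap 6 7) * (r ^ j * g)⁻¹) * g := by group
        _ = _ := by rw [key, ← hj, ← hp, map_mul, hq, hs]; group
    have c3 := hf _ _ c2
    have qq : q * q = 1 := h.inj (by
      rw [map_mul, hq, map_one]
      calc g⁻¹ * f p * g * (g⁻¹ * f p * g) = g⁻¹ * (f p * f p) * g := by group
        _ = 1 := by rw [← map_mul, pp, map_one]; group)
    have q1 : q ≠ 1 := fun e1 => p1 (h.inj (by
      rw [e1, map_one] at hq
      rw [map_one]
      calc f p = g * (g⁻¹ * f p * g) * g⁻¹ := by group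
        _ = 1 := by rw [← hq]; group))
    have sq : Perm.sign q = 1 := by
      have := c3.sign_eq
      rw [map_mul, Perm.sign_swap (by decide)] at this
      simpa using this
    have hc : q.support.card = 4 := by
      obtain ⟨n, a, b⟩ := pA5_ct qq q1
      have h2 : q.support.card ≤ 4 := by
        have e3 : q = q * swap 6 7 * swap 6 7 := by rw [mul_assoc, swap_mul_self, mul_one]
        have h3 : q.support ≤ (q * swap 6 7).support ⊔ (swap (6 : Fin 8) 7).support := by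
          conv_lhs => rw [e3]
          exact Perm.support_mul_le _ _
        have h4 := (Finset.card_le_card h3).trans (Finset.card_union_le _ _)
        rw [Perm.card_support_eq_two.2 c3, Perm.card_support_swap (by decide)] at h4
        exact h4
      have h5 : q.support.card ≠ 2 := fun e2 => by
        have := (Perm.card_support_eq_two.1 e2).sign_eq
        rw [sq] at this
        exact absurd this (by decide)
      omega
    obtain ⟨k, hk⟩ := pA5_cj (q := swap 0 1 * swap 2 3) qq q1 (by decide) (by decide) (by rw [hc]; decide)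
    let c0 : Perm (Fin 8) := swap 0 2 * swap 2 4 * swap 4 6 * swap 6 1 * swap 1 3 * swap 3 5 * swap 5 7
    have hc0 : c0 ^ 4 = swap 0 1 * swap 2 3 * swap 4 5 * swap 6 7 := by decide +kernel
    have e4 : ((f k)⁻¹ * g⁻¹ * f c * f c0 * ((f k)⁻¹ * g⁻¹ * f c)⁻¹) ^ 4 = d := by
      rw [conj_pow, ← map_pow, hc0]
      have e5 : f (swap 0 1 * swap 2 3 * swap 4 5 * swap 6 7) = (f c)⁻¹ * f p * f c := by
        rw [← e, map_mul f _ c⁻¹, map_mul f c, map_inv]; group
      have e6 : d = (f k)⁻¹ * f q * f k := by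
        rw [← hk, map_mul f _ k⁻¹, map_mul f k, map_inv, hdd]; group
      rw [e5, e6, hq]; group
    obtain ⟨x, hx⟩ := hd ((f k)⁻¹ * g⁻¹ * f c * f c0 * ((f k)⁻¹ * g⁻¹ * f c)⁻¹)
      (by rw [← hdd, ← e4]; exact Commute.self_pow _ 4)
    exact pA5_root x (h.inj (by rw [map_pow, hx, e4]))
  · have c2 : (r ^ j * g) * f (swap 6 7) * (r ^ j * g)⁻¹ = f (p * (swap 0 1 * swap 2 3)) := by
      rw [key, map_mul, hp, ← hdd, dsr, hj, pow_succ]; group
    have := (hf _ _ c2).sign_eq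
    rw [map_mul, sp] at this
    exact absurd this (by decide)

theorem pA5 (h : SH f) (hf : FU f) (hd : CD f) (hn : CN f) : Function.Surjective f := by
  intro g
  obtain ⟨p, hp⟩ := pA5_mem h hf hd hn g
  obtain ⟨a, b, hab, rfl⟩ := hf _ _ hp.symm
  obtain ⟨c, hc⟩ := isConj_iff.1 (Perm.isConj_swap (show (6 : Fin 8) ≠ 7 by decide) hab)
  have h1 : (f c)⁻¹ * g ∈ f.range := h.cT _ (by
    rw [← hc, map_mul, map_mul, map_inv] at hp
    show (f c)⁻¹ * g * f (swap 6 7) = f (swap 6 7) * ((f c)⁻¹ * g)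
    calc (f c)⁻¹ * g * f (swap 6 7) = (f c)⁻¹ * (g * f (swap 6 7) * g⁻¹) * g := by group
      _ = _ := by rw [← hp]; group)
  have h2 := mul_mem (f.mem_range.2 ⟨c, rfl⟩) h1
  rw [mul_inv_cancel_left] at h2
  exact h2

end Cfsg.Agent.L1Se
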