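import Mathlib
import Cfsg.Agent.H11.LS3
import Cfsg.Agent.H6.Basic

/-!
# The Weil representation of a finite symplectic group
-/

set_option autoImplicit false

namespace Cfsg.Agent.H11

open Module Matrix

section general

variable {k : Type*} [Field k] {L : Type*} [AddCommGroup L] [Module k L] {G : Type*} [Group G]

theorem isIrreducible_of_comm [Finite G] [CharZero k] [Nontrivial L] (ρ : Representation k G L)
    (h : ∀ X : End k L, (∀ g, X * ρ g = ρ g * X) → ∃ c : k, X = c • 1) : ρ.IsIrreducible := by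
  have : NeZero (Nat.card G : k) := ⟨by simp [Nat.card_pos.ne']⟩
  have : Nontrivial (Subrepresentation ρ) :=
    ⟨⊥, ⊤, fun e => bot_ne_top (congrArg Subrepresentation.toSubmodule e)⟩
  refine ⟨fun S => ?_⟩
  obtain ⟨S', hS⟩ := exists_isCompl S
  have hc : IsCompl S.toSubmodule S'.toSubmodule :=
    ⟨disjoint_iff.mpr (congrArg Subrepresentation.toSubmodule hS.inf_eq_bot),
      codisjoint_iff.mpr (congrArg Subrepresentation.toSubmodule hS.sup_eq_top)⟩
  obtain ⟨c, e⟩ := h (Submodule.projection _ _ hc) fun g => LinearMap.ext fun v => by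
    obtain ⟨x, hx, y, hy, rfl⟩ := Submodule.mem_sup.mp (hc.sup_eq_top.ge (Submodule.mem_top (x := v)))
    simp only [End.mul_apply, map_add, Submodule.projection_apply_of_mem_left hc hx,
      Submodule.projection_apply_of_mem_left hc (S.2 g hx),
      (Submodule.projection_apply_eq_zero_iff hc).mpr hy,
      (Submodule.projection_apply_eq_zero_iff hc).mpr (S'.2 g hy), map_zero]
  by_cases h0 : c = 0
  · refine .inl (Subrepresentation.ext (eq_bot_iff.mpr fun v hv => ?_))
    rw [← Submodule.projection_apply_of_mem_left hc hv, e, h0, zero_smul]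
    exact Submodule.zero_mem _
  · refine .inr (Subrepresentation.ext (eq_top_iff.mpr fun v _ => ?_))
    simpa [e, h0] using Submodule.projection_apply_mem hc (c⁻¹ • v)

/-- The compression of an endomorphism to the image of a projection. -/
def cmpr {W : Submodule k L} {E : End k L} (h : LinearMap.IsProj W E) (T : End k L) : End k W :=
  h.codRestrict ∘ₗ T ∘ₗ W.subtype

theorem cmpr_mul {W : Submodule k L} {E : End k L} (h : LinearMap.IsProj W E) (T : End k L)
    {T' : End k L} (h' : T' * E = E * T') : cmpr h (T * T') = cmpr h T * cmpr h T' :=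
  LinearMap.ext fun v => Subtype.ext (by
    change E (T (T' v)) = E (T (E (T' v)))
    rw [← End.mul_apply E T', ← h', End.mul_apply, h.map_id _ v.2])

theorem cmpr_one {W : Submodule k L} {E : End k L} (h : LinearMap.IsProj W E) : cmpr h 1 = 1 :=
  LinearMap.ext fun v => Subtype.ext (h.map_id _ v.2)

theorem cmpr_smul {W : Submodule k L} {E : End k L} (h : LinearMap.IsProj W E) (c : k)
    (T : End k L) : cmpr h (c • T) = c • cmpr h T :=
  LinearMap.ext fun v => Subtype.ext (E.map_smul c (T v))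

theorem det_cmpr_ne_zero {W : Submodule k L} {E : End k L} (h : LinearMap.IsProj W E)
    {T : End k L} (hT : IsUnit T) (h' : T * E = E * T) : LinearMap.det (cmpr h T) ≠ 0 := by
  obtain ⟨T, rfl⟩ := hT
  refine right_ne_zero_of_mul_eq_one (a := LinearMap.det (cmpr h T⁻¹.1)) ?_
  rw [← map_mul, ← cmpr_mul h _ h', Units.inv_mul, cmpr_one, map_one]

theorem exists_lift [FiniteDimensional k L] {W W' : Submodule k L} {E : End k L}
    (h : LinearMap.IsProj W E) (h' : LinearMap.IsProj W' (1 - E))
    (hd : finrank k W' = finrank k W + 1) (I : G → End k L → Prop)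
    (hex : ∀ g, ∃ T, IsUnit T ∧ I g T) (h1 : I 1 1)
    (hm : ∀ g g' T T', I g T → I g' T' → I (g * g') (T * T'))
    (hs : ∀ g T (c : k), I g T → I g (c • T))
    (hu : ∀ g T T', I g T → I g T' → IsUnit T' → ∃ c : k, T = c • T')
    (hc : ∀ g T, I g T → T * E = E * T) : ∃ τ : Representation k G L, ∀ g, I g (τ g) := by
  have hc' : ∀ g T, I g T → T * (1 - E) = (1 - E) * T := fun g T e => by
    rw [mul_sub, sub_mul, hc g T e, mul_one, one_mul]
  have key : ∀ g, ∃ T, IsUnit T ∧ I g T ∧
      LinearMap.det (cmpr h' T) = LinearMap.det (cmpr h T) := fun g => by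
    obtain ⟨T, t1, t2⟩ := hex g
    have t3 := det_cmpr_ne_zero h t1 (hc g T t2)
    have t4 := det_cmpr_ne_zero h' t1 (hc' g T t2)
    refine ⟨(LinearMap.det (cmpr h T) / LinearMap.det (cmpr h' T)) • T,
      t1.smul (Units.mk0 _ (div_ne_zero t3 t4)), hs _ _ _ t2, ?_⟩
    rw [cmpr_smul, cmpr_smul, LinearMap.det_smul, LinearMap.det_smul, hd, pow_succ, mul_assoc,
      div_mul_cancel₀ _ t4]
  have uniq : ∀ g T T', IsUnit T → I g T → LinearMap.det (cmpr h' T) = LinearMap.det (cmpr h T) →
      IsUnit T' → I g T' → LinearMap.det (cmpr h' T') = LinearMap.det (cmpr h T') → T = T' := by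
    intro g T T' t1 t2 t3 t4 t5 t6
    obtain ⟨c, rfl⟩ := hu g T T' t2 t5 t4
    have t7 := det_cmpr_ne_zero h t1 (hc g _ t2)
    rw [cmpr_smul, cmpr_smul, LinearMap.det_smul, LinearMap.det_smul, hd, pow_succ', t6,
      mul_assoc] at t3
    rw [cmpr_smul, LinearMap.det_smul] at t7
    rw [(mul_eq_right₀ t7).mp t3, one_smul]
  choose τ t1 t2 t3 using key
  refine ⟨⟨⟨τ, uniq 1 _ _ (t1 1) (t2 1) (t3 1) isUnit_one h1 (by simp [cmpr_one])⟩, fun g g' =>
    uniq _ _ _ (t1 _) (t2 _) (t3 _) ((t1 g).mul (t1 g')) (hm _ _ _ _ (t2 g) (t2 g')) ?_⟩, t2⟩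
  rw [cmpr_mul _ _ (hc _ _ (t2 g')), cmpr_mul _ _ (hc' _ _ (t2 g')), map_mul, map_mul, t3, t3]

end general

variable {F : Type*} [Field F] {l : Type*} [Fintype l] [DecidableEq l]

/-- The Weyl operators. -/
def weyl (ψ : AddChar F ℂ) (v : l ⊕ l → F) : End ℂ ((l → F) → ℂ) where
  toFun f x := ψ (∑ i, v (.inr i) * (2 * x i + v (.inl i))) * f (x + fun i => v (.inl i))
  map_add' f g := by ext; simp [mul_add]
  map_smul' c f := by ext; simp [mul_left_comm]

omit [DecidableEq l] in
theorem weyl_apply (ψ : AddChar F ℂ) (v : l ⊕ l → F) (f : (l → F) → ℂ) (x : l → F) : weyl ψ v f x =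
    ψ (∑ i, v (.inr i) * (2 * x i + v (.inl i))) * f (x + fun i => v (.inl i)) := rfl

omit [DecidableEq l] in
theorem weyl_zero (ψ : AddChar F ℂ) : weyl ψ (0 : l ⊕ l → F) = 1 := by
  ext f x
  simp [weyl_apply, ← Pi.zero_def]

theorem weyl_mul (ψ : AddChar F ℂ) (v w : l ⊕ l → F) :
    weyl ψ v * weyl ψ w = ψ (H10.spBilin l F w v) • weyl ψ (v + w) := by
  refine LinearMap.ext fun f => funext fun x => ?_
  simp only [End.mul_apply, weyl_apply, LinearMap.smul_apply, Pi.smul_apply, smul_eq_mul,
    ← mul_assoc, ← AddChar.map_add_eq_mul, H10.spBilin_apply_sum, ← Finset.sum_add_distrib,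
    Pi.add_apply, add_assoc x]
  congr 3
  ext i
  ring

variable [Fintype F] [DecidableEq F] {ψ : AddChar F ℂ}

theorem exists_basis_weyl (hψ : ψ ≠ 1) (h2 : (2 : F) ≠ 0) :
    ∃ b : Basis (l ⊕ l → F) ℂ (End ℂ ((l → F) → ℂ)), ∀ v, b v = weyl ψ v := by
  have : LinearIndependent ℂ (weyl ψ : (l ⊕ l → F) → _) := linearIndependent_iff'.mpr
    fun s c hs v hv => (smul_eq_zero.mp (eq_zero_of_sum_weight (fun w => LinearMap.mulLeft ℂ
      (weyl ψ w) ∘ₗ LinearMap.mulRight ℂ (weyl ψ (-w))) (χ := fun v w =>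
        ψ (2 * H10.spBilin l F v w)) (fun v v' e => sub_eq_zero.mp
          (H10.spBilin_nondegenerate.1 _ fun w => ?_)) s _ (fun v _ w => ?_) hs v hv)).resolve_right
            fun e => ?_
  · exact ⟨basisOfLinearIndependentOfCardEqFinrank this (by simp [finrank_linearMap, pow_add]),
      by simp⟩
  · rw [map_sub, LinearMap.sub_apply, sub_eq_zero]
    refine mul_left_cancel₀ h2 (eq_of_addChar hψ fun a => ?_)
    simpa [mul_comm, mul_left_comm] using congrFun e (a • w)
  · simp only [LinearMap.comp_apply, LinearMap.mulLeft_apply, LinearMap.mulRight_apply,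
      smul_mul_assoc, mul_smul_comm, weyl_mul, smul_smul, ← AddChar.map_add_eq_mul]
    rw [show w + (v + -w) = v by abel]
    simp [H10.spB_self, H10.spB_swap w v, two_mul, AddChar.map_add_eq_mul, mul_comm, mul_left_comm]
  · have := weyl_mul ψ v (-v)
    rw [e, zero_mul, add_neg_cancel, weyl_zero, map_neg, LinearMap.neg_apply, H10.spB_self,
      neg_zero, AddChar.map_zero_eq_one, one_smul] at this
    exact zero_ne_one this

theorem sum_weyl (hψ : ψ ≠ 1) (h2 : (2 : F) ≠ 0) : ∑ v : l ⊕ l → F, weyl ψ v =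
    (Fintype.card (l → F) : ℂ) • LinearMap.funLeft ℂ ℂ Neg.neg := by
  refine LinearMap.ext fun f => funext fun x => ?_
  rw [← (Equiv.sumArrowEquivProdArrow l l F).symm.sum_comp, Fintype.sum_prod_type]
  simp only [LinearMap.sum_apply, Finset.sum_apply, weyl_apply, ← Finset.sum_mul,
    Equiv.sumArrowEquivProdArrow_symm_apply_inl, Equiv.sumArrowEquivProdArrow_symm_apply_inr]
  rw [Finset.sum_eq_single (-(x + x)) (fun a _ ha => ?_) (by simp)]
  · simp [two_mul, LinearMap.funLeft_apply, ← Pi.neg_def, ← Pi.add_def]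
  · obtain ⟨i, hi⟩ := Function.ne_iff.mp ha
    obtain ⟨s, hs⟩ := DFunLike.ne_iff.mp hψ
    have hi' : 2 * x i + a i ≠ 0 := fun e => hi (by simp; linear_combination e)
    have := (ψ.compAddMonoidHom (AddMonoidHom.mk' (fun b : l → F => ∑ i, b i * (2 * x i + a i))
      (by simp [add_mul, Finset.sum_add_distrib]))).sum_eq_zero_iff_ne_zero.mpr
      (DFunLike.ne_iff.mpr ⟨Pi.single i (s / (2 * x i + a i)), by
        simpa [Pi.single_apply, hi'] using hs⟩)
    exact mul_eq_zero_of_left this _

theorem trace_funLeft_neg (h2 : (2 : F) ≠ 0) :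
    LinearMap.trace ℂ _ (LinearMap.funLeft ℂ ℂ (Neg.neg : (l → F) → l → F)) = 1 := by
  rw [LinearMap.trace_eq_matrix_trace ℂ (Pi.basisFun ℂ _), Matrix.trace,
    Finset.sum_eq_single 0 (fun x _ hx => ?_) (by simp)]
  · simp [LinearMap.funLeft_apply]
  · have : -x ≠ x := fun e => hx (funext fun i => mul_left_cancel₀ h2 (by
      have := congrFun e i
      rw [Pi.neg_apply] at this
      rw [Pi.zero_apply]
      linear_combination -this))
    simp [LinearMap.funLeft_apply, this]

theorem exists_weil [Nonempty l] (h2 : (2 : F) ≠ 0) : ∃ (W : Submodule ℂ ((l → F) → ℂ))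
    (ρ : Representation ℂ (symplecticGroup l F) W), ρ.IsIrreducible ∧
      2 * finrank ℂ W + 1 = Fintype.card F ^ Fintype.card l := by
  obtain ⟨ψ, hψ⟩ := exists_addChar_ne_one F
  obtain ⟨b, hb⟩ := exists_basis_weyl (l := l) hψ h2
  have hS := sum_weyl (l := l) hψ h2
  have hT := trace_funLeft_neg (l := l) h2
  have hP : (LinearMap.funLeft ℂ ℂ (Neg.neg : (l → F) → l → F) : End ℂ _) *
      LinearMap.funLeft ℂ ℂ Neg.neg = 1 := by ext; simp [LinearMap.funLeft_apply]
  generalize LinearMap.funLeft ℂ ℂ (Neg.neg : (l → F) → l → F) = P at hS hT hP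
  let E : End ℂ ((l → F) → ℂ) := (2⁻¹ : ℂ) • (1 - P)
  have hE : IsIdempotentElem E := by
    simp only [IsIdempotentElem, E, smul_mul_assoc, mul_smul_comm, mul_sub, sub_mul, hP, mul_one,
      one_mul]
    module
  have h := LinearMap.IsIdempotentElem.isProj_range _ hE
  have h' := LinearMap.IsIdempotentElem.isProj_range _ hE.one_sub
  have d := h.trace
  have d' := h'.trace
  rw [map_sub, d] at d'
  simp only [E, map_smul, map_sub, hT, LinearMap.trace_one, finrank_fintype_fun_eq_card,
    smul_eq_mul] at d d'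
  have d1 : 2 * finrank ℂ (LinearMap.range E) + 1 = Fintype.card (l → F) := by
    refine Nat.cast_injective (R := ℂ) ?_
    push_cast
    linear_combination -2 * d
  let e : symplecticGroup l F → (l ⊕ l → F) ≃ (l ⊕ l → F) := fun g => (H10.spEquiv g).1.toEquiv
  have he : ∀ g v, e g v = g.1 *ᵥ v := H10.spEquiv_apply
  have hc : ∀ g T, (∀ v, T * weyl ψ v = weyl ψ (e g v) * T) → T * E = E * T := fun g T hT => by
    have : T * P = P * T := smul_right_injective _
      (Nat.cast_ne_zero.mpr (Fintype.card_ne_zero (α := l → F)) : (_ : ℂ) ≠ 0) (by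
        beta_reduce
        rw [← mul_smul_comm, ← smul_mul_assoc, ← hS]
        simp only [Finset.mul_sum, Finset.sum_mul, hT]
        exact (e g).sum_comp fun v => weyl ψ v * T)
    simp only [E, smul_mul_assoc, mul_smul_comm, mul_sub, sub_mul, this, mul_one, one_mul]
  obtain ⟨τ, hτ⟩ := exists_lift h h' (Nat.cast_injective (R := ℂ) (by
      push_cast
      linear_combination 2 * d - d'))
    (fun (g : symplecticGroup l F) T => ∀ v, T * weyl ψ v = weyl ψ (e g v) * T)
    (fun g => by
      obtain ⟨T, hT⟩ := (AlgEquiv.ofLinearEquiv (b.equiv b (e g)) (by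
        rw [← weyl_zero ψ, ← hb, Basis.equiv_apply, he, mulVec_zero])
        ((LinearMap.map_mul_iff (b.equiv b (e g)).toLinearMap).mpr (b.ext fun v => b.ext fun w => by
          simp only [LinearMap.compr₂_apply, LinearMap.mul_apply', LinearMap.compl₂_apply,
            LinearMap.comp_apply, LinearEquiv.coe_coe, Basis.equiv_apply]
          rw [hb, hb, weyl_mul, map_smul, ← hb, Basis.equiv_apply, hb, hb, hb, weyl_mul, he, he, he,
            H10.sp_form, mulVec_add]))).eq_linearEquivConjAlgEquiv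
      refine ⟨T, T.isUnit_det' |> (LinearMap.isUnit_iff_isUnit_det _).mpr, fun v => ?_⟩
      have := AlgEquiv.congr_fun hT (b v)
      rw [AlgEquiv.ofLinearEquiv_apply, Basis.equiv_apply, hb, hb] at this
      rw [this]
      exact LinearMap.ext fun f => by simp)
    (fun v => by simp [he]) (fun g g' T T' t t' v => by
      rw [mul_assoc, t', ← mul_assoc, t, mul_assoc, he, he, he, H10.sp_mul_mulVec])
    (fun g T c t v => by rw [smul_mul_assoc, t, mul_smul_comm]) (fun g T T' t t' u => by
      obtain ⟨T', rfl⟩ := u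
      obtain ⟨c, _, hc⟩ := (End.mem_center_iff (f := T'⁻¹.1 * T)).mp
        (Semigroup.mem_center_iff.mpr fun X => LinearMap.congr_fun (b.ext (f₁ := LinearMap.mulRight
          ℂ (T'⁻¹.1 * T)) (f₂ := LinearMap.mulLeft ℂ (T'⁻¹.1 * T)) fun v => by
            rw [LinearMap.mulRight_apply, LinearMap.mulLeft_apply, hb, mul_assoc, t,
              Units.eq_inv_mul_iff_mul_eq, ← mul_assoc, t', mul_assoc, Units.mul_inv_cancel_left]) X)
      refine ⟨c, ?_⟩
      rw [Units.inv_mul_eq_iff_eq_mul] at hc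
      rw [hc]
      exact LinearMap.ext fun f => by simp) hc
  have hE' : ∀ g x, τ g (E x) = E (τ g x) := fun g => LinearMap.congr_fun (hc _ _ (hτ g))
  let S : Subrepresentation τ := ⟨LinearMap.range E, by
    rintro g _ ⟨x, rfl⟩
    exact ⟨_, (hE' g x).symm⟩⟩
  have : Nontrivial S.toSubmodule := finrank_pos_iff (R := ℂ) |>.mp (by
    have h3 : Fintype.card F ≤ Fintype.card (l → F) :=
      Fintype.card_le_of_injective _ (Function.const_injective (β := F) (α := l))
    have := Fintype.one_lt_card (α := F)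
    change 0 < finrank ℂ (LinearMap.range E)
    omega)
  refine ⟨_, S.toRepresentation, isIrreducible_of_comm _ fun X hX => ?_, by simpa using d1⟩
  let Y : End ℂ ((l → F) → ℂ) := (LinearMap.range E).subtype ∘ₗ X ∘ₗ h.codRestrict
  have hY : ∀ g, τ g * Y = Y * τ g := fun g => LinearMap.ext fun x => by
    refine (congrArg Subtype.val (LinearMap.congr_fun (hX g) (h.codRestrict x))).symm.trans ?_
    exact congrArg (fun y => (X y).1) (Subtype.ext (hE' g x))
  have hr : ∀ g v, b.repr Y (e g v) = b.repr Y v := fun g v => by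
    have h1 : Y = ∑ v, b.repr Y v • b (e g v) := by
      refine (τ.apply_bijective g |> (End.isUnit_iff _).mpr).mul_right_cancel ?_
      rw [← hY]
      conv_lhs => rw [← b.sum_repr Y]
      simp only [Finset.mul_sum, Finset.sum_mul, mul_smul_comm, smul_mul_assoc, hb, hτ g]
    conv_lhs => rw [h1]
    simp [Finsupp.single_apply]
  obtain ⟨v0, hv0⟩ := exists_ne (0 : l ⊕ l → F)
  have hY' : Y = (b.repr Y 0 - b.repr Y v0) • 1 + b.repr Y v0 • ∑ v, weyl ψ v := by
    refine b.ext_elem fun v => ?_
    simp only [← weyl_zero ψ, ← hb, map_add, map_smul, map_sum, Basis.repr_self, Finsupp.add_apply,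
      Finsupp.smul_apply, Finsupp.finsetSum_apply, Finsupp.single_apply, Finset.sum_ite_eq',
      Finset.mem_univ, if_true, smul_eq_mul]
    split_ifs with h0
    · simp [← h0]
    · obtain ⟨g, hg⟩ := H10.exists_sp_apply_eq hv0 (Ne.symm h0)
      rw [← hg, ← he, hr]
      simp
  refine ⟨b.repr Y 0 - b.repr Y v0 - b.repr Y v0 * Fintype.card (l → F),
    LinearMap.ext fun x => Subtype.ext ?_⟩
  have h1 : P x.1 = -x.1 := by
    have := h.map_id _ x.2
    simp only [E, LinearMap.smul_apply, LinearMap.sub_apply, End.one_apply] at this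
    linear_combination (norm := module) (-2 : ℂ) • this
  have h3 := LinearMap.congr_fun hY' x.1
  rw [hS] at h3
  simp only [Y, LinearMap.comp_apply, h.codRestrict_apply_cod, LinearMap.add_apply,
    LinearMap.smul_apply, End.one_apply, h1] at h3
  refine h3.trans ?_
  simp only [LinearMap.smul_apply, End.one_apply, Submodule.coe_smul]
  module

end Cfsg.Agent.H11
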